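import Mathlib
import Cfsg.Agent.Perm57.IndexDegree

/-!
The symmetric design of an intransitive subgroup whose index is the degree of a doubly transitive
group: the blocks are the translates of one of its two orbits.
-/

set_option autoImplicit false

namespace CfsgLib.ItoDesign48

open MulAction Finset
open scoped Classical

/-- A symmetric design with a group which is doubly transitive on points and on blocks. -/
structure Sym (G P Q : Type*) [Group G] [MulAction G P] [MulAction G Q] [Fintype P]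
    [Fintype Q] where
  inc : P → Q → Prop
  inc_smul : ∀ (g : G) (y : P) (B : Q), inc (g • y) (g • B) ↔ inc y B
  k : ℕ
  l : ℕ
  pts : ∀ B, #{y | inc y B} = k
  thru : ∀ y, #{B | inc y B} = k
  pairP : ∀ y z, y ≠ z → #{B | inc y B ∧ inc z B} = l
  pairQ : ∀ B C, B ≠ C → #{y | inc y B ∧ inc y C} = l
  fix_eq : ∀ g : G, #{y : P | g • y = y} = #{B : Q | g • B = B}
  cardQ : Fintype.card Q = Fintype.card P
  transP : ∀ a b c d : P, a ≠ b → c ≠ d → ∃ g : G, g • a = c ∧ g • b = d
  transQ : ∀ a b c d : Q, a ≠ b → c ≠ d → ∃ g : G, g • a = c ∧ g • b = d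
  transB : ∀ B y y', (inc y B ↔ inc y' B) → ∃ g : G, g • B = B ∧ g • y = y'
  two_le_k : 2 ≤ k
  k_add_two : k + 2 ≤ Fintype.card P
  mul_eq : l * (Fintype.card P - 1) = k * (k - 1)

theorem card_fix_eq_of_intertwine {P : Type*} [Fintype P] [DecidableEq P] (M : Matrix P P ℚ)
    (hM : IsUnit M.det) (σ τ : Equiv.Perm P) (h : ∀ x y, M (σ x) (τ y) = M x y) :
    #{x | σ x = x} = #{x | τ x = x} := by
  set A : Matrix P P ℚ := (1 : Matrix P P ℚ).submatrix σ id with hA
  set B : Matrix P P ℚ := (1 : Matrix P P ℚ).submatrix τ id with hB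
  have htr : ∀ π : Equiv.Perm P,
      ((1 : Matrix P P ℚ).submatrix π id).trace = (#{x | π x = x} : ℕ) := by
    intro π
    simp [Matrix.trace, Matrix.one_apply, Finset.sum_boole]
  have hAM : A * M = M * B := by
    ext x y
    simp only [hA, hB, Matrix.mul_apply, Matrix.submatrix_apply, Matrix.one_apply, id_eq,
      ite_mul, one_mul, zero_mul, mul_ite, mul_one, mul_zero, Finset.sum_ite_eq, Finset.mem_univ,
      if_true]
    rw [Finset.sum_eq_single (τ.symm y) (fun b _ hb => if_neg fun e => hb (by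
      rw [← e, Equiv.symm_apply_apply])) (fun hn => absurd (Finset.mem_univ _) hn),
      if_pos (Equiv.apply_symm_apply _ _), ← h x (τ.symm y), Equiv.apply_symm_apply]
  have h1 : A = M * B * M⁻¹ := by
    rw [← hAM, Matrix.mul_assoc, Matrix.mul_nonsing_inv _ hM, Matrix.mul_one]
  have h2 : A.trace = B.trace := by
    rw [h1, Matrix.trace_mul_comm, ← Matrix.mul_assoc, Matrix.nonsing_inv_mul _ hM,
      Matrix.one_mul]
  rw [hA, hB, htr, htr] at h2
  exact_mod_cast h2

theorem isUnit_det_of_design {P : Type*} [Fintype P] [DecidableEq P] (M : Matrix P P ℚ) (a b : ℚ)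
    (h : ∀ x y, (M * M.transpose) x y = if x = y then a + b else b) (ha : 0 < a) (hb : 0 ≤ b) :
    IsUnit M.det := by
  rw [isUnit_iff_ne_zero]
  intro h0
  obtain ⟨v, hv, hv'⟩ := Matrix.exists_mulVec_eq_zero_iff.mpr
    (show (M * M.transpose).det = 0 by rw [Matrix.det_mul, h0, zero_mul])
  apply hv
  have hx : ∀ x, a * v x + b * ∑ y, v y = 0 := by
    intro x
    have := congrFun hv' x
    simp only [Matrix.mulVec, dotProduct, h, Pi.zero_apply] at this
    rw [Finset.sum_congr rfl (g := fun y => b * v y + if x = y then a * v y else 0)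
      (fun y _ => by
        split_ifs with hxy
        · subst hxy; ring
        · ring), Finset.sum_add_distrib, Finset.sum_ite_eq,
      if_pos (Finset.mem_univ _), ← Finset.mul_sum] at this
    rw [add_comm]; exact this
  have hsum := congrArg (fun f : P → ℚ => ∑ x, f x) (funext hx)
  simp only [Finset.sum_add_distrib, ← Finset.mul_sum, Finset.sum_const, Finset.card_univ,
    Finset.sum_const_zero, nsmul_eq_mul] at hsum
  have hn : (0 : ℚ) ≤ Fintype.card P := Nat.cast_nonneg _
  have hS : (a + Fintype.card P * b) * ∑ y, v y = 0 := by linear_combination hsum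
  have hS' := (mul_eq_zero.mp hS).resolve_left (by positivity)
  funext x
  have := hx x
  rw [hS', mul_zero, add_zero] at this
  exact (mul_eq_zero.mp this).resolve_left ha.ne'

variable {G Ω : Type*} [Group G] [MulAction G Ω]

/-- Membership of a point in the translate of `O` named by a coset. -/
def Inc (H : Subgroup G) (O : Set Ω) (y : Ω) (B : G ⧸ H) : Prop :=
  ∃ g : G, (g : G ⧸ H) = B ∧ g⁻¹ • y ∈ O

theorem inc_mk_iff {H : Subgroup G} {O : Set Ω} (hO : ∀ h ∈ H, ∀ y ∈ O, h • y ∈ O) (g : G)
    (y : Ω) : Inc H O y (g : G ⧸ H) ↔ g⁻¹ • y ∈ O := by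
  refine ⟨fun ⟨g', hg', h⟩ => ?_, fun h => ⟨g, rfl, h⟩⟩
  have := hO _ (QuotientGroup.eq.1 hg'.symm) _ h
  rwa [mul_smul, smul_inv_smul] at this

/-- The design of an intransitive subgroup of index the degree, with blocks the translates of the
orbit of `a`. -/
theorem exists_sym [Finite G] [Fintype Ω] (h2 : IsMultiplyPretransitive G Ω 2) (H : Subgroup G)
    [Fintype (G ⧸ H)]
    (hidx : H.index = Nat.card Ω) (hnt : ¬ IsPretransitive H Ω)
    (hfix : ∀ a : Ω, ∃ h : H, h • a ≠ a) (a : Ω) :
    ∃ D : Sym G Ω (G ⧸ H), ∀ y : Ω, D.inc y ((1 : G) : G ⧸ H) ↔ y ∈ orbit H a := by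
  classical
  set O : Set Ω := orbit H a with hOdef
  have hO : ∀ h ∈ H, ∀ y ∈ O, h • y ∈ O := fun h hh y hy =>
    (mem_orbit_of_mem_orbit (⟨h, hh⟩ : H) hy)
  have hinc : ∀ (g : G) (y : Ω) (B : G ⧸ H), Inc H O (g • y) (g • B) ↔ Inc H O y B := by
    intro g y B
    obtain ⟨c, rfl⟩ := QuotientGroup.mk_surjective B
    rw [MulAction.Quotient.smul_coe, inc_mk_iff hO, inc_mk_iff hO, smul_eq_mul,
      _root_.mul_inv_rev, mul_smul, inv_smul_smul]
  have h2' : ∀ {x y c d : Ω}, x ≠ y → c ≠ d → ∃ g : G, g • x = c ∧ g • y = d :=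
    is_two_pretransitive_iff.1 h2
  have hone : ∀ y : Ω, Inc H O y ((1 : G) : G ⧸ H) ↔ y ∈ O := fun y => by
    rw [inc_mk_iff hO, inv_one, one_smul]
  set n := Fintype.card Ω with hn
  have hcQ : Fintype.card (G ⧸ H) = n := by
    rw [← Nat.card_eq_fintype_card, hn, ← Nat.card_eq_fintype_card, ← hidx]; rfl
  obtain ⟨h₀, hh₀⟩ := hfix a
  have htr1 : ∀ x y : Ω, ∃ g : G, g • x = y := fun x y => by
    by_cases hxy : x = y
    · exact ⟨1, by rw [one_smul, hxy]⟩
    · obtain ⟨g, hg, -⟩ := h2' hxy (Ne.symm hxy)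
      exact ⟨g, hg⟩
  -- points on a block, blocks through a point
  set k := #{y | Inc H O y ((1 : G) : G ⧸ H)} with hk
  have hpts : ∀ B : G ⧸ H, #{y | Inc H O y B} = k := by
    intro B
    obtain ⟨g, rfl⟩ := QuotientGroup.mk_surjective B
    refine Finset.card_equiv (MulAction.toPerm g⁻¹) fun y => ?_
    simp only [Finset.mem_filter, Finset.mem_univ, true_and, MulAction.toPerm_apply]
    rw [← hinc g (g⁻¹ • y), smul_inv_smul, MulAction.Quotient.smul_coe, smul_eq_mul, mul_one]
  set r := #{B | Inc H O a B} with hr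
  have hthru : ∀ y : Ω, #{B | Inc H O y B} = r := by
    intro y
    obtain ⟨g, rfl⟩ := htr1 a y
    refine Finset.card_equiv (MulAction.toPerm g⁻¹) fun B => ?_
    simp only [Finset.mem_filter, Finset.mem_univ, true_and, MulAction.toPerm_apply]
    rw [← hinc g⁻¹, inv_smul_smul]
  have hn0 : 0 < n := Fintype.card_pos_iff.2 ⟨a⟩
  have hrk : r = k := by
    have h := Finset.sum_card_bipartiteAbove_eq_sum_card_bipartiteBelow
      (s := (Finset.univ : Finset Ω)) (t := (Finset.univ : Finset (G ⧸ H))) (Inc H O)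
    simp only [Finset.bipartiteAbove, Finset.bipartiteBelow, hpts, hthru, Finset.sum_const,
      Finset.card_univ, smul_eq_mul, hcQ, ← hn] at h
    exact Nat.eq_of_mul_eq_mul_left hn0 h
  have hk2 : 2 ≤ k := by
    have hsub : ({a, (h₀ : G) • a} : Finset Ω) ⊆
        ({y | Inc H O y ((1 : G) : G ⧸ H)} : Finset Ω) := by
      intro y hy
      simp only [Finset.mem_insert, Finset.mem_singleton] at hy
      simp only [Finset.mem_filter, Finset.mem_univ, true_and, hone]
      rcases hy with rfl | rfl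
      · exact mem_orbit_self y
      · exact mem_orbit a h₀
    have := Finset.card_le_card hsub
    rwa [Finset.card_pair (show a ≠ (h₀ : G) • a from fun e => hh₀ e.symm)] at this
  obtain ⟨b, hb⟩ : ∃ b, b ∉ O := by
    by_contra hc
    push Not at hc
    exact hnt ((isPretransitive_iff_orbit_eq_univ a).2 (Set.eq_univ_of_forall hc))
  obtain ⟨h₁, hh₁⟩ := hfix b
  have hkn : k + 2 ≤ n := by
    have hb' : (h₁ : G) • b ∉ O := fun h => hb (by
      have h' := hO _ (H.inv_mem h₁.2) _ h
      rwa [inv_smul_smul] at h')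
    have hd : Disjoint ({y | Inc H O y ((1 : G) : G ⧸ H)} : Finset Ω)
        ({b, (h₁ : G) • b} : Finset Ω) := by
      rw [Finset.disjoint_right]
      intro y hy hy'
      simp only [Finset.mem_filter, Finset.mem_univ, true_and, hone] at hy'
      simp only [Finset.mem_insert, Finset.mem_singleton] at hy
      rcases hy with rfl | rfl
      · exact hb hy'
      · exact hb' hy'
    have hh := (Finset.card_union_of_disjoint hd).symm.trans_le (Finset.card_le_univ _)
    rwa [Finset.card_pair (show b ≠ (h₁ : G) • b from fun e => hh₁ e.symm)] at hh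
  -- pairs of points
  have hab : a ≠ b := fun e => hb (e ▸ mem_orbit_self a)
  set l := #{B | Inc H O a B ∧ Inc H O b B} with hl
  have hpairP : ∀ y z, y ≠ z → #{B | Inc H O y B ∧ Inc H O z B} = l := by
    intro y z hyz
    obtain ⟨g, hg1, hg2⟩ := h2' hab hyz
    subst hg1 hg2
    refine Finset.card_equiv (MulAction.toPerm g⁻¹) fun B => ?_
    simp only [Finset.mem_filter, Finset.mem_univ, true_and, MulAction.toPerm_apply]
    rw [← hinc g⁻¹ (g • a), ← hinc g⁻¹ (g • b), inv_smul_smul, inv_smul_smul]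
  have hmul : l * (n - 1) = k * (k - 1) := by
    have h := Finset.sum_card_bipartiteAbove_eq_sum_card_bipartiteBelow
      (s := (Finset.univ.erase a : Finset Ω))
      (t := ({B | Inc H O a B} : Finset (G ⧸ H))) (Inc H O)
    simp only [Finset.bipartiteAbove, Finset.bipartiteBelow] at h
    have hL : ∀ z ∈ (Finset.univ.erase a : Finset Ω),
        #{B ∈ ({B | Inc H O a B} : Finset (G ⧸ H)) | Inc H O z B} = l := fun z hz => by
      rw [Finset.filter_filter]; exact hpairP a z (Finset.ne_of_mem_erase hz).symm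
    have hR : ∀ B ∈ ({B | Inc H O a B} : Finset (G ⧸ H)),
        #{z ∈ (Finset.univ.erase a : Finset Ω) | Inc H O z B} = k - 1 := fun B hB => by
      rw [Finset.filter_erase, Finset.card_erase_of_mem (by simpa using hB), hpts]
    rw [Finset.sum_congr rfl hL, Finset.sum_congr rfl hR] at h
    simp only [Finset.sum_const, smul_eq_mul, Finset.card_erase_of_mem (Finset.mem_univ a),
      Finset.card_univ, ← hn] at h
    rw [← hr, hrk] at h
    rw [mul_comm, h]
  have hlk : l < k := by
    by_contra hc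
    push Not at hc
    have h1 : k * (n - 1) ≤ l * (n - 1) := Nat.mul_le_mul_right _ hc
    rw [hmul] at h1
    have := Nat.le_of_mul_le_mul_left h1 (by omega)
    omega
  -- fixed points
  obtain ⟨e⟩ : Nonempty (Ω ≃ G ⧸ H) := ⟨Fintype.equivOfCardEq hcQ.symm⟩
  set M : Matrix Ω Ω ℚ := Matrix.of fun x y => if Inc H O x (e y) then (1 : ℚ) else 0 with hM
  have hMM : ∀ x y, (M * M.transpose) x y =
      if x = y then ((k : ℚ) - l) + l else (l : ℚ) := by
    intro x y
    have h1 : (M * M.transpose) x y = (#{B | Inc H O x B ∧ Inc H O y B} : ℕ) := by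
      rw [Finset.natCast_card_filter, ← Equiv.sum_comp e]
      simp only [hM, Matrix.mul_apply, Matrix.transpose_apply, Matrix.of_apply]
      exact Finset.sum_congr rfl fun z _ => by split_ifs <;> simp_all
    rw [h1]
    split_ifs with hxy
    · subst hxy
      simp only [and_self, hthru, hrk, sub_add_cancel]
    · rw [hpairP x y hxy]
  have hdet := isUnit_det_of_design M _ _ hMM (sub_pos.2 (by exact_mod_cast hlk)) (Nat.cast_nonneg l)
  have hfixeq : ∀ g : G, #{y : Ω | g • y = y} = #{B : G ⧸ H | g • B = B} := by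
    intro g
    have h := card_fix_eq_of_intertwine M hdet (MulAction.toPerm g)
      ((e.trans (MulAction.toPerm g)).trans e.symm) fun x y => by
        simp only [hM, Matrix.of_apply, Equiv.trans_apply, Equiv.apply_symm_apply,
          MulAction.toPerm_apply, hinc]
    simp only [MulAction.toPerm_apply] at h
    refine h.trans (Finset.card_equiv e fun x => ?_)
    simp [Equiv.symm_apply_eq]
  -- orbits of `H` on points and on cosets
  letI : Fintype H := Fintype.ofFinite _
  letI : Fintype (orbitRel.Quotient H Ω) := Fintype.ofFinite _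
  letI : Fintype (orbitRel.Quotient H (G ⧸ H)) := Fintype.ofFinite _
  have h2o : Fintype.card (orbitRel.Quotient H Ω) = 2 := by
    rw [← Nat.card_eq_fintype_card]; exact CfsgLib.Perm57.two_orbits h2 hidx hnt
  have hoQ : Fintype.card (orbitRel.Quotient H (G ⧸ H)) = 2 := by
    have b1 := MulAction.sum_card_fixedBy_eq_card_orbits_mul_card_group H Ω
    have b2 := MulAction.sum_card_fixedBy_eq_card_orbits_mul_card_group H (G ⧸ H)
    have hs : ∑ h : H, Fintype.card (fixedBy Ω h) = ∑ h : H, Fintype.card (fixedBy (G ⧸ H) h) := by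
      refine Finset.sum_congr rfl fun h _ => ?_
      rw [Fintype.card_subtype, Fintype.card_subtype]
      exact hfixeq h
    rw [b1, b2] at hs
    rw [← h2o]
    exact (Nat.eq_of_mul_eq_mul_right Fintype.card_pos hs).symm
  have hfix1 : ∀ h : H, (h : G) • ((1 : G) : G ⧸ H) = ((1 : G) : G ⧸ H) := fun h => by
    rw [MulAction.Quotient.smul_coe, smul_eq_mul, mul_one]
    exact QuotientGroup.eq.2 (by simp)
  have hHQ : ∀ B C : G ⧸ H, B ≠ ((1 : G) : G ⧸ H) → C ≠ ((1 : G) : G ⧸ H) →
      ∃ h ∈ H, h • B = C := by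
    intro B C hB hC
    let q : G ⧸ H → orbitRel.Quotient H (G ⧸ H) := fun X => Quotient.mk'' X
    have hne : ∀ X, X ≠ ((1 : G) : G ⧸ H) → q X ≠ q ((1 : G) : G ⧸ H) := by
      intro X hX hq
      obtain ⟨h, hh⟩ := orbitRel_apply.1 (Quotient.exact' hq)
      exact hX (hh.symm.trans (hfix1 h))
    have hqq : q B = q C := by
      by_contra hne'
      have h3 := Finset.card_le_univ ({q B, q C, q ((1 : G) : G ⧸ H)} : Finset _)
      rw [hoQ, Finset.card_eq_three.2 ⟨_, _, _, hne', hne B hB, hne C hC, rfl⟩] at h3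
      omega
    obtain ⟨h, hh⟩ := orbitRel_apply.1 (Quotient.exact' hqq.symm)
    exact ⟨h, h.2, hh⟩
  have htQ : ∀ B B' C C' : G ⧸ H, B ≠ B' → C ≠ C' → ∃ g : G, g • B = C ∧ g • B' = C' := by
    intro B B' C C' hB hC
    obtain ⟨x, hx⟩ := MulAction.exists_smul_eq G B ((1 : G) : G ⧸ H)
    obtain ⟨y, hy⟩ := MulAction.exists_smul_eq G C ((1 : G) : G ⧸ H)
    obtain ⟨h, hh, hhe⟩ := hHQ (x • B') (y • C')
      (fun e => hB (smul_left_cancel x (hx.trans e.symm)))
      (fun e => hC (smul_left_cancel y (hy.trans e.symm)))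
    refine ⟨y⁻¹ * h * x, ?_, ?_⟩
    · rw [mul_smul, mul_smul, hx]
      have := hfix1 ⟨h, hh⟩
      rw [this, inv_smul_eq_iff, hy]
    · rw [mul_smul, mul_smul, hhe, inv_smul_smul]
  have hHΩ : ∀ y y' : Ω, (y ∈ O ↔ y' ∈ O) → ∃ h ∈ H, h • y = y' := by
    intro y y' hiff
    let q : Ω → orbitRel.Quotient H Ω := fun X => Quotient.mk'' X
    have hmem : ∀ X, q X = q a ↔ X ∈ O := fun X => by
      rw [hOdef]
      exact ⟨fun hq => orbitRel_apply.1 (Quotient.exact' hq), fun hX => Quotient.sound' hX⟩
    have hqq : q y = q y' := by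
      by_cases hy : y ∈ O
      · exact ((hmem y).2 hy).trans ((hmem y').2 (hiff.1 hy)).symm
      by_contra hne'
      have h3 := Finset.card_le_univ ({q y, q y', q a} : Finset _)
      rw [h2o, Finset.card_eq_three.2 ⟨_, _, _, hne', fun e => hy ((hmem y).1 e),
        fun e => hy (hiff.2 ((hmem y').1 e)), rfl⟩] at h3
      omega
    obtain ⟨h, hh⟩ := orbitRel_apply.1 (Quotient.exact' hqq.symm)
    exact ⟨h, h.2, hh⟩
  have hpairQ : ∀ B C : G ⧸ H, B ≠ C → #{y | Inc H O y B ∧ Inc H O y C} = l := by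
    intro B C hBC
    have hconst : ∀ D : G ⧸ H, D ≠ B →
        #{y | Inc H O y B ∧ Inc H O y D} = #{y | Inc H O y B ∧ Inc H O y C} := by
      intro D hD
      obtain ⟨g, hg1, hg2⟩ := htQ B D B C hD.symm hBC
      refine Finset.card_equiv (MulAction.toPerm g) fun y => ?_
      simp only [Finset.mem_filter, Finset.mem_univ, true_and, MulAction.toPerm_apply]
      conv_rhs => rw [← hg2]
      nth_rw 1 [← hinc g y B, hg1, ← hinc g y D]
    have h := Finset.sum_card_bipartiteAbove_eq_sum_card_bipartiteBelow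
      (s := ({y | Inc H O y B} : Finset Ω))
      (t := (Finset.univ.erase B : Finset (G ⧸ H))) (Inc H O)
    simp only [Finset.bipartiteAbove, Finset.bipartiteBelow] at h
    have hL : ∀ y ∈ ({y | Inc H O y B} : Finset Ω),
        #{D ∈ (Finset.univ.erase B : Finset (G ⧸ H)) | Inc H O y D} = k - 1 := fun y hy => by
      rw [Finset.filter_erase, Finset.card_erase_of_mem (by simpa using hy), hthru, hrk]
    have hR : ∀ D ∈ (Finset.univ.erase B : Finset (G ⧸ H)),
        #{y ∈ ({y | Inc H O y B} : Finset Ω) | Inc H O y D}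
          = #{y | Inc H O y B ∧ Inc H O y C} := fun D hD => by
      rw [Finset.filter_filter]; exact hconst D (Finset.ne_of_mem_erase hD)
    rw [Finset.sum_congr rfl hL, Finset.sum_congr rfl hR] at h
    simp only [Finset.sum_const, smul_eq_mul, Finset.card_erase_of_mem (Finset.mem_univ B),
      Finset.card_univ, hcQ, hpts] at h
    rw [← hmul, mul_comm l] at h
    exact (Nat.eq_of_mul_eq_mul_left (by omega) h).symm
  refine ⟨{
    inc := Inc H O
    inc_smul := hinc
    k := k
    l := l
    pts := hpts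
    thru := fun y => (hthru y).trans hrk
    pairP := hpairP
    pairQ := hpairQ
    fix_eq := fun g => by convert hfixeq g
    cardQ := hcQ
    transP := fun x y c d h1 h2 => h2' h1 h2
    transQ := htQ
    transB := ?_
    two_le_k := hk2
    k_add_two := hkn
    mul_eq := hmul }, hone⟩
  intro B y y' hiff
  obtain ⟨g, rfl⟩ := QuotientGroup.mk_surjective B
  rw [inc_mk_iff hO, inc_mk_iff hO] at hiff
  obtain ⟨h, hh, hhe⟩ := hHΩ _ _ hiff
  refine ⟨g * h * g⁻¹, ?_, by rw [mul_smul, mul_smul, hhe, smul_inv_smul]⟩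
  rw [MulAction.Quotient.smul_coe, smul_eq_mul]
  exact QuotientGroup.eq.2 (by simpa [mul_assoc] using hh)

end CfsgLib.ItoDesign48
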