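import Mathlib
import Cfsg.Agent.ItoDesign48.Setup

/-!
Elation groups of a symmetric design: the group fixing a block pointwise is transitive off the
block.
-/

set_option autoImplicit false

namespace CfsgLib.ItoDesign48

open MulAction Finset
open scoped Classical

variable {G P Q : Type*} [Group G] [MulAction G P] [MulAction G Q] [Fintype P] [Fintype Q]

namespace Sym

variable (D : Sym G P Q)

/-- The points of a block. -/
noncomputable def ptsF (B : Q) : Finset P := {y | D.inc y B}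

/-- The blocks through a point. -/
noncomputable def blkF (y : P) : Finset Q := {B | D.inc y B}

@[simp] theorem mem_ptsF {y : P} {B : Q} : y ∈ D.ptsF B ↔ D.inc y B := by simp [ptsF]

@[simp] theorem mem_blkF {y : P} {B : Q} : B ∈ D.blkF y ↔ D.inc y B := by simp [blkF]

theorem card_ptsF (B : Q) : #(D.ptsF B) = D.k := D.pts B

theorem card_blkF (y : P) : #(D.blkF y) = D.k := D.thru y

theorem card_ptsF_inter {B C : Q} (h : B ≠ C) : #(D.ptsF B ∩ D.ptsF C) = D.l := by
  rw [← D.pairQ B C h]; congr 1; ext; simp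

theorem card_blkF_inter {y z : P} (h : y ≠ z) : #(D.blkF y ∩ D.blkF z) = D.l := by
  rw [← D.pairP y z h]; congr 1; ext; simp

theorem card_ptsF_sdiff {B C : Q} (h : B ≠ C) : #(D.ptsF C \ D.ptsF B) = D.k - D.l := by
  have := Finset.card_sdiff_add_card_inter (D.ptsF C) (D.ptsF B)
  rw [D.card_ptsF, D.card_ptsF_inter h.symm] at this
  omega

theorem one_le_l : 1 ≤ D.l := by
  have h1 := D.two_le_k
  rcases Nat.eq_zero_or_pos D.l with h | h
  · have := D.mul_eq
    rw [h, zero_mul] at this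
    rcases Nat.mul_eq_zero.1 this.symm with h' | h' <;> omega
  · exact h

theorem l_lt : D.l < D.k := by
  have h1 := D.two_le_k
  have h2 := D.k_add_two
  by_contra hc
  push Not at hc
  have h3 : D.k * (Fintype.card P - 1) ≤ D.l * (Fintype.card P - 1) := Nat.mul_le_mul_right _ hc
  rw [D.mul_eq] at h3
  have := Nat.le_of_mul_le_mul_left h3 (by omega)
  omega

theorem mul_compl : (Fintype.card P - D.k) * D.l = (D.k - 1) * (D.k - D.l) := by
  have h1 := D.mul_eq
  have h2 := D.k_add_two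
  have h3 := D.l_lt
  have h4 := D.two_le_k
  zify [show 1 ≤ Fintype.card P by omega, show 1 ≤ D.k by omega, show D.k ≤ Fintype.card P by omega,
    h3.le] at h1 ⊢
  linear_combination h1

theorem eq_of_blkF_subset {y z : P} (h : ∀ B, D.inc y B → D.inc z B) : y = z := by
  by_contra hne
  have h1 : D.blkF y ⊆ D.blkF y ∩ D.blkF z := fun B hB =>
    Finset.mem_inter.2 ⟨hB, D.mem_blkF.2 (h B (D.mem_blkF.1 hB))⟩
  have h2 := Finset.card_le_card h1
  rw [D.card_blkF, D.card_blkF_inter hne] at h2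
  exact absurd h2 (not_le.2 D.l_lt)

theorem eq_of_ptsF_subset {B C : Q} (h : ∀ y, D.inc y B → D.inc y C) : B = C := by
  by_contra hne
  have h1 : D.ptsF B ⊆ D.ptsF B ∩ D.ptsF C := fun y hy =>
    Finset.mem_inter.2 ⟨hy, D.mem_ptsF.2 (h y (D.mem_ptsF.1 hy))⟩
  have h2 := Finset.card_le_card h1
  rw [D.card_ptsF, D.card_ptsF_inter hne] at h2
  exact absurd h2 (not_le.2 D.l_lt)

theorem smul_inc_iff {g : G} {B : Q} (hg : g • B = B) (y : P) :
    D.inc (g • y) B ↔ D.inc y B := by
  conv_lhs => rw [← hg]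
  exact D.inc_smul g y B

theorem exists_not_inc (B : Q) : ∃ y, ¬ D.inc y B := by
  by_contra h
  push Not at h
  have : D.ptsF B = Finset.univ := Finset.eq_univ_of_forall fun y => D.mem_ptsF.2 (h y)
  have h2 := D.card_ptsF B
  rw [this, Finset.card_univ] at h2
  have := D.k_add_two
  omega

theorem exists_inc (B : Q) : ∃ y, D.inc y B := by
  obtain ⟨y, hy⟩ : (D.ptsF B).Nonempty :=
    Finset.card_pos.1 (by rw [D.card_ptsF]; have := D.two_le_k; omega)
  exact ⟨y, D.mem_ptsF.1 hy⟩

end Sym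

/-- If a subgroup acts freely on an invariant finite set, its order divides the cardinality. -/
theorem card_dvd_of_free {α : Type*} [MulAction G α] [Fintype G] (X : Subgroup G) (S : Finset α)
    (hinv : ∀ x ∈ X, ∀ y ∈ S, x • y ∈ S) (hfree : ∀ x ∈ X, ∀ y ∈ S, x • y = y → x = 1) :
    #({x | x ∈ X} : Finset G) ∣ #S := by
  set XF : Finset G := {x | x ∈ X} with hXF
  let o : α → Finset α := fun y => XF.image (· • y)
  have hmem : ∀ y z, z ∈ o y ↔ ∃ x ∈ X, x • y = z := fun y z => by simp [o, XF]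
  have hsame : ∀ y z, z ∈ o y → o z = o y := by
    intro y z hz
    obtain ⟨x, hx, rfl⟩ := (hmem y z).1 hz
    ext u
    rw [hmem, hmem]
    constructor
    · rintro ⟨x', hx', rfl⟩
      exact ⟨x' * x, X.mul_mem hx' hx, mul_smul _ _ _⟩
    · rintro ⟨x', hx', rfl⟩
      exact ⟨x' * x⁻¹, X.mul_mem hx' (X.inv_mem hx), by rw [mul_smul, inv_smul_smul]⟩
  rw [Finset.card_eq_sum_card_image o S]
  refine Finset.dvd_sum fun O hO => dvd_of_eq ?_
  obtain ⟨y, hy, rfl⟩ := Finset.mem_image.1 hO
  have hfib : ({z ∈ S | o z = o y} : Finset α) = o y := by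
    ext z
    rw [Finset.mem_filter]
    constructor
    · rintro ⟨hz, he⟩
      rw [← he, hmem]
      exact ⟨1, X.one_mem, one_smul _ _⟩
    · intro hz
      obtain ⟨x, hx, rfl⟩ := (hmem y z).1 hz
      exact ⟨hinv x hx y hy, hsame _ _ hz⟩
  rw [hfib]
  refine (Finset.card_image_of_injOn ?_).symm
  intro u hu v hv huv
  simp only [Finset.mem_coe, hXF, Finset.mem_filter, Finset.mem_univ, true_and] at hu hv
  have := hfree _ (X.mul_mem (X.inv_mem hv) hu) y hy (by
    rw [mul_smul, inv_smul_eq_iff]; exact huv)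
  exact (inv_mul_eq_one.1 this).symm

/-- An equivariant family of groups, each fixing a block pointwise and semiregular off it. -/
structure Elation (D : Sym G P Q) where
  E : Q → Subgroup G
  conj : ∀ (g : G) (B : Q), ∀ x ∈ E B, g * x * g⁻¹ ∈ E (g • B)
  fixB : ∀ B, ∀ x ∈ E B, x • B = B
  fixP : ∀ B, ∀ x ∈ E B, ∀ y, D.inc y B → x • y = y
  semireg : ∀ B, ∀ x ∈ E B, ∀ y, ¬ D.inc y B → x • y = y → x = 1
  ne_bot : ∀ B, E B ≠ ⊥

namespace Elation

variable [Fintype G] {D : Sym G P Q} (T : Elation D)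

/-- The elements of the group of `B`. -/
noncomputable def EF (B : Q) : Finset G := {x | x ∈ T.E B}

/-- The elements of the group of `B` which fix `C`. -/
noncomputable def stabF (B C : Q) : Finset G := {x | x ∈ T.E B ∧ x • C = C}

/-- The blocks containing all common points of two blocks. -/
noncomputable def line (_T : Elation D) (B C : Q) : Finset Q :=
  {X | ∀ y, D.inc y B → D.inc y C → D.inc y X}

/-- The orbit of `C` under the group of `B`. -/
noncomputable def orb (B C : Q) : Finset Q := (T.EF B).image (· • C)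

@[simp] theorem mem_EF {B : Q} {x : G} : x ∈ T.EF B ↔ x ∈ T.E B := by simp [EF]

theorem mem_stabF {B C : Q} {x : G} : x ∈ T.stabF B C ↔ x ∈ T.E B ∧ x • C = C := by simp [stabF]

theorem mem_line {B C X : Q} :
    X ∈ T.line B C ↔ ∀ y, D.inc y B → D.inc y C → D.inc y X := by simp [line]

theorem mem_orb {B C X : Q} : X ∈ T.orb B C ↔ ∃ x ∈ T.E B, x • C = X := by simp [orb]

theorem not_inc_smul {B : Q} {x : G} (hx : x ∈ T.E B) {y : P} (hy : ¬ D.inc y B) :
    ¬ D.inc (x • y) B := by rwa [D.smul_inc_iff (T.fixB B x hx)]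

theorem one_lt_card_EF (B : Q) : 1 < #(T.EF B) := by
  obtain ⟨x, hx, hx1⟩ : ∃ x ∈ T.E B, x ≠ 1 := by
    by_contra h
    push Not at h
    exact T.ne_bot B ((Subgroup.eq_bot_iff_forall _).2 h)
  exact Finset.one_lt_card.2 ⟨x, T.mem_EF.2 hx, 1, T.mem_EF.2 (T.E B).one_mem, hx1⟩

theorem fixed_blocks {B : Q} {x : G} (hx : x ∈ T.E B) (hx1 : x ≠ 1) :
    #{X : Q | x • X = X} = D.k := by
  rw [← D.fix_eq x]
  convert D.card_ptsF B using 2
  ext y
  simp only [Finset.mem_filter, Finset.mem_univ, true_and, Sym.mem_ptsF]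
  exact ⟨fun h => by_contra fun hy => hx1 (T.semireg B x hx y hy h), T.fixP B x hx y⟩

/-- A block through a moved point and its image is fixed. -/
theorem smul_eq_of_inc {B C : Q} {x : G} (hx : x ∈ T.E B) {y : P} (hy : ¬ D.inc y B)
    (h1 : D.inc y C) (h2 : D.inc (x • y) C) : x • C = C := by
  by_cases hCB : C = B
  · subst hCB; exact T.fixB _ x hx
  by_contra hne
  have hsub : insert (x • y) (D.ptsF B ∩ D.ptsF C) ⊆ D.ptsF (x • C) ∩ D.ptsF C := by
    intro u hu
    simp only [Finset.mem_insert, Finset.mem_inter, Sym.mem_ptsF] at hu ⊢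
    rcases hu with rfl | ⟨huB, huC⟩
    · exact ⟨(D.inc_smul x y C).2 h1, h2⟩
    · refine ⟨?_, huC⟩
      rw [← T.fixP B x hx u huB]
      exact (D.inc_smul x u C).2 huC
  have h3 := Finset.card_le_card hsub
  rw [Finset.card_insert_of_notMem, D.card_ptsF_inter (Ne.symm hCB), D.card_ptsF_inter hne] at h3
  · omega
  · simp [T.not_inc_smul hx hy]

theorem exists_stab_point {B : Q} (y z : P) (hy : ¬ D.inc y B) (hz : ¬ D.inc z B) :
    ∃ g : G, g • B = B ∧ g • y = z :=
  D.transB B y z (iff_of_false hy hz)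

theorem card_EF_smul (g : G) (B : Q) : #(T.EF (g • B)) = #(T.EF B) := by
  refine (Finset.card_equiv (MulAut.conj g).toEquiv fun x => ?_).symm
  simp only [mem_EF, MulEquiv.toEquiv_eq_coe, EquivLike.coe_coe, MulAut.conj_apply]
  refine ⟨T.conj g B x, fun h => ?_⟩
  have := T.conj g⁻¹ (g • B) _ h
  simpa [mul_assoc] using this

theorem card_stabF_smul (g : G) (B C : Q) : #(T.stabF (g • B) (g • C)) = #(T.stabF B C) := by
  refine (Finset.card_equiv (MulAut.conj g).toEquiv fun x => ?_).symm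
  simp only [mem_stabF, MulEquiv.toEquiv_eq_coe, EquivLike.coe_coe, MulAut.conj_apply]
  refine ⟨fun h => ⟨T.conj g B x h.1, by rw [mul_smul, mul_smul, inv_smul_smul, h.2]⟩, fun h => ?_⟩
  refine ⟨by have := T.conj g⁻¹ (g • B) _ h.1; simpa [mul_assoc] using this, ?_⟩
  have h2 := h.2
  rw [mul_smul, mul_smul, inv_smul_smul] at h2
  exact smul_left_cancel g h2

/-- The basic equation `l (ε - 1) = k (e - 1)`. -/
theorem l_mul_eq {B C : Q} (h : B ≠ C) :
    D.l * (#(T.EF B) - 1) = D.k * (#(T.stabF B C) - 1) := by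
  have hconst : ∀ X, X ≠ B → #(T.stabF B X) = #(T.stabF B C) := by
    intro X hX
    obtain ⟨g, hg1, hg2⟩ := D.transQ B C B X h hX.symm
    have := T.card_stabF_smul g B C
    rwa [hg1, hg2] at this
  have hc := Finset.sum_card_bipartiteAbove_eq_sum_card_bipartiteBelow
    (s := (T.EF B).erase 1) (t := (Finset.univ.erase B : Finset Q))
    (fun x X => x • X = X)
  simp only [Finset.bipartiteAbove, Finset.bipartiteBelow] at hc
  have hL : ∀ x ∈ (T.EF B).erase 1,
      #{X ∈ (Finset.univ.erase B : Finset Q) | x • X = X} = D.k - 1 := by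
    intro x hx
    obtain ⟨hx1, hxE⟩ := Finset.mem_erase.1 hx
    rw [Finset.filter_erase, Finset.card_erase_of_mem
      (by simp [T.fixB B x (T.mem_EF.1 hxE)]), T.fixed_blocks (T.mem_EF.1 hxE) hx1]
  have hR : ∀ X ∈ (Finset.univ.erase B : Finset Q),
      #{x ∈ (T.EF B).erase 1 | x • X = X} = #(T.stabF B C) - 1 := by
    intro X hX
    rw [Finset.filter_erase, Finset.card_erase_of_mem (by simp [(T.E B).one_mem]),
      ← hconst X (Finset.ne_of_mem_erase hX)]
    congr 2
    ext x
    simp [mem_stabF]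
  rw [Finset.sum_congr rfl hL, Finset.sum_congr rfl hR] at hc
  simp only [Finset.sum_const, smul_eq_mul, Finset.card_erase_of_mem (Finset.mem_univ B),
    Finset.card_erase_of_mem (T.mem_EF.2 (T.E B).one_mem), Finset.card_univ, D.cardQ] at hc
  refine Nat.eq_of_mul_eq_mul_left (show 0 < D.k - 1 by have := D.two_le_k; omega) ?_
  calc (D.k - 1) * (D.l * (#(T.EF B) - 1))
      = D.l * ((#(T.EF B) - 1) * (D.k - 1)) := by ring
    _ = D.l * ((Fintype.card P - 1) * (#(T.stabF B C) - 1)) := by rw [hc]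
    _ = D.l * (Fintype.card P - 1) * (#(T.stabF B C) - 1) := by ring
    _ = (D.k - 1) * (D.k * (#(T.stabF B C) - 1)) := by rw [D.mul_eq]; ring

theorem two_le_stab {B C : Q} (h : B ≠ C) : 2 ≤ #(T.stabF B C) := by
  have h1 := T.l_mul_eq h
  have h2 := T.one_lt_card_EF B
  have h3 := D.one_le_l
  have h4 : 0 < D.l * (#(T.EF B) - 1) := Nat.mul_pos h3 (by omega)
  rw [h1] at h4
  have := Nat.pos_of_mul_pos_left h4
  omega

theorem card_orb_mul (B C : Q) : #(T.orb B C) * #(T.stabF B C) = #(T.EF B) := by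
  rw [Finset.card_eq_sum_card_image (· • C) (T.EF B), ← smul_eq_mul, ← Finset.sum_const]
  refine Finset.sum_congr rfl fun X hX => ?_
  obtain ⟨u, hu, rfl⟩ := Finset.mem_image.1 hX
  rw [mem_EF] at hu
  refine Finset.card_equiv (Equiv.mulLeft u) fun x => ?_
  simp only [mem_stabF, Finset.mem_filter, mem_EF, Equiv.coe_mulLeft, mul_smul,
    smul_left_cancel_iff]
  refine ⟨fun h => ⟨(T.E B).mul_mem hu h.1, h.2⟩, fun h => ⟨?_, h.2⟩⟩
  simpa using (T.E B).mul_mem ((T.E B).inv_mem hu) h.1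

/-- The parameters: `ε = e w`, `k - l = a e` and `a (e - 1) = l (w - 1)`. -/
theorem params {B C : Q} (h : B ≠ C) :
    ∃ a, D.k = D.l + a * #(T.stabF B C) ∧
      a * (#(T.stabF B C) - 1) = D.l * (#(T.orb B C) - 1) ∧ 2 ≤ #(T.orb B C) := by
  set e := #(T.stabF B C) with he
  set w := #(T.orb B C) with hw
  have hdvd : e ∣ D.k - D.l := by
    rw [← D.card_ptsF_sdiff h]
    have := card_dvd_of_free (T.E B ⊓ stabilizer G C) (D.ptsF C \ D.ptsF B)
      (fun x hx y hy => by
        obtain ⟨hxE, hxC⟩ := Subgroup.mem_inf.1 hx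
        simp only [Finset.mem_sdiff, Sym.mem_ptsF] at hy ⊢
        exact ⟨(D.smul_inc_iff (mem_stabilizer_iff.1 hxC) y).2 hy.1, T.not_inc_smul hxE hy.2⟩)
      (fun x hx y hy he => by
        simp only [Finset.mem_sdiff, Sym.mem_ptsF] at hy
        exact T.semireg B x (Subgroup.mem_inf.1 hx).1 y hy.2 he)
    convert this using 3
    ext x; simp [he, mem_stabF]
  obtain ⟨a, ha⟩ := hdvd
  have hl := D.l_lt
  have hk : D.k = D.l + a * e := by rw [mul_comm, ← ha]; omega
  have he2 := T.two_le_stab h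
  have heq := T.l_mul_eq h
  have horb := T.card_orb_mul B C
  rw [← he, ← hw] at horb
  have hw2 : 2 ≤ w := by
    by_contra hc
    have h1 : D.l * (#(T.EF B) - 1) ≤ D.l * (e - 1) := by
      refine Nat.mul_le_mul_left _ ?_
      have : w * e ≤ 1 * e := Nat.mul_le_mul_right _ (by omega)
      omega
    rw [heq] at h1
    have := Nat.le_of_mul_le_mul_right h1 (by omega)
    omega
  refine ⟨a, hk, ?_, hw2⟩
  rw [hk, ← horb, ← he] at heq
  have : 1 ≤ w * e := Nat.one_le_iff_ne_zero.2 (by positivity)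
  refine Nat.eq_of_mul_eq_mul_left (show 0 < e by omega) ?_
  zify [this, show 1 ≤ e by omega, show 1 ≤ w by omega] at heq ⊢
  linear_combination -heq

theorem self_mem_line (B C : Q) : B ∈ T.line B C ∧ C ∈ T.line B C := by
  simp only [mem_line]
  exact ⟨fun y h _ => h, fun y _ h => h⟩

theorem orb_subset_line (B C : Q) : T.orb B C ⊆ T.line B C := by
  intro X hX
  obtain ⟨x, hx, rfl⟩ := T.mem_orb.1 hX
  rw [mem_line]
  intro y hB hC
  rw [← T.fixP B x hx y hB]
  exact (D.inc_smul x y C).2 hC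

theorem not_mem_orb {B C : Q} (h : B ≠ C) : B ∉ T.orb B C := by
  rw [mem_orb]
  rintro ⟨x, hx, hxC⟩
  exact h (smul_left_cancel x (hxC.trans (T.fixB B x hx).symm)).symm

/-- Two blocks of a line meet exactly in its common points. -/
theorem inter_eq_of_mem_line {B C X Y : Q} (h : B ≠ C) (hXY : X ≠ Y) (hX : X ∈ T.line B C)
    (hY : Y ∈ T.line B C) : D.ptsF X ∩ D.ptsF Y = D.ptsF B ∩ D.ptsF C := by
  refine (Finset.eq_of_subset_of_card_le (fun y hy => ?_)
    (by rw [D.card_ptsF_inter hXY, D.card_ptsF_inter h])).symm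
  simp only [Finset.mem_inter, Sym.mem_ptsF] at hy ⊢
  exact ⟨T.mem_line.1 hX y hy.1 hy.2, T.mem_line.1 hY y hy.1 hy.2⟩

/-- A line consists of `B` and one orbit. -/
theorem line_eq {B C : Q} (h : B ≠ C) : T.line B C = insert B (T.orb B C) := by
  obtain ⟨a, hk, ha, hw⟩ := T.params h
  refine Finset.Subset.antisymm ?_ (Finset.insert_subset (T.self_mem_line B C).1
    (T.orb_subset_line B C))
  intro X hX
  by_contra hXn
  rw [Finset.mem_insert, not_or] at hXn
  obtain ⟨hXB, hXo⟩ := hXn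
  set U := T.orb B C ∪ T.orb B X with hU
  have hdisj : Disjoint (T.orb B C) (T.orb B X) := by
    rw [Finset.disjoint_left]
    intro Y h1 h2
    obtain ⟨u, hu, rfl⟩ := T.mem_orb.1 h1
    obtain ⟨v, hv, hvX⟩ := T.mem_orb.1 h2
    exact hXo (T.mem_orb.2 ⟨v⁻¹ * u, (T.E B).mul_mem ((T.E B).inv_mem hv) hu,
      by rw [mul_smul, ← hvX, inv_smul_smul]⟩)
  have hcard : #(T.orb B X) = #(T.orb B C) := by
    obtain ⟨g, hg1, hg2⟩ := D.transQ B C B X h (Ne.symm hXB)
    refine (Finset.card_equiv (MulAction.toPerm g) fun Y => ?_).symm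
    simp only [mem_orb, MulAction.toPerm_apply]
    constructor
    · rintro ⟨x, hx, rfl⟩
      refine ⟨g * x * g⁻¹, ?_, ?_⟩
      · have := T.conj g B x hx; rwa [hg1] at this
      · rw [← hg2, mul_smul, mul_smul, inv_smul_smul]
    · rintro ⟨x, hx, he⟩
      refine ⟨g⁻¹ * x * g, ?_, ?_⟩
      · have := T.conj g⁻¹ B x hx
        rw [inv_inv, show g⁻¹ • B = B by rw [inv_smul_eq_iff, hg1]] at this
        exact this
      · rw [mul_smul, mul_smul, hg2, he, inv_smul_smul]
  have hUline : ∀ Y ∈ U, Y ∈ T.line B C ∧ Y ≠ B := by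
    intro Y hY
    rcases Finset.mem_union.1 hY with hY | hY
    · exact ⟨T.orb_subset_line B C hY, fun e => T.not_mem_orb h (e ▸ hY)⟩
    · obtain ⟨x, hx, rfl⟩ := T.mem_orb.1 hY
      refine ⟨T.mem_line.2 fun y hB hC => ?_,
        fun e => hXB (smul_left_cancel x (e.trans (T.fixB B x hx).symm))⟩
      rw [← T.fixP B x hx y hB]
      exact (D.inc_smul x y X).2 (T.mem_line.1 hX y hB hC)
  have hbi : #(U.biUnion fun Y => D.ptsF Y \ D.ptsF B) = #U * (D.k - D.l) := by
    rw [Finset.card_biUnion, Finset.sum_congr rfl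
      (fun Y hY => D.card_ptsF_sdiff (hUline Y hY).2.symm), Finset.sum_const, smul_eq_mul]
    intro Y hY Z hZ hYZ
    rw [Function.onFun, Finset.disjoint_left]
    intro y h1 h2
    simp only [Finset.mem_sdiff] at h1 h2
    have := Finset.mem_inter.2 ⟨h1.1, h2.1⟩
    rw [T.inter_eq_of_mem_line h hYZ (hUline Y hY).1 (hUline Z hZ).1, Finset.mem_inter] at this
    exact h1.2 this.1
  have hle : #U * (D.k - D.l) ≤ Fintype.card P - D.k := by
    rw [← hbi, ← D.card_ptsF B, ← Finset.card_compl]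
    refine Finset.card_le_card fun y hy => ?_
    obtain ⟨Y, -, hy⟩ := Finset.mem_biUnion.1 hy
    exact Finset.mem_compl.2 (Finset.mem_sdiff.1 hy).2
  have hUc : #U = #(T.orb B C) + #(T.orb B C) := by
    rw [hU, Finset.card_union_of_disjoint hdisj, hcard]
  have h1 : #U * (D.k - D.l) * D.l ≤ (D.k - 1) * (D.k - D.l) := by
    rw [← D.mul_compl]; exact Nat.mul_le_mul_right _ hle
  have h2 : #U * D.l ≤ D.k - 1 := by
    refine Nat.le_of_mul_le_mul_right ?_ (show 0 < D.k - D.l by have := D.l_lt; omega)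
    linarith [h1]
  have he2 := T.two_le_stab h
  have hl1 := D.one_le_l
  rw [hUc] at h2
  set e := #(T.stabF B C)
  set w := #(T.orb B C)
  obtain ⟨e', he'⟩ : ∃ e', e = e' + 2 := ⟨e - 2, by omega⟩
  rw [he'] at ha hk
  obtain ⟨w', hw'⟩ : ∃ w', w = w' + 1 := ⟨w - 1, by omega⟩
  simp only [hw', Nat.add_sub_cancel] at ha h2
  have h3 : a * (e' + 2) ≤ 2 * (D.l * w') := by
    have : a * (e' + 2 - 1) = D.l * w' := ha
    rw [show e' + 2 - 1 = e' + 1 by omega] at this
    have h' : a * (e' + 2) ≤ a * (2 * (e' + 1)) := Nat.mul_le_mul_left _ (by omega)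
    linarith
  have h4 : D.k - 1 + 1 = D.k := by have := D.two_le_k; omega
  linarith

theorem card_line {B C : Q} (h : B ≠ C) : #(T.line B C) = #(T.orb B C) + 1 := by
  rw [T.line_eq h, Finset.card_insert_of_notMem (T.not_mem_orb h)]

/-- A line is determined by any two of its blocks. -/
theorem line_congr {B C X Y : Q} (h : B ≠ C) (hXY : X ≠ Y) (hX : X ∈ T.line B C)
    (hY : Y ∈ T.line B C) : T.line X Y = T.line B C := by
  have := T.inter_eq_of_mem_line h hXY hX hY
  ext Z
  simp only [mem_line]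
  refine forall_congr' fun y => ?_
  have h' := Finset.ext_iff.1 this y
  simp only [Finset.mem_inter, Sym.mem_ptsF] at h'
  tauto

theorem orb_card_const {B C B' C' : Q} (h : B ≠ C) (h' : B' ≠ C') :
    #(T.orb B' C') = #(T.orb B C) := by
  obtain ⟨g, rfl, rfl⟩ := D.transQ B C B' C' h h'
  have h1 := T.card_orb_mul (g • B) (g • C)
  rw [T.card_stabF_smul, T.card_EF_smul, ← T.card_orb_mul B C] at h1
  exact Nat.eq_of_mul_eq_mul_right (by have := T.two_le_stab h; omega) h1

/-- The axes of the elations carrying `y` to `z`. -/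
noncomputable def axes (y z : P) : Finset Q :=
  {B | ¬ D.inc y B ∧ ∃ x ∈ T.E B, x • y = z}

theorem mem_axes {y z : P} {B : Q} :
    B ∈ T.axes y z ↔ ¬ D.inc y B ∧ ∃ x ∈ T.E B, x • y = z := by simp [axes]

theorem card_axes {B C : Q} (h : B ≠ C) {y z : P} (hyz : y ≠ z) :
    #(T.axes y z) = (#(T.orb B C) - 1) * #(T.stabF B C) := by
  obtain ⟨a, hk, ha, hw⟩ := T.params h
  have he2 := T.two_le_stab h
  have horb := T.card_orb_mul B C
  set e := #(T.stabF B C)
  set w := #(T.orb B C)
  have hconst : ∀ u, y ≠ u → #(T.axes y u) = #(T.axes y z) := by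
    intro u hu
    obtain ⟨g, hg1, hg2⟩ := D.transP y z y u hyz hu
    refine (Finset.card_equiv (MulAction.toPerm g) fun X => ?_).symm
    simp only [mem_axes, MulAction.toPerm_apply]
    constructor
    · rintro ⟨h1, x, hx, h2⟩
      refine ⟨fun hc => h1 ((D.inc_smul g y X).1 (by rw [hg1]; exact hc)), g * x * g⁻¹,
        T.conj g X x hx, ?_⟩
      nth_rw 1 [← hg1]
      rw [mul_smul, mul_smul, inv_smul_smul, h2, hg2]
    · rintro ⟨h1, x, hx, h2⟩
      refine ⟨fun hc => h1 (by rw [← hg1]; exact (D.inc_smul g y X).2 hc), g⁻¹ * x * g, ?_, ?_⟩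
      · have := T.conj g⁻¹ _ x hx
        rwa [inv_inv, inv_smul_smul] at this
      · rw [mul_smul, mul_smul, hg1, h2, ← hg2, inv_smul_smul]
  have hc := Finset.sum_card_bipartiteAbove_eq_sum_card_bipartiteBelow
    (s := (Finset.univ.erase y : Finset P)) (t := (Finset.univ : Finset Q))
    (fun u X => X ∈ T.axes y u)
  simp only [Finset.bipartiteAbove, Finset.bipartiteBelow] at hc
  have hL : ∀ u ∈ (Finset.univ.erase y : Finset P),
      #({X | X ∈ T.axes y u} : Finset Q) = #(T.axes y z) := by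
    intro u hu
    rw [Finset.filter_univ_mem]
    exact hconst u (Finset.ne_of_mem_erase hu).symm
  have hEX : ∀ X : Q, #(T.EF X) = #(T.EF B) := by
    intro X
    obtain ⟨X', hX'⟩ : ∃ X', X ≠ X' := by
      by_cases hXB : X = B
      · exact ⟨C, hXB ▸ h⟩
      · exact ⟨B, hXB⟩
    obtain ⟨g, rfl, -⟩ := D.transQ B C X X' h hX'
    exact T.card_EF_smul g B
  have hR : ∀ X ∈ (Finset.univ : Finset Q),
      #({u ∈ (Finset.univ.erase y : Finset P) | X ∈ T.axes y u}) =
        if D.inc y X then 0 else #(T.EF B) - 1 := by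
    intro X _
    split_ifs with hy
    · simp [mem_axes, hy]
    · rw [← hEX X, ← Finset.card_erase_of_mem (T.mem_EF.2 (T.E X).one_mem)]
      refine (Finset.card_bij (fun x _ => x • y) ?_ ?_ ?_).symm
      · intro x hx
        obtain ⟨hx1, hxE⟩ := Finset.mem_erase.1 hx
        rw [mem_EF] at hxE
        simp only [Finset.mem_filter, Finset.mem_erase, Finset.mem_univ, and_true, mem_axes]
        exact ⟨fun e => hx1 (T.semireg X x hxE y hy e), hy, x, hxE, rfl⟩
      · intro x hx x' hx' e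
        have h1 := (Finset.mem_erase.1 hx).2
        have h2 := (Finset.mem_erase.1 hx').2
        rw [mem_EF] at h1 h2
        refine (inv_mul_eq_one.1 (T.semireg X (x'⁻¹ * x) ((T.E X).mul_mem ((T.E X).inv_mem h2) h1)
          y hy (by rw [mul_smul, e, inv_smul_smul]))).symm
      · intro u hu
        simp only [Finset.mem_filter, Finset.mem_erase, Finset.mem_univ, and_true, mem_axes] at hu
        obtain ⟨hu1, -, x, hx, rfl⟩ := hu
        exact ⟨x, Finset.mem_erase.2 ⟨fun e => hu1 (by rw [e, one_smul]), T.mem_EF.2 hx⟩, rfl⟩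
  rw [Finset.sum_congr rfl hL, Finset.sum_congr rfl hR, Finset.sum_ite] at hc
  simp only [Finset.sum_const, smul_eq_mul, mul_zero, zero_add,
    Finset.card_erase_of_mem (Finset.mem_univ y), Finset.card_univ] at hc
  have hout : #({X | ¬ D.inc y X} : Finset Q) = Fintype.card P - D.k := by
    rw [Finset.filter_not, Finset.card_sdiff_of_subset (Finset.filter_subset _ _), Finset.card_univ,
      D.cardQ, D.thru y]
  rw [hout] at hc
  have hl := D.l_lt
  have hl1 := D.one_le_l
  have hk2 := D.two_le_k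
  have hmul := D.mul_eq
  have hcompl := D.mul_compl
  have hn := D.k_add_two
  have hlm := T.l_mul_eq h
  set r := #(T.axes y z)
  have h1 : r * D.k * (D.k - 1) = (D.k - D.l) * (#(T.EF B) - 1) * (D.k - 1) := by
    calc r * D.k * (D.k - 1) = r * (D.l * (Fintype.card P - 1)) := by rw [hmul]; ring
      _ = ((Fintype.card P - 1) * r) * D.l := by ring
      _ = (Fintype.card P - D.k) * D.l * (#(T.EF B) - 1) := by rw [hc]; ring
      _ = (D.k - D.l) * (#(T.EF B) - 1) * (D.k - 1) := by rw [hcompl]; ring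
  have h2 := Nat.eq_of_mul_eq_mul_right (by omega) h1
  have hkl : D.k - D.l = a * e := by omega
  refine Nat.eq_of_mul_eq_mul_left (show 0 < D.k * D.l by positivity) ?_
  calc D.k * D.l * r = D.l * (r * D.k) := by ring
    _ = a * e * (D.l * (#(T.EF B) - 1)) := by rw [h2, hkl]; ring
    _ = a * e * (D.k * (e - 1)) := by rw [hlm]
    _ = D.k * e * (a * (e - 1)) := by ring
    _ = D.k * D.l * ((w - 1) * e) := by rw [ha]; ring

theorem not_inc_of_mem_axes {y z : P} {B : Q} (hB : B ∈ T.axes y z) : ¬ D.inc z B := by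
  obtain ⟨h1, x, hx, rfl⟩ := T.mem_axes.1 hB
  exact T.not_inc_smul hx h1

/-- For a block through `y` and `z` the other blocks of the line through an axis are axes. -/
theorem line_erase_subset_axes {y z : P} {X C : Q} (hX : X ∈ T.axes y z) (hy : D.inc y C)
    (hz : D.inc z C) : (T.line C X).erase C ⊆ T.axes y z := by
  obtain ⟨hyX, x, hx, hxy⟩ := T.mem_axes.1 hX
  have hne : C ≠ X := fun e => hyX (e ▸ hy)
  rw [T.line_eq hne, Finset.erase_insert (T.not_mem_orb hne)]
  intro Y hY
  obtain ⟨s, hs, rfl⟩ := T.mem_orb.1 hY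
  rw [mem_axes]
  have hfy : s⁻¹ • y = y := T.fixP C _ ((T.E C).inv_mem hs) y hy
  refine ⟨fun hc => hyX ?_, s * x * s⁻¹, T.conj s X x hx, ?_⟩
  · rw [← D.inc_smul s⁻¹, inv_smul_smul, hfy] at hc
    exact hc
  · rw [mul_smul, mul_smul, hfy, hxy, T.fixP C s hs z hz]

theorem orb_dvd_stab {B C : Q} (h : B ≠ C) : #(T.orb B C) ∣ #(T.stabF B C) := by
  obtain ⟨a, hk, ha, hw⟩ := T.params h
  obtain ⟨y, hy⟩ := D.exists_inc C
  obtain ⟨z, hz, hzy⟩ : ∃ z, D.inc z C ∧ y ≠ z := by
    obtain ⟨z, hz, hzy⟩ := Finset.exists_mem_ne (s := D.ptsF C)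
      (by rw [D.card_ptsF]; have := D.two_le_k; omega) y
    exact ⟨z, D.mem_ptsF.1 hz, hzy.symm⟩
  have hd : #(T.orb B C) ∣ #(T.axes y z) := by
    rw [Finset.card_eq_sum_card_image (fun X => T.line C X) (T.axes y z)]
    refine Finset.dvd_sum fun L hL => dvd_of_eq ?_
    obtain ⟨X, hX, rfl⟩ := Finset.mem_image.1 hL
    have hne : C ≠ X := fun e => (T.mem_axes.1 hX).1 (e ▸ hy)
    have hfib : ({Y ∈ T.axes y z | T.line C Y = T.line C X} : Finset Q) =
        (T.line C X).erase C := by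
      ext Y
      rw [Finset.mem_filter]
      constructor
      · rintro ⟨hY, he⟩
        refine Finset.mem_erase.2 ⟨fun e => (T.mem_axes.1 hY).1 (e ▸ hy), ?_⟩
        rw [← he]
        exact (T.self_mem_line C Y).2
      · intro hY
        exact ⟨T.line_erase_subset_axes hX hy hz hY, T.line_congr hne
          (Finset.mem_erase.1 hY).1.symm (T.self_mem_line C X).1 (Finset.mem_erase.1 hY).2⟩
    rw [hfib, Finset.card_erase_of_mem (T.self_mem_line C X).1, T.card_line hne,
      Nat.add_sub_cancel, T.orb_card_const h hne]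
  rw [T.card_axes h hzy] at hd
  refine (Nat.Coprime.dvd_of_dvd_mul_left ?_ hd)
  obtain ⟨m, hm⟩ : ∃ m, #(T.orb B C) = m + 1 := ⟨_, (Nat.sub_add_cancel (by omega)).symm⟩
  rw [hm, Nat.add_sub_cancel]
  simp

theorem l_lt_stab {B C : Q} (h : B ≠ C) : D.l < #(T.stabF B C) := by
  obtain ⟨a, hk, ha, hw⟩ := T.params h
  have he2 := T.two_le_stab h
  obtain ⟨y, hy⟩ := D.exists_inc C
  obtain ⟨z, hz, hzy⟩ : ∃ z, D.inc z C ∧ y ≠ z := by
    obtain ⟨z, hz, hzy⟩ := Finset.exists_mem_ne (s := D.ptsF C)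
      (by rw [D.card_ptsF]; have := D.two_le_k; omega) y
    exact ⟨z, D.mem_ptsF.1 hz, hzy.symm⟩
  have hr := T.card_axes h hzy
  obtain ⟨X, hX⟩ : (T.axes y z).Nonempty := by
    rw [← Finset.card_pos, hr]; exact Nat.mul_pos (by omega) (by omega)
  set S := D.blkF y ∩ D.blkF z with hS
  have hne : ∀ W ∈ S, W ≠ X := fun W hW e =>
    (T.mem_axes.1 hX).1 (e ▸ D.mem_blkF.1 (Finset.mem_inter.1 hW).1)
  have hsub : (S.biUnion fun W => ((T.line W X).erase W).erase X) ⊆ (T.axes y z).erase X := by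
    intro Y hY
    obtain ⟨W, hW, hY⟩ := Finset.mem_biUnion.1 hY
    obtain ⟨hYX, hY⟩ := Finset.mem_erase.1 hY
    simp only [hS, Finset.mem_inter, Sym.mem_blkF] at hW
    exact Finset.mem_erase.2 ⟨hYX, T.line_erase_subset_axes hX hW.1 hW.2 hY⟩
  have hcard : #(S.biUnion fun W => ((T.line W X).erase W).erase X) =
      D.l * (#(T.orb B C) - 1) := by
    rw [Finset.card_biUnion]
    · rw [Finset.sum_congr rfl (g := fun _ => #(T.orb B C) - 1) fun W hW => ?_,
        Finset.sum_const, smul_eq_mul, hS, D.card_blkF_inter hzy]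
      rw [Finset.card_erase_of_mem (Finset.mem_erase.2 ⟨(hne W hW).symm, (T.self_mem_line W X).2⟩),
        Finset.card_erase_of_mem (T.self_mem_line W X).1, T.card_line (hne W hW),
        T.orb_card_const h (hne W hW)]
      omega
    · intro W hW W' hW' hWW'
      rw [Function.onFun, Finset.disjoint_left]
      intro Y h1 h2
      simp only [Finset.mem_erase] at h1 h2
      have hW0 := hne W hW
      have hW0' := hne W' hW'
      have e1 := T.line_congr hW0 (Ne.symm h1.1) (T.self_mem_line W X).2 h1.2.2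
      have e2 := T.line_congr hW0' (Ne.symm h2.1) (T.self_mem_line W' X).2 h2.2.2
      have hWm : W ∈ T.line W' X := by
        rw [← e2, e1]; exact (T.self_mem_line W X).1
      have hint := T.inter_eq_of_mem_line hW0' hWW' hWm (T.self_mem_line W' X).1
      have hymem : y ∈ D.ptsF W ∩ D.ptsF W' := by
        simp only [hS, Finset.coe_inter, Set.mem_inter_iff, Finset.mem_coe, Sym.mem_blkF] at hW hW'
        simp [hW.1, hW'.1]
      rw [hint, Finset.mem_inter, Sym.mem_ptsF, Sym.mem_ptsF] at hymem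
      exact (T.mem_axes.1 hX).1 hymem.2
  have h1 := Finset.card_le_card hsub
  rw [hcard, Finset.card_erase_of_mem hX, hr] at h1
  by_contra hc
  push Not at hc
  have h2 : (#(T.orb B C) - 1) * #(T.stabF B C) ≤ D.l * (#(T.orb B C) - 1) := by
    rw [mul_comm D.l]; exact Nat.mul_le_mul_left _ hc
  have h3 : 0 < (#(T.orb B C) - 1) * #(T.stabF B C) := Nat.mul_pos (by omega) (by omega)
  omega

/-- The group of a block is transitive off the block. -/
theorem main_params {B C : Q} (h : B ≠ C) :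
    D.k = D.l + #(T.stabF B C) ∧ D.k - 1 = D.l * #(T.orb B C) ∧
      Fintype.card P = D.k + #(T.EF B) := by
  obtain ⟨a, hk, ha, hw⟩ := T.params h
  have he2 := T.two_le_stab h
  have hlt := T.l_lt_stab h
  have hwe := T.orb_dvd_stab h
  have horb := T.card_orb_mul B C
  have hk2 := D.two_le_k
  have hn := D.k_add_two
  obtain ⟨d, hd⟩ : #(T.EF B) ∣ Fintype.card P - D.k := by
    have h1 := card_dvd_of_free (T.E B) (D.ptsF B)ᶜ
      (fun x hx y hy => by
        simp only [Finset.mem_compl, Sym.mem_ptsF] at hy ⊢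
        exact T.not_inc_smul hx hy)
      (fun x hx y hy he => by
        simp only [Finset.mem_compl, Sym.mem_ptsF] at hy
        exact T.semireg B x hx y hy he)
    rw [Finset.card_compl, D.card_ptsF] at h1
    exact h1
  have hcompl := D.mul_compl
  rw [hd, show D.k - D.l = a * #(T.stabF B C) by omega, ← horb] at hcompl
  set e := #(T.stabF B C)
  set w := #(T.orb B C)
  -- `(k - 1) a = d w l`
  have h1 : (D.k - 1) * a = d * w * D.l :=
    Nat.eq_of_mul_eq_mul_right (show 0 < e by omega) (by linear_combination -hcompl)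
  have h2 : (D.k - 1) * (w - 1) = d * w * (e - 1) := by
    refine Nat.eq_of_mul_eq_mul_left (show 0 < D.l by have := D.one_le_l; omega) ?_
    calc D.l * ((D.k - 1) * (w - 1)) = (D.k - 1) * (a * (e - 1)) := by rw [ha]; ring
      _ = (D.k - 1) * a * (e - 1) := by ring
      _ = D.l * (d * w * (e - 1)) := by rw [h1]; ring
  have hwk : w ∣ D.k - 1 := by
    have hw' : w ∣ (D.k - 1) * (w - 1) := by
      rw [h2, mul_assoc, mul_left_comm]; exact dvd_mul_right _ _
    refine Nat.Coprime.dvd_of_dvd_mul_right ?_ hw'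
    obtain ⟨m, hm⟩ : ∃ m, w = m + 1 := ⟨_, (Nat.sub_add_cancel (by omega)).symm⟩
    rw [hm, Nat.add_sub_cancel]
    simp
  have ha1 : 1 ≤ a := by
    rcases Nat.eq_zero_or_pos a with h0 | h0
    · rw [h0, zero_mul] at ha
      rcases Nat.mul_eq_zero.1 ha.symm with h' | h' <;> have := D.one_le_l <;> omega
    · exact h0
  have haw : a ≤ w - 1 := by
    refine Nat.le_of_mul_le_mul_right ?_ (show 0 < e - 1 by omega)
    rw [ha, mul_comm (w - 1)]
    exact Nat.mul_le_mul_right _ (by omega)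
  have hdz : (w : ℤ) ∣ (a : ℤ) - 1 := by
    obtain ⟨u, hu⟩ := hwk
    obtain ⟨v, hv⟩ := hwe
    have ha' : (a : ℤ) * ((e : ℤ) - 1) = (D.l : ℤ) * ((w : ℤ) - 1) := by
      zify [show 1 ≤ e by omega, show 1 ≤ w by omega] at ha; exact ha
    have hu' : (D.k : ℤ) - 1 = w * u := by zify [show 1 ≤ D.k by omega] at hu; exact hu
    have hk' : (D.k : ℤ) = D.l + a * e := by exact_mod_cast hk
    have hv' : (e : ℤ) = w * v := by exact_mod_cast hv
    refine ⟨(u : ℤ) - D.l, ?_⟩
    linear_combination hu' - hk' - ha'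
  have ha_eq : a = 1 := by
    rcases Nat.lt_or_ge a 2 with h' | h'
    · omega
    · exfalso
      have := Int.le_of_dvd (by omega) hdz
      omega
  subst ha_eq
  rw [one_mul] at ha
  rw [mul_one] at h1
  have hk1 : D.k - 1 = D.l * w := by
    rw [hk, one_mul]
    obtain ⟨e', he'⟩ : ∃ e', e = e' + 1 := ⟨_, (Nat.sub_add_cancel (by omega)).symm⟩
    obtain ⟨w', hw'⟩ : ∃ w', w = w' + 1 := ⟨_, (Nat.sub_add_cancel (by omega)).symm⟩
    rw [he', hw', Nat.add_sub_cancel, Nat.add_sub_cancel] at ha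
    rw [he', hw', ha, ← Nat.add_assoc, Nat.add_sub_cancel]
    ring
  refine ⟨by rw [hk, one_mul], hk1, ?_⟩
  have hd1 : d = 1 := by
    rw [hk1] at h1
    refine Nat.eq_of_mul_eq_mul_right (show 0 < w * D.l by
      have := D.one_le_l; exact Nat.mul_pos (by omega) (by omega)) ?_
    linear_combination -h1
  subst hd1
  omega

end Elation

end CfsgLib.ItoDesign48
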