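import Mathlib
import Cfsg.Agent.ItoDesign48.Basic

/-!
Lines and centres: the group of a block is elementary abelian and is partitioned by the groups of
elations with a given centre.
-/

set_option autoImplicit false

namespace CfsgLib.ItoDesign48

open MulAction Finset
open scoped Classical

variable {G P Q : Type*} [Group G] [MulAction G P] [MulAction G Q] [Fintype P] [Fintype Q]

namespace Sym

variable (D : Sym G P Q)

/-- The points lying on every block through two points. -/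
noncomputable def pline (y z : P) : Finset P := {p | ∀ X, D.inc y X → D.inc z X → D.inc p X}

theorem mem_pline {y z p : P} :
    p ∈ D.pline y z ↔ ∀ X, D.inc y X → D.inc z X → D.inc p X := by simp [pline]

theorem self_mem_pline (y z : P) : y ∈ D.pline y z ∧ z ∈ D.pline y z := by
  simp only [mem_pline]
  exact ⟨fun X h _ => h, fun X _ h => h⟩

/-- A line is determined by any two of its points. -/
theorem pline_congr {y z p q : P} (h : y ≠ z) (hpq : p ≠ q) (hp : p ∈ D.pline y z)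
    (hq : q ∈ D.pline y z) : D.pline p q = D.pline y z := by
  have hS : D.blkF y ∩ D.blkF z = D.blkF p ∩ D.blkF q := by
    refine Finset.eq_of_subset_of_card_le (fun X hX => ?_)
      (by rw [D.card_blkF_inter hpq, D.card_blkF_inter h])
    simp only [Finset.mem_inter, mem_blkF] at hX ⊢
    exact ⟨D.mem_pline.1 hp X hX.1 hX.2, D.mem_pline.1 hq X hX.1 hX.2⟩
  ext u
  simp only [mem_pline]
  refine forall_congr' fun X => ?_
  have h' := Finset.ext_iff.1 hS X
  simp only [Finset.mem_inter, mem_blkF] at h'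
  tauto

include D in
theorem exists_ne_block (B : Q) : ∃ C, C ≠ B := by
  have h1 := D.k_add_two
  have h2 := D.cardQ
  obtain ⟨C, -, hC⟩ := Finset.exists_mem_ne (s := (Finset.univ : Finset Q))
    (by rw [Finset.card_univ]; omega) B
  exact ⟨C, hC⟩

end Sym

namespace Elation

variable [Fintype G] {D : Sym G P Q} (T : Elation D)

/-- The number of further blocks of a line; the order of the field to come. -/
noncomputable def w (T : Elation D) : ℕ :=
  if h : ∃ p : Q × Q, p.1 ≠ p.2 then #(T.orb h.choose.1 h.choose.2) else 0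

theorem orb_eq_w {B C : Q} (h : B ≠ C) : #(T.orb B C) = T.w := by
  have he : ∃ p : Q × Q, p.1 ≠ p.2 := ⟨(B, C), h⟩
  rw [w, dif_pos he]
  exact T.orb_card_const he.choose_spec h

theorem two_le_w (B : Q) : 2 ≤ T.w := by
  obtain ⟨C, hC⟩ := D.exists_ne_block B
  obtain ⟨a, -, -, hw⟩ := T.params hC.symm
  rwa [T.orb_eq_w hC.symm] at hw

theorem k_eq (B : Q) : D.k = 1 + D.l * T.w := by
  obtain ⟨C, hC⟩ := D.exists_ne_block B
  obtain ⟨-, h2, -⟩ := T.main_params hC.symm
  rw [T.orb_eq_w hC.symm] at h2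
  have := D.two_le_k
  omega

theorem card_univ_eq (B : Q) : Fintype.card P = D.k + T.w * (D.k - D.l) := by
  obtain ⟨C, hC⟩ := D.exists_ne_block B
  obtain ⟨h1, -, h3⟩ := T.main_params hC.symm
  rw [← T.card_orb_mul B C, T.orb_eq_w hC.symm] at h3
  rw [h3, h1, Nat.add_sub_cancel_left]

theorem card_EF_eq (B : Q) : #(T.EF B) = Fintype.card P - D.k := by
  obtain ⟨C, hC⟩ := D.exists_ne_block B
  obtain ⟨-, -, h3⟩ := T.main_params hC.symm
  omega

/-- The group of a block is transitive off it. -/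
theorem exists_smul_eq {B : Q} {y z : P} (hy : ¬ D.inc y B) (hz : ¬ D.inc z B) :
    ∃ x ∈ T.E B, x • y = z := by
  have himg : (T.EF B).image (· • y) = (D.ptsF B)ᶜ := by
    refine Finset.eq_of_subset_of_card_le (fun u hu => ?_) ?_
    · obtain ⟨x, hx, rfl⟩ := Finset.mem_image.1 hu
      simpa using T.not_inc_smul (T.mem_EF.1 hx) hy
    · rw [Finset.card_compl, D.card_ptsF, Finset.card_image_of_injOn, T.card_EF_eq]
      intro x hx x' hx' e
      rw [Finset.mem_coe, mem_EF] at hx hx'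
      exact (inv_mul_eq_one.1 (T.semireg B (x'⁻¹ * x) ((T.E B).mul_mem ((T.E B).inv_mem hx') hx)
        y hy (by rw [mul_smul, show x • y = x' • y from e, inv_smul_smul]))).symm
  have : z ∈ (D.ptsF B)ᶜ := by simpa using hz
  rw [← himg] at this
  obtain ⟨x, hx, he⟩ := Finset.mem_image.1 this
  exact ⟨x, T.mem_EF.1 hx, he⟩

theorem eq_of_smul_eq {B : Q} {x x' : G} (hx : x ∈ T.E B) (hx' : x' ∈ T.E B) {y : P}
    (hy : ¬ D.inc y B) (h : x • y = x' • y) : x = x' :=
  (inv_mul_eq_one.1 (T.semireg B (x'⁻¹ * x) ((T.E B).mul_mem ((T.E B).inv_mem hx') hx) y hy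
    (by rw [mul_smul, h, inv_smul_smul]))).symm

/-- Every point lies on a block of every line. -/
theorem exists_mem_line_inc {B C : Q} (h : B ≠ C) (p : P) :
    ∃ X ∈ T.line B C, D.inc p X := by
  by_contra hc
  push Not at hc
  set t := D.ptsF B ∩ D.ptsF C
  have hpt : p ∉ t := fun hp => hc B (T.self_mem_line B C).1 (D.mem_ptsF.1 (Finset.mem_inter.1 hp).1)
  have hsub : ∀ X ∈ T.line B C, t ⊆ D.ptsF X := fun X hX u hu => by
    simp only [t, Finset.mem_inter, Sym.mem_ptsF] at hu ⊢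
    exact T.mem_line.1 hX u hu.1 hu.2
  have hbi : #((T.line B C).biUnion fun X => D.ptsF X \ t) = (T.w + 1) * (D.k - D.l) := by
    rw [Finset.card_biUnion, Finset.sum_congr rfl (g := fun _ => D.k - D.l) fun X hX => ?_,
      Finset.sum_const, T.card_line h, T.orb_eq_w h, smul_eq_mul]
    · rw [Finset.card_sdiff_of_subset (hsub X hX), D.card_ptsF, D.card_ptsF_inter h]
    · intro X hX Y hY hXY
      rw [Function.onFun, Finset.disjoint_left]
      intro u h1 h2
      rw [Finset.mem_sdiff] at h1 h2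
      have h3 := Finset.mem_inter.2 ⟨h1.1, h2.1⟩
      rw [T.inter_eq_of_mem_line h hXY hX hY] at h3
      exact h1.2 h3
  have hd : Disjoint t ((T.line B C).biUnion fun X => D.ptsF X \ t) := by
    rw [Finset.disjoint_left]
    intro u hu hu'
    obtain ⟨X, -, hX⟩ := Finset.mem_biUnion.1 hu'
    exact (Finset.mem_sdiff.1 hX).2 hu
  have hall : t ∪ ((T.line B C).biUnion fun X => D.ptsF X \ t) = Finset.univ := by
    refine Finset.eq_univ_of_card _ ?_
    rw [Finset.card_union_of_disjoint hd, hbi, D.card_ptsF_inter h, T.card_univ_eq B]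
    have := D.l_lt
    rw [add_mul, one_mul]
    omega
  have := Finset.mem_univ p
  rw [← hall, Finset.mem_union] at this
  rcases this with h1 | h1
  · exact hpt h1
  · obtain ⟨X, hX, hX'⟩ := Finset.mem_biUnion.1 h1
    exact hc X hX (D.mem_ptsF.1 (Finset.mem_sdiff.1 hX').1)

theorem blocks_through {y z p : P} (hyz : y ≠ z) (hp : p ∉ D.pline y z) :
    T.w * #((D.blkF y ∩ D.blkF z) ∩ D.blkF p) = D.l - 1 := by
  obtain ⟨C, hyC, hzC, hpC⟩ : ∃ C, D.inc y C ∧ D.inc z C ∧ ¬ D.inc p C := by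
    by_contra h
    push Not at h
    exact hp (D.mem_pline.2 h)
  set S := D.blkF y ∩ D.blkF z with hS
  have hCS : C ∈ S := by simp [hS, hyC, hzC]
  have hne : ∀ X ∈ S ∩ D.blkF p, C ≠ X := fun X hX e =>
    hpC (by rw [e]; exact D.mem_blkF.1 (Finset.mem_inter.1 hX).2)
  have hlineS : ∀ X ∈ S, T.line C X ⊆ S := fun X hX Y hY => by
    simp only [hS, Finset.mem_inter, Sym.mem_blkF] at hX ⊢
    exact ⟨T.mem_line.1 hY y hyC hX.1, T.mem_line.1 hY z hzC hX.2⟩
  have hcover : S.erase C = (S ∩ D.blkF p).biUnion fun X => (T.line C X).erase C := by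
    ext Y
    rw [Finset.mem_biUnion]
    constructor
    · intro hY
      obtain ⟨hYC, hYS⟩ := Finset.mem_erase.1 hY
      obtain ⟨X, hX, hpX⟩ := T.exists_mem_line_inc hYC.symm p
      refine ⟨X, Finset.mem_inter.2 ⟨hlineS Y hYS hX, D.mem_blkF.2 hpX⟩, ?_⟩
      rw [T.line_congr hYC.symm (fun e => hpC (by rw [e]; exact hpX)) (T.self_mem_line C Y).1 hX]
      exact Finset.mem_erase.2 ⟨hYC, (T.self_mem_line C Y).2⟩
    · rintro ⟨X, hX, hY⟩
      obtain ⟨hYC, hY⟩ := Finset.mem_erase.1 hY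
      exact Finset.mem_erase.2 ⟨hYC, hlineS X (Finset.mem_inter.1 hX).1 hY⟩
  have hc := congrArg Finset.card hcover
  rw [Finset.card_erase_of_mem hCS, hS, D.card_blkF_inter hyz, ← hS, Finset.card_biUnion,
    Finset.sum_congr rfl (g := fun _ => T.w) fun X hX => ?_, Finset.sum_const, smul_eq_mul] at hc
  · rw [hc, mul_comm]
  · rw [Finset.card_erase_of_mem (T.self_mem_line C X).1, T.card_line (hne X hX),
      T.orb_eq_w (hne X hX), Nat.add_sub_cancel]
  · intro X hX X' hX' hXX'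
    rw [Function.onFun, Finset.disjoint_left]
    intro Y h1 h2
    obtain ⟨hYC, h1⟩ := Finset.mem_erase.1 h1
    obtain ⟨-, h2⟩ := Finset.mem_erase.1 h2
    have e1 := T.line_congr (hne X hX) hYC.symm (T.self_mem_line C X).1 h1
    have e2 := T.line_congr (hne X' hX') hYC.symm (T.self_mem_line C X').1 h2
    have hX'X : X' ∈ T.line C X := by rw [← e1, e2]; exact (T.self_mem_line C X').2
    have h3 := T.inter_eq_of_mem_line (hne X hX) hXX' (T.self_mem_line C X).2 hX'X
    have hpm : p ∈ D.ptsF X ∩ D.ptsF X' := by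
      simp only [Finset.coe_inter, Set.mem_inter_iff, Finset.mem_coe, Sym.mem_blkF] at hX hX'
      simp [hX.2, hX'.2]
    rw [h3] at hpm
    exact hpC (D.mem_ptsF.1 (Finset.mem_inter.1 hpm).1)

include T in
theorem card_pline (B : Q) {y z : P} (hyz : y ≠ z) : #(D.pline y z) = T.w + 1 := by
  set S := D.blkF y ∩ D.blkF z with hS
  set L := D.pline y z with hL
  have hw := T.two_le_w B
  have hsum : ∑ p : P, #(S ∩ D.blkF p) = D.l * D.k := by
    have h := Finset.sum_card_bipartiteAbove_eq_sum_card_bipartiteBelow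
      (s := (Finset.univ : Finset P)) (t := S) D.inc
    simp only [Finset.bipartiteAbove, Finset.bipartiteBelow] at h
    rw [Finset.sum_congr rfl (g := fun _ => D.k) fun X _ => D.pts X, Finset.sum_const,
      smul_eq_mul, hS, D.card_blkF_inter hyz, ← hS] at h
    rw [← h]
    refine Finset.sum_congr rfl fun p _ => ?_
    congr 1
    ext X; simp
  have hin : ∀ p ∈ L, #(S ∩ D.blkF p) = D.l := fun p hp => by
    rw [Finset.inter_eq_left.2, hS, D.card_blkF_inter hyz]
    intro X hX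
    simp only [hS, Finset.mem_inter, Sym.mem_blkF] at hX ⊢
    exact D.mem_pline.1 hp X hX.1 hX.2
  rw [← Finset.sum_add_sum_compl L, Finset.sum_congr rfl hin, Finset.sum_const, smul_eq_mul] at hsum
  have hout : T.w * ∑ p ∈ Lᶜ, #(S ∩ D.blkF p) = #(Lᶜ) * (D.l - 1) := by
    rw [Finset.mul_sum, Finset.sum_congr rfl (g := fun _ => D.l - 1) fun p hp =>
      T.blocks_through hyz (Finset.mem_compl.1 hp), Finset.sum_const, smul_eq_mul]
  have hk := T.k_eq B
  have hn := T.card_univ_eq B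
  have hl := D.one_le_l
  have hlk := D.l_lt
  have hLc : #(Lᶜ) = Fintype.card P - #L := Finset.card_compl L
  have hLn : #L ≤ Fintype.card P := Finset.card_le_univ _
  obtain ⟨w', hw'⟩ : ∃ w', T.w = w' + 1 := ⟨_, (Nat.sub_add_cancel (by omega)).symm⟩
  set s := #L
  set m := ∑ p ∈ Lᶜ, #(S ∩ D.blkF p)
  rw [hLc] at hout
  zify [hLn, hl, hlk.le] at hout hn hsum hk
  have key : ((s : ℤ) - (T.w + 1)) * ((D.k : ℤ) - D.l) = 0 := by
    have hkl : (D.k : ℤ) - D.l = 1 + D.l * w' := by rw [hk, hw']; push_cast; ring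
    have hn' : (Fintype.card P : ℤ) = D.k + T.w * (D.k - D.l) := hn
    rw [hkl]
    have hsum' : (s : ℤ) * D.l * T.w + T.w * m = D.l * D.k * T.w := by
      linear_combination (T.w : ℤ) * hsum
    rw [hout, hn', hkl, hk, hw'] at hsum'
    push_cast at hsum' ⊢
    rw [hw']
    push_cast
    linear_combination hsum'
  have hne : ((D.k : ℤ) - D.l) ≠ 0 := by
    have : (D.l : ℤ) < D.k := by exact_mod_cast hlk
    omega
  have := (mul_eq_zero.1 key).resolve_right hne
  omega

include T in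
/-- A line meets every block. -/
theorem exists_mem_pline_inc {y z : P} (hyz : y ≠ z) (X : Q) : ∃ p ∈ D.pline y z, D.inc p X := by
  by_contra hc
  push Not at hc
  set S := D.blkF y ∩ D.blkF z with hS
  set L := D.pline y z with hL
  have hsub : ∀ p ∈ L, S ⊆ D.blkF p := fun p hp Y hY => by
    simp only [hS, Finset.mem_inter, Sym.mem_blkF] at hY ⊢
    exact D.mem_pline.1 hp Y hY.1 hY.2
  have hXS : X ∉ S := fun h => hc y (D.self_mem_pline y z).1 (by
    simp only [hS, Finset.mem_inter, Sym.mem_blkF] at h; exact h.1)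
  have hd : Disjoint S (L.biUnion fun p => D.blkF p \ S) := by
    rw [Finset.disjoint_left]
    intro Y hY hY'
    obtain ⟨p, -, hp⟩ := Finset.mem_biUnion.1 hY'
    exact (Finset.mem_sdiff.1 hp).2 hY
  have hall : S ∪ (L.biUnion fun p => D.blkF p \ S) = Finset.univ := by
    refine Finset.eq_univ_of_card _ ?_
    rw [Finset.card_union_of_disjoint hd, Finset.card_biUnion,
      Finset.sum_congr rfl (g := fun _ => D.k - D.l) fun p hp => ?_, Finset.sum_const, smul_eq_mul,
      hL, T.card_pline X hyz, hS, D.card_blkF_inter hyz, D.cardQ, T.card_univ_eq X]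
    · have := D.l_lt
      rw [add_mul, one_mul]
      omega
    · rw [Finset.card_sdiff_of_subset (hsub p hp), D.card_blkF, hS, D.card_blkF_inter hyz]
    · intro p hp q hq hpq
      rw [Function.onFun, Finset.disjoint_left]
      intro Y h1 h2
      rw [Finset.mem_sdiff] at h1 h2
      apply h1.2
      have h3 : S = D.blkF p ∩ D.blkF q := by
        refine Finset.eq_of_subset_of_card_le
          (Finset.subset_inter (hsub p hp) (hsub q hq)) ?_
        rw [hS, D.card_blkF_inter hyz, D.card_blkF_inter hpq]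
      rw [h3]
      exact Finset.mem_inter.2 ⟨h1.1, h2.1⟩
  have := Finset.mem_univ X
  rw [← hall, Finset.mem_union] at this
  rcases this with h1 | h1
  · exact hXS h1
  · obtain ⟨p, hp, hp'⟩ := Finset.mem_biUnion.1 h1
    exact hc p hp (D.mem_blkF.1 (Finset.mem_sdiff.1 hp').1)

omit [Fintype G] in
theorem eq_of_mem_pline_inc {y z : P} (hyz : y ≠ z) {X : Q} (hy : ¬ (D.inc y X ∧ D.inc z X))
    {p q : P} (hp : p ∈ D.pline y z) (hq : q ∈ D.pline y z) (hpX : D.inc p X) (hqX : D.inc q X) :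
    p = q := by
  by_contra hpq
  have h := D.pline_congr hyz hpq hp hq
  exact hy ⟨D.mem_pline.1 (h.symm ▸ (D.self_mem_pline y z).1) X hpX hqX,
    D.mem_pline.1 (h.symm ▸ (D.self_mem_pline y z).2) X hpX hqX⟩

/-- A centre of an element: a point all whose blocks are fixed. -/
def IsCentre (_T : Elation D) (x : G) (c : P) : Prop := ∀ X : Q, D.inc c X → x • X = X

/-- Every elation has a centre on its axis. -/
theorem exists_centre {B : Q} {x : G} (hx : x ∈ T.E B) (hx1 : x ≠ 1) :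
    ∃ c, D.inc c B ∧ (∀ X, x • X = X ↔ D.inc c X) ∧
      ∀ y, ¬ D.inc y B → c ∈ D.pline y (x • y) := by
  have hmv : ∀ y, ¬ D.inc y B → y ≠ x • y := fun y hy e => hx1 (T.semireg B x hx y hy e.symm)
  have hL : ∀ y, ¬ D.inc y B → ∃ c ∈ D.pline y (x • y), D.inc c B := fun y hy =>
    T.exists_mem_pline_inc (hmv y hy) B
  have hinv : ∀ y, ¬ D.inc y B → ∀ p ∈ D.pline y (x • y), x • p ∈ D.pline y (x • y) := by
    intro y hy p hp
    rw [Sym.mem_pline] at hp ⊢
    intro X h1 h2
    have hX := T.smul_eq_of_inc hx hy h1 h2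
    exact (D.smul_inc_iff hX p).2 (hp X h1 h2)
  have hc : ∀ y, ¬ D.inc y B → ∀ c ∈ D.pline y (x • y), D.inc c B →
      ∀ X, x • X = X → D.inc c X := by
    intro y hy c hc hcB X hX
    by_cases hXy : D.inc y X
    · exact D.mem_pline.1 hc X hXy ((D.smul_inc_iff hX y).2 hXy)
    obtain ⟨p, hp, hpX⟩ := T.exists_mem_pline_inc (hmv y hy) X
    have hpfix : x • p = p := eq_of_mem_pline_inc (hmv y hy) (fun h => hXy h.1)
      (hinv y hy p hp) hp ((D.smul_inc_iff hX p).2 hpX) hpX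
    have hpB : D.inc p B := by_contra fun h => hx1 (T.semireg B x hx p h hpfix)
    rw [eq_of_mem_pline_inc (hmv y hy) (fun h => hy h.1) hc hp hcB hpB]
    exact hpX
  obtain ⟨y₀, hy₀⟩ := D.exists_not_inc B
  obtain ⟨c₀, hc₀, hc₀B⟩ := hL y₀ hy₀
  have hfix : ({X | x • X = X} : Finset Q) = D.blkF c₀ := by
    refine Finset.eq_of_subset_of_card_le (fun X hX => ?_)
      (by rw [T.fixed_blocks hx hx1, D.card_blkF])
    simp only [Finset.mem_filter, Finset.mem_univ, true_and] at hX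
    exact D.mem_blkF.2 (hc y₀ hy₀ c₀ hc₀ hc₀B X hX)
  have hiff : ∀ X, x • X = X ↔ D.inc c₀ X := fun X => by
    simpa using Finset.ext_iff.1 hfix X
  refine ⟨c₀, hc₀B, hiff, fun y hy => ?_⟩
  obtain ⟨c, hcy, hcB⟩ := hL y hy
  have : c₀ = c := D.eq_of_blkF_subset fun X hX => hc y hy c hcy hcB X ((hiff X).2 hX)
  rwa [this]

theorem centre_unique {B : Q} {x : G} (hx : x ∈ T.E B) (hx1 : x ≠ 1) {c c' : P}
    (hc : T.IsCentre x c) (hc' : T.IsCentre x c') : c = c' := by
  obtain ⟨c₀, -, h, -⟩ := T.exists_centre hx hx1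
  rw [show c = c₀ from D.eq_of_blkF_subset fun X hX => (h X).1 (hc X hX),
    show c' = c₀ from D.eq_of_blkF_subset fun X hX => (h X).1 (hc' X hX)]

/-- The elations with axis `B` and centre `c`, together with the identity. -/
def Ec (B : Q) (c : P) : Subgroup G where
  carrier := {x | x ∈ T.E B ∧ T.IsCentre x c}
  one_mem' := ⟨(T.E B).one_mem, fun X _ => one_smul G X⟩
  mul_mem' := fun {a b} ha hb => ⟨(T.E B).mul_mem ha.1 hb.1, fun X hX => by
    rw [mul_smul, hb.2 X hX, ha.2 X hX]⟩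
  inv_mem' := fun {a} ha => ⟨(T.E B).inv_mem ha.1, fun X hX => by
    rw [inv_smul_eq_iff, ha.2 X hX]⟩

theorem mem_Ec {B : Q} {c : P} {x : G} : x ∈ T.Ec B c ↔ x ∈ T.E B ∧ T.IsCentre x c := Iff.rfl

theorem Ec_disjoint {B : Q} {c c' : P} (hcc : c ≠ c') {x : G} (h : x ∈ T.Ec B c)
    (h' : x ∈ T.Ec B c') : x = 1 :=
  by_contra fun hx1 => hcc (T.centre_unique h.1 hx1 h.2 h'.2)

theorem exists_Ec {B : Q} {x : G} (hx : x ∈ T.E B) : ∃ c, D.inc c B ∧ x ∈ T.Ec B c := by
  by_cases hx1 : x = 1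
  · obtain ⟨c, hc⟩ := D.exists_inc B
    exact ⟨c, hc, hx1 ▸ (T.Ec B c).one_mem⟩
  · obtain ⟨c, hc, h, -⟩ := T.exists_centre hx hx1
    exact ⟨c, hc, hx, fun X hX => (h X).2 hX⟩

theorem conj_Ec {B : Q} {c : P} (hc : D.inc c B) {s x : G} (hs : s ∈ T.E B)
    (hx : x ∈ T.Ec B c) : s * x * s⁻¹ ∈ T.Ec B c := by
  refine ⟨(T.E B).mul_mem ((T.E B).mul_mem hs hx.1) ((T.E B).inv_mem hs), fun X hX => ?_⟩
  have h1 : D.inc c (s⁻¹ • X) := by
    rw [← T.fixP B s⁻¹ ((T.E B).inv_mem hs) c hc]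
    exact (D.inc_smul s⁻¹ c X).2 hX
  rw [mul_smul, mul_smul, hx.2 _ h1, smul_inv_smul]

include T in
theorem exists_third {B : Q} (c c' : P) : ∃ d, D.inc d B ∧ d ≠ c ∧ d ≠ c' := by
  have h1 := T.k_eq B
  have h2 := T.two_le_w B
  have h3 := D.one_le_l
  have h4 : 1 * 2 ≤ D.l * T.w := Nat.mul_le_mul h3 h2
  obtain ⟨d, hd⟩ : (D.ptsF B \ {c, c'}).Nonempty := by
    rw [← Finset.card_pos]
    have := Finset.le_card_sdiff {c, c'} (D.ptsF B)
    have := Finset.card_le_two (a := c) (b := c')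
    rw [D.card_ptsF] at *
    omega
  simp only [Finset.mem_sdiff, Sym.mem_ptsF, Finset.mem_insert, Finset.mem_singleton, not_or] at hd
  exact ⟨d, hd.1, hd.2⟩

include T in
theorem not_inc_of_mem_pline {B : Q} {c y p : P} (hc : D.inc c B) (hy : ¬ D.inc y B)
    (hp : p ∈ D.pline y c) (hpc : p ≠ c) : ¬ D.inc p B := fun hpB =>
  hpc (eq_of_mem_pline_inc (fun e => hy (by rw [e]; exact hc)) (fun h => hy h.1) hp
    (D.self_mem_pline y c).2 hpB hc)

/-- The elations with centre `c` carry `y` to every other point of its line through `c`. -/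
theorem exists_Ec_smul {B : Q} {c y z : P} (hc : D.inc c B) (hy : ¬ D.inc y B)
    (hz : z ∈ D.pline y c) (hzc : z ≠ c) : ∃ x ∈ T.Ec B c, x • y = z := by
  by_cases hzy : z = y
  · exact ⟨1, (T.Ec B c).one_mem, by rw [one_smul, hzy]⟩
  obtain ⟨x, hx, rfl⟩ := T.exists_smul_eq hy (T.not_inc_of_mem_pline hc hy hz hzc)
  have hx1 : x ≠ 1 := fun e => hzy (by rw [e, one_smul])
  obtain ⟨d, hd, hfix, hline⟩ := T.exists_centre hx hx1
  have hyc : y ≠ c := fun e => hy (e ▸ hc)
  have he := D.pline_congr hyc (Ne.symm hzy) (D.self_mem_pline y c).1 hz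
  have hdy := hline y hy
  rw [he] at hdy
  have hdc : d = c := eq_of_mem_pline_inc hyc (fun h => hy h.1) hdy (D.self_mem_pline y c).2 hd hc
  exact ⟨x, ⟨hx, fun X hX => (hfix X).2 (hdc ▸ hX)⟩, rfl⟩

theorem smul_mem_pline {B : Q} {c y : P} (hc : D.inc c B) (hy : ¬ D.inc y B) {x : G}
    (hx : x ∈ T.Ec B c) : x • y ∈ D.pline y c := by
  rw [Sym.mem_pline]
  intro X h1 h2
  exact (D.smul_inc_iff (hx.2 X h2) y).2 h1

theorem card_Ec {B : Q} {c : P} (hc : D.inc c B) :
    #({x | x ∈ T.Ec B c} : Finset G) = T.w := by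
  obtain ⟨y, hy⟩ := D.exists_not_inc B
  have hyc : y ≠ c := fun e => hy (e ▸ hc)
  rw [← Nat.add_sub_cancel (n := T.w) (m := 1), ← T.card_pline B hyc,
    ← Finset.card_erase_of_mem (D.self_mem_pline y c).2]
  refine Finset.card_bij (fun x _ => x • y) ?_ ?_ ?_
  · intro x hx
    simp only [Finset.mem_filter, Finset.mem_univ, true_and] at hx
    exact Finset.mem_erase.2 ⟨fun e => T.not_inc_smul hx.1 hy (by rw [e]; exact hc),
      T.smul_mem_pline hc hy hx⟩
  · intro x hx x' hx' e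
    simp only [Finset.mem_filter, Finset.mem_univ, true_and] at hx hx'
    exact T.eq_of_smul_eq hx.1 hx'.1 hy e
  · intro z hz
    obtain ⟨x, hx, he⟩ := T.exists_Ec_smul hc hy (Finset.mem_erase.1 hz).2 (Finset.mem_erase.1 hz).1
    exact ⟨x, by simp [hx], he⟩

theorem exists_Ec_ne_one {B : Q} {c : P} (hc : D.inc c B) : ∃ x ∈ T.Ec B c, x ≠ 1 := by
  have h1 := T.card_Ec hc
  have h2 := T.two_le_w B
  obtain ⟨x, hx, hx1⟩ := Finset.exists_mem_ne
    (s := ({x | x ∈ T.Ec B c} : Finset G)) (by omega) 1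
  exact ⟨x, by simpa using hx, hx1⟩

theorem commute_of_ne {B : Q} {c c' : P} (hc : D.inc c B) (hc' : D.inc c' B) (hcc : c ≠ c')
    {x z : G} (hx : x ∈ T.Ec B c) (hz : z ∈ T.Ec B c') : Commute x z := by
  have h1 : x * z * x⁻¹ * z⁻¹ ∈ T.Ec B c := by
    rw [show x * z * x⁻¹ * z⁻¹ = x * (z * x⁻¹ * z⁻¹) by group]
    exact (T.Ec B c).mul_mem hx (T.conj_Ec hc hz.1 ((T.Ec B c).inv_mem hx))
  have h2 : x * z * x⁻¹ * z⁻¹ ∈ T.Ec B c' :=
    (T.Ec B c').mul_mem (T.conj_Ec hc' hx.1 hz) ((T.Ec B c').inv_mem hz)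
  exact commutatorElement_eq_one_iff_mul_comm.1 (by
    rw [commutatorElement_def]; exact T.Ec_disjoint hcc h1 h2)

theorem commute_all {B : Q} {x z : G} (hx : x ∈ T.E B) (hz : z ∈ T.E B) : Commute x z := by
  obtain ⟨c, hc, hxc⟩ := T.exists_Ec hx
  obtain ⟨c', hc', hzc⟩ := T.exists_Ec hz
  by_cases hcc : c = c'
  swap
  · exact T.commute_of_ne hc hc' hcc hxc hzc
  subst hcc
  obtain ⟨d, hd, hdc, -⟩ := T.exists_third (B := B) c c
  obtain ⟨u, hu, hu1⟩ := T.exists_Ec_ne_one hd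
  have hzu : z * u ∈ T.E B := (T.E B).mul_mem hz hu.1
  obtain ⟨f, hf, hfu⟩ := T.exists_Ec hzu
  have hfc : c ≠ f := by
    rintro rfl
    have : u ∈ T.Ec B c := by
      have := (T.Ec B c).mul_mem ((T.Ec B c).inv_mem hzc) hfu
      rwa [inv_mul_cancel_left] at this
    exact hu1 (T.Ec_disjoint hdc hu this)
  have h1 : Commute x (z * u) := T.commute_of_ne hc hf hfc hxc hfu
  have h2 : Commute x u := T.commute_of_ne hc hd hdc.symm hxc hu
  have := h1.mul_right h2.inv_right
  rwa [mul_inv_cancel_right] at this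

/-- The group of a block has prime exponent. -/
theorem exists_prime_exponent (B : Q) : ∃ p : ℕ, p.Prime ∧ ∀ x ∈ T.E B, x ^ p = 1 := by
  obtain ⟨a, ha, ha1⟩ : ∃ a ∈ T.E B, a ≠ 1 := by
    by_contra h
    push Not at h
    exact T.ne_bot B ((Subgroup.eq_bot_iff_forall _).2 h)
  set p := (orderOf a).minFac with hp
  have hpp : p.Prime := Nat.minFac_prime (by rwa [Ne, orderOf_eq_one_iff])
  refine ⟨p, hpp, ?_⟩
  set a₁ := a ^ (orderOf a / p) with ha₁
  have hord : a₁ ^ p = 1 := by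
    rw [ha₁, ← pow_mul, Nat.div_mul_cancel (Nat.minFac_dvd _), pow_orderOf_eq_one]
  have ha₁1 : a₁ ≠ 1 := by
    have hpos := orderOf_pos a
    intro h
    have h' := Nat.le_of_dvd (Nat.div_pos (Nat.minFac_le hpos) hpp.pos)
      (orderOf_dvd_of_pow_eq_one h)
    have hlt : orderOf a / p < orderOf a := Nat.div_lt_self hpos hpp.one_lt
    exact absurd h' (not_le.2 hlt)
  have key : ∀ u ∈ T.E B, u ^ p = 1 → u ≠ 1 → ∀ c c', D.inc c B → D.inc c' B → c ≠ c' →
      u ∈ T.Ec B c → ∀ z ∈ T.Ec B c', z ^ p = 1 := by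
    intro u hu hup hu1 c c' hc hc' hcc huc z hz
    by_cases hz1 : z = 1
    · rw [hz1, one_pow]
    obtain ⟨f, hf, hfu⟩ := T.exists_Ec ((T.E B).mul_mem hu hz.1)
    have hfc' : c' ≠ f := by
      rintro rfl
      have := (T.Ec B c').mul_mem hfu ((T.Ec B c').inv_mem hz)
      rw [mul_inv_cancel_right] at this
      exact hu1 (T.Ec_disjoint hcc huc this)
    refine T.Ec_disjoint hfc' ((T.Ec B c').pow_mem hz p) ?_
    have := (T.Ec B f).pow_mem hfu p
    rwa [(T.commute_all hu hz.1).mul_pow, hup, one_mul] at this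
  have ha₁E : a₁ ∈ T.E B := (T.E B).pow_mem ha _
  obtain ⟨c, hc, hac⟩ := T.exists_Ec ha₁E
  obtain ⟨d, hd, hdc, -⟩ := T.exists_third (B := B) c c
  obtain ⟨u, hu, hu1⟩ := T.exists_Ec_ne_one hd
  have hup : u ^ p = 1 := key a₁ ha₁E hord ha₁1 c d hc hd hdc.symm hac u hu
  intro x hx
  obtain ⟨f, hf, hxf⟩ := T.exists_Ec hx
  by_cases hfc : f = c
  · subst hfc
    exact key u hu.1 hup hu1 d f hd hc hdc hu x hxf
  · exact key a₁ ha₁E hord ha₁1 c f hc hf (Ne.symm hfc) hac x hxf

end Elation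

end CfsgLib.ItoDesign48
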