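import Mathlib

/-!
Additive subgroups of a finite ring which contain `1` and are closed under inversion: Hua's
identity and the commutative case.
-/

set_option autoImplicit false

namespace CfsgLib.ItoDesign48

universe u

variable {R : Type u} [Ring R]

/-- An additive subgroup containing `1` whose non-zero elements are invertible inside it. -/
structure Jordan (S : AddSubgroup R) : Prop where
  one : (1 : R) ∈ S
  inv : ∀ a ∈ S, a ≠ 0 → ∃ b ∈ S, a * b = 1 ∧ b * a = 1

namespace Jordan

variable {S : AddSubgroup R} (h : Jordan S)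

include h

theorem mul_eq_zero [Nontrivial R] {a : R} (ha : a ∈ S) {x : R} (hx : a * x = 0) :
    a = 0 ∨ x = 0 := by
  by_cases ha0 : a = 0
  · exact Or.inl ha0
  obtain ⟨b, -, -, hba⟩ := h.inv a ha ha0
  exact Or.inr (by rw [← one_mul x, ← hba, mul_assoc, hx, mul_zero])

/-- Hua's identity: `a b a` lies in `S`. -/
theorem mul_mul_mem {a b : R} (ha : a ∈ S) (hb : b ∈ S) : a * b * a ∈ S := by
  by_cases ha0 : a = 0
  · simp [ha0]
  by_cases hb0 : b = 0
  · simp [hb0]
  obtain ⟨a', ha', haa', ha'a⟩ := h.inv a ha ha0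
  obtain ⟨b', hb', hbb', hb'b⟩ := h.inv b hb hb0
  by_cases hc : b' - a = 0
  · rw [sub_eq_zero] at hc
    rw [← hc, hb'b, one_mul]
    exact hb'
  obtain ⟨c', hc', hcc', hc'c⟩ := h.inv (b' - a) (S.sub_mem hb' ha) hc
  have key : a - a * b * a = (b' - a) * b * a := by
    rw [sub_mul, sub_mul, hb'b, one_mul]
  have hd : (a' + c') * (a - a * b * a) = 1 := by
    have h1 : a' * (a - a * b * a) = 1 - b * a := by
      rw [mul_sub, ha'a, ← mul_assoc a', ← mul_assoc a', ha'a, one_mul]
    have h2 : c' * (a - a * b * a) = b * a := by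
      rw [key, ← mul_assoc, ← mul_assoc, hc'c, one_mul]
    rw [add_mul, h1, h2, sub_add_cancel]
  by_cases hd0 : a' + c' = 0
  · rw [hd0, zero_mul] at hd
    have : a * b * a = a * b * a * 0 := by rw [hd, mul_one]
    rw [this, mul_zero]
    exact S.zero_mem
  obtain ⟨d', hd', -, hd'd⟩ := h.inv _ (S.add_mem ha' hc') hd0
  have he : a - a * b * a = d' := by
    rw [← mul_one d', ← hd, ← mul_assoc, hd'd, one_mul]
  have h3 : a * b * a = a - d' := by rw [← he, sub_sub_cancel]
  rw [h3]
  exact S.sub_mem ha hd'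

theorem sandwich_mem {a b c : R} (ha : a ∈ S) (hb : b ∈ S) (hc : c ∈ S) :
    a * b * c + c * b * a ∈ S := by
  have h1 := h.mul_mul_mem (S.add_mem ha hc) hb
  have h2 := S.sub_mem (S.sub_mem h1 (h.mul_mul_mem ha hb)) (h.mul_mul_mem hc hb)
  have e : (a + c) * b * (a + c) - a * b * a - c * b * c = a * b * c + c * b * a := by
    simp only [add_mul, mul_add]
    abel
  rwa [e] at h2

theorem symm_mul_mem {a b : R} (ha : a ∈ S) (hb : b ∈ S) : a * b + b * a ∈ S := by
  have := h.sandwich_mem ha h.one hb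
  simpa using this

theorem pow_mem {a : R} (ha : a ∈ S) : ∀ n : ℕ, a ^ n ∈ S
  | 0 => by simpa using h.one
  | 1 => by simpa using ha
  | n + 2 => by
    rw [show a ^ (n + 2) = a * a ^ n * a by rw [← pow_succ', ← pow_succ]]
    exact h.mul_mul_mem ha (pow_mem ha n)

/-- Cutting `S` by an additive subgroup containing `1` and the inverses of its elements. -/
theorem inf {T : AddSubgroup R} (h1 : (1 : R) ∈ T)
    (h2 : ∀ a ∈ T, ∀ b : R, a * b = 1 → b * a = 1 → b ∈ T) : Jordan (S ⊓ T) where
  one := ⟨h.one, h1⟩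
  inv := fun a ha ha0 => by
    obtain ⟨b, hb, hab, hba⟩ := h.inv a ha.1 ha0
    exact ⟨b, ⟨hb, h2 a ha.2 b hab hba⟩, hab, hba⟩

/-- The elements of `S` commuting with a given element. -/
theorem inf_commute (r : R) :
    Jordan (S ⊓ (Subring.centralizer ({r} : Set R)).toAddSubgroup) := by
  refine h.inf (Subring.one_mem _) fun a ha b hab hba => ?_
  have ha' : r * a = a * r := Subring.mem_centralizer_iff.1 ha r rfl
  refine Subring.mem_centralizer_iff.2 fun x hx => ?_
  rw [Set.mem_singleton_iff] at hx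
  subst hx
  calc x * b = b * a * (x * b) := by rw [hba, one_mul]
    _ = b * (x * a) * b := by rw [ha']; simp only [mul_assoc]
    _ = b * x := by rw [mul_assoc b (x * a) b, mul_assoc x a b, hab, mul_one]

theorem exists_prime_char [Finite R] [Nontrivial R] : ∃ p : ℕ, p.Prime ∧ CharP R p := by
  obtain ⟨p, hp⟩ := CharP.exists R
  refine ⟨p, ?_, hp⟩
  have hp0 : p ≠ 0 := by
    rintro rfl
    haveI := CharP.charP_to_charZero R
    exact not_finite R
  have hp1 : p ≠ 1 := CharP.char_ne_one R p
  have hnat : ∀ n : ℕ, (n : R) ∈ S := by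
    intro n
    induction n with
    | zero => simp
    | succ n ih => simpa using S.add_mem ih h.one
  by_contra hpn
  obtain ⟨a, b, ha, hb, hab⟩ : ∃ a b, a < p ∧ b < p ∧ a * b = p := by
    obtain ⟨a, ⟨b, hab⟩, ha2, ha⟩ := Nat.exists_dvd_of_not_prime2 (show 2 ≤ p by omega) hpn
    refine ⟨a, b, ha, ?_, hab.symm⟩
    subst hab
    calc b = 1 * b := (one_mul b).symm
      _ < a * b := Nat.mul_lt_mul_of_pos_right (by omega)
          (Nat.pos_of_ne_zero fun e => hp0 (by rw [e, mul_zero]))
  have h0 : (a : R) * (b : R) = 0 := by rw [← Nat.cast_mul, hab]; exact CharP.cast_eq_zero R p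
  have hz : ∀ m, m < p → (m : R) = 0 → m = 0 := fun m hm e =>
    Nat.eq_zero_of_dvd_of_lt ((CharP.cast_eq_zero_iff R p m).1 e) hm
  rcases h.mul_eq_zero (hnat a) h0 with e | e
  · exact hp0 (by rw [← hab, hz a ha e, zero_mul])
  · exact hp0 (by rw [← hab, hz b hb e, mul_zero])

/-- A commutative such subgroup is closed under multiplication. -/
theorem mul_mem_of_comm [Finite R] [Nontrivial R] (hc : ∀ a ∈ S, ∀ b ∈ S, a * b = b * a) {x y : R}
    (hx : x ∈ S) (hy : y ∈ S) : x * y ∈ S := by
  obtain ⟨p, hp, hcp⟩ := h.exists_prime_char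
  rcases hp.eq_two_or_odd' with rfl | hodd
  · have hinj : Function.Injective fun u : S => (⟨(u : R) ^ 2, h.pow_mem u.2 2⟩ : S) := by
      intro u v huv
      have e : (u : R) ^ 2 = (v : R) ^ 2 := congrArg Subtype.val huv
      have h2 : ∀ z : R, z + z = 0 := fun z => by
        rw [← two_mul]
        rw [show (2 : R) = ((2 : ℕ) : R) from rfl, CharP.cast_eq_zero R 2, zero_mul]
      have hw : ((u : R) - v) * ((u : R) - v) = 0 := by
        rw [sub_mul, mul_sub, mul_sub, hc _ v.2 _ u.2, ← sq, ← sq, e]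
        have := h2 ((v : R) ^ 2 - (u : R) * v)
        rw [← this]
        abel
      rcases h.mul_eq_zero (S.sub_mem u.2 v.2) hw with e' | e' <;>
        exact Subtype.ext (sub_eq_zero.1 e')
    obtain ⟨u, hu⟩ := (Finite.injective_iff_surjective.1 hinj) ⟨x, hx⟩
    have hu' : (u : R) ^ 2 = x := congrArg Subtype.val hu
    have hm := h.mul_mul_mem u.2 hy
    rw [mul_assoc, hc _ hy _ u.2, ← mul_assoc, ← sq, hu'] at hm
    exact hm
  · obtain ⟨m, hm⟩ := hodd
    have hmem := S.nsmul_mem (h.symm_mul_mem hx hy) (m + 1)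
    have : (m + 1) • (x * y + y * x) = x * y := by
      rw [hc y hy x hx, ← two_nsmul, ← mul_nsmul', show (m + 1) * 2 = p + 1 by omega, succ_nsmul,
        nsmul_eq_mul, CharP.cast_eq_zero R p, zero_mul, zero_add]
    rwa [this] at hmem

/-- The subring carried by a commutative such subgroup. -/
def subringOfComm [Finite R] [Nontrivial R] (hc : ∀ a ∈ S, ∀ b ∈ S, a * b = b * a) : Subring R where
  carrier := S
  mul_mem' := fun ha hb => h.mul_mem_of_comm hc ha hb
  one_mem' := h.one
  add_mem' := S.add_mem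
  zero_mem' := S.zero_mem
  neg_mem' := S.neg_mem

theorem mem_subringOfComm [Finite R] [Nontrivial R] (hc : ∀ a ∈ S, ∀ b ∈ S, a * b = b * a)
    {x : R} : x ∈ h.subringOfComm hc ↔ x ∈ S := Iff.rfl

/-- A commutative such subgroup is a finite field inside `R`. -/
theorem exists_field [Finite R] [Nontrivial R] (hc : ∀ a ∈ S, ∀ b ∈ S, a * b = b * a) :
    ∃ (K : Type u) (_ : Field K) (_ : Fintype K) (ι : K →+* R), ∀ x, x ∈ S ↔ ∃ k, ι k = x := by
  classical
  let A := h.subringOfComm hc
  letI : CommRing A :=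
    { (inferInstance : Ring A) with mul_comm := fun x y => Subtype.ext (hc _ x.2 _ y.2) }
  haveI : IsDomain A := by
    haveI : NoZeroDivisors A := ⟨fun {x y} e => by
      rcases h.mul_eq_zero x.2 (show (x : R) * y = 0 from congrArg Subtype.val e) with e' | e'
      · exact Or.inl (Subtype.ext e')
      · exact Or.inr (Subtype.ext e')⟩
    exact NoZeroDivisors.to_isDomain A
  haveI : Fintype A := Fintype.ofFinite A
  letI : Field A := Fintype.fieldOfDomain A
  refine ⟨A, inferInstance, inferInstance,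
    { toFun := fun a => (a : R)
      map_one' := rfl
      map_mul' := fun _ _ => rfl
      map_zero' := rfl
      map_add' := fun _ _ => rfl }, fun x => ⟨fun hx => ⟨⟨x, hx⟩, rfl⟩, ?_⟩⟩
  rintro ⟨k, rfl⟩
  exact k.2

end Jordan

end CfsgLib.ItoDesign48
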