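import Mathlib
import Cfsg.Agent.ItoDesign48.JordanBasic

/-!
A finite field inside a Jordan subgroup: some element outside it is a sum of two twisted parts.
-/

set_option autoImplicit false

namespace CfsgLib.ItoDesign48

open Polynomial

variable {K R : Type*} [Field K] [Fintype K] [Ring R] (ι : K →+* R)

/-- `x` twists the field by `s`. -/
def Rel (s : K ≃+* K) (x : R) : Prop := ∀ k, x * ι k = ι (s k) * x

/-- Every element of the field is zero or a power of `k₀`. -/
def Gen (k₀ : K) : Prop := ∀ k : K, k = 0 ∨ ∃ n : ℕ, k = k₀ ^ n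

theorem exists_gen : ∃ k₀ : K, Gen k₀ := by
  obtain ⟨u, hu⟩ := IsCyclic.exists_generator (α := Kˣ)
  refine ⟨u, fun k => ?_⟩
  by_cases hk : k = 0
  · exact Or.inl hk
  obtain ⟨n, hn⟩ := (mem_powers_iff_mem_zpowers (x := u)).2 (hu (Units.mk0 k hk))
  exact Or.inr ⟨n, by rw [← Units.val_pow_eq_pow_val, show u ^ n = Units.mk0 k hk from hn]; rfl⟩

omit [Fintype K] in
theorem eq_zero_of_iota_mul {k : K} {x : R} (hx : x ≠ 0) (h : ι k * x = 0) : k = 0 := by
  by_contra hk
  refine hx ?_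
  rw [← one_mul x, ← map_one ι, ← inv_mul_cancel₀ hk, map_mul, mul_assoc, h, mul_zero]

omit [Fintype K] in
theorem eq_zero_of_mul_iota {k : K} {x : R} (hx : x ≠ 0) (h : x * ι k = 0) : k = 0 := by
  by_contra hk
  refine hx ?_
  rw [← mul_one x, ← map_one ι, ← mul_inv_cancel₀ hk, map_mul, ← mul_assoc, h, zero_mul]

omit [Fintype K] in
theorem pow_rel {x : R} {a a' : K} (h : x * ι a = ι a' * x) (n : ℕ) :
    x * ι (a ^ n) = ι (a' ^ n) * x := by
  induction n with
  | zero => simp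
  | succ n ih =>
    rw [pow_succ, pow_succ, map_mul, map_mul, ← mul_assoc, ih, mul_assoc, h, mul_assoc]

theorem exists_rel {x : R} (hx : x ≠ 0) {a a' : K} (ha : Gen a) (h : x * ι a = ι a' * x) :
    ∃ s : K ≃+* K, s a = a' ∧ Rel ι s x := by
  have hex : ∀ k, ∃ k', x * ι k = ι k' * x := by
    intro k
    rcases ha k with rfl | ⟨n, rfl⟩
    · exact ⟨0, by simp⟩
    · exact ⟨a' ^ n, pow_rel ι h n⟩
  choose f hf using hex
  have huniq : ∀ k k', x * ι k = ι k' * x → f k = k' := by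
    intro k k' hk
    refine sub_eq_zero.1 (eq_zero_of_iota_mul ι hx ?_)
    rw [map_sub, sub_mul, ← hf k, hk, sub_self]
  let φ : K →+* K :=
    { toFun := f
      map_one' := huniq _ _ (by simp)
      map_mul' := fun u v => huniq _ _ (by
        rw [map_mul, map_mul, ← mul_assoc, hf u, mul_assoc, hf v, mul_assoc])
      map_zero' := huniq _ _ (by simp)
      map_add' := fun u v => huniq _ _ (by rw [map_add, map_add, mul_add, add_mul, hf u, hf v]) }
  exact ⟨RingEquiv.ofBijective φ ⟨φ.injective, Finite.surjective_of_injective φ.injective⟩,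
    huniq _ _ h, hf⟩

theorem gen_of_rel {x : R} (hx : x ≠ 0) {a a' : K} (ha : Gen a') (h : x * ι a = ι a' * x) :
    Gen a := by
  have hex : ∀ k', ∃ k, (k = 0 ∨ ∃ n : ℕ, k = a ^ n) ∧ x * ι k = ι k' * x := by
    intro k'
    rcases ha k' with rfl | ⟨n, rfl⟩
    · exact ⟨0, Or.inl rfl, by simp⟩
    · exact ⟨a ^ n, Or.inr ⟨n, rfl⟩, pow_rel ι h n⟩
  choose f hf hf' using hex
  have hinj : Function.Injective f := by
    intro u v e
    refine sub_eq_zero.1 (eq_zero_of_iota_mul ι hx ?_)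
    rw [map_sub, sub_mul, ← hf' u, ← hf' v, e, sub_self]
  intro k
  obtain ⟨k', rfl⟩ := Finite.surjective_of_injective hinj k
  exact hf k'

theorem rel_of_gen {x : R} {k₀ : K} (hk₀ : Gen k₀) (s : K ≃+* K)
    (h : x * ι k₀ = ι (s k₀) * x) : Rel ι s x := by
  intro k
  rcases hk₀ k with rfl | ⟨n, rfl⟩
  · simp
  · rw [map_pow s]; exact pow_rel ι h n

/-- Left multiplication by the field. -/
def lam : K →+* AddMonoid.End R where
  toFun k := AddMonoidHom.mulLeft (ι k)
  map_one' := AddMonoidHom.ext fun x => by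
    show ι 1 * x = x
    simp
  map_mul' a b := AddMonoidHom.ext fun x => by
    show ι (a * b) * x = ι a * (ι b * x)
    rw [map_mul, mul_assoc]
  map_zero' := AddMonoidHom.ext fun x => by
    show ι 0 * x = 0
    simp
  map_add' a b := AddMonoidHom.ext fun x => by
    show ι (a + b) * x = ι a * x + ι b * x
    rw [map_add, add_mul]

/-- Right multiplication by `k₀`. -/
def rho (k₀ : K) : AddMonoid.End R := AddMonoidHom.mulRight (ι k₀)

/-- A polynomial acts by left multiplication on coefficients and right multiplication by `k₀`. -/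
noncomputable def act (k₀ : K) : K[X] →+* AddMonoid.End R :=
  Polynomial.eval₂RingHom' (lam ι) (rho ι k₀) fun a => by
    apply AddMonoidHom.ext
    intro x
    show ι a * (x * ι k₀) = ι a * x * ι k₀
    rw [mul_assoc]

omit [Fintype K] in
theorem act_C (k₀ a : K) (x : R) : act ι k₀ (C a) x = ι a * x := by
  show (Polynomial.eval₂ (lam ι) (rho ι k₀) (C a)) x = _
  rw [Polynomial.eval₂_C]
  rfl

omit [Fintype K] in
theorem act_X (k₀ : K) (x : R) : act ι k₀ X x = x * ι k₀ := by
  show (Polynomial.eval₂ (lam ι) (rho ι k₀) X) x = _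
  rw [Polynomial.eval₂_X]
  rfl

omit [Fintype K] in
theorem act_mul (k₀ : K) (p q : K[X]) (x : R) :
    act ι k₀ (p * q) x = act ι k₀ p (act ι k₀ q x) := by
  rw [map_mul]; rfl

omit [Fintype K] in
theorem act_add (k₀ : K) (p q : K[X]) (x : R) :
    act ι k₀ (p + q) x = act ι k₀ p x + act ι k₀ q x := by
  rw [map_add]; rfl

omit [Fintype K] in
theorem act_sub (k₀ : K) (p q : K[X]) (x : R) :
    act ι k₀ (p - q) x = act ι k₀ p x - act ι k₀ q x := by
  rw [map_sub]; rfl

omit [Fintype K] in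
theorem act_one (k₀ : K) (x : R) : act ι k₀ 1 x = x := by
  rw [map_one]; rfl

omit [Fintype K] in
theorem act_zero (k₀ : K) (x : R) : act ι k₀ 0 x = 0 := by
  rw [map_zero]; rfl

omit [Fintype K] in
theorem act_X_pow (k₀ : K) (n : ℕ) (x : R) : act ι k₀ (X ^ n) x = x * ι (k₀ ^ n) := by
  induction n with
  | zero => simp
  | succ n ih => rw [pow_succ', act_mul, ih, act_X, pow_succ, map_mul, mul_assoc]

omit [Fintype K] in
theorem act_lin (k₀ a : K) (x : R) : act ι k₀ (X - C a) x = x * ι k₀ - ι a * x := by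
  rw [act_sub, act_X, act_C]

omit [Fintype K] in
/-- On a twisted element a polynomial acts by its value at the twisted generator. -/
theorem act_rel {k₀ : K} {s : K ≃+* K} {x : R} (h : Rel ι s x) (p : K[X]) :
    act ι k₀ p x = ι (p.eval (s k₀)) * x := by
  induction p using Polynomial.induction_on' with
  | add p q hp hq => rw [act_add, hp, hq, eval_add, map_add, add_mul]
  | monomial n a =>
    rw [← C_mul_X_pow_eq_monomial, act_mul, act_X_pow, act_C, eval_mul, eval_C, eval_pow, eval_X,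
      h, map_mul, mul_assoc, map_pow s]

theorem act_card (k₀ : K) (x : R) : act ι k₀ (X ^ Fintype.card K - X) x = 0 := by
  rw [act_sub, act_X_pow, act_X, FiniteField.pow_card, sub_self]

theorem act_sq_eq_zero {k₀ a : K} {x : R} (h : act ι k₀ ((X - C a) ^ 2) x = 0) :
    act ι k₀ (X - C a) x = 0 := by
  obtain ⟨p, hp⟩ := CharP.exists K
  haveI : Fact p.Prime := ⟨(CharP.char_is_prime_or_zero K p).resolve_right (CharP.char_ne_zero_of_finite K p)⟩
  obtain ⟨n, -, hn⟩ := FiniteField.card K p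
  have h1 : (X - C a) ^ Fintype.card K = (X ^ Fintype.card K - X) + (X - C a) := by
    rw [hn, sub_pow_char_pow, ← C_pow, ← hn, FiniteField.pow_card]
    ring
  have h2 : act ι k₀ ((X - C a) ^ Fintype.card K) x = 0 := by
    obtain ⟨m, hm⟩ := Nat.exists_eq_add_of_le (Fintype.one_lt_card (α := K))
    rw [hm, Nat.succ_eq_add_one, show 1 + 1 + m = m + 2 by omega, pow_add, act_mul, h, map_zero]
  rwa [h1, act_add, act_card, zero_add] at h2

theorem act_sq_mem {S : AddSubgroup R} (hS : Jordan S) (hK : ∀ k, ι k ∈ S) {k₀ : K} {x : R}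
    (hx : x ∈ S) : act ι k₀ ((X - C k₀) ^ 2) x ∈ S := by
  have e : act ι k₀ ((X - C k₀) ^ 2) x
      = ι (k₀ * k₀) * x + x * ι (k₀ * k₀) - (ι k₀ * x * ι k₀ + ι k₀ * x * ι k₀) := by
    rw [sq, act_mul, act_lin, act_lin, map_mul]
    simp only [sub_mul, mul_sub, mul_assoc]
    abel
  rw [e]
  exact S.sub_mem (hS.symm_mul_mem (hK _) hx)
    (S.add_mem (hS.mul_mul_mem (hK _) hx) (hS.mul_mul_mem (hK _) hx))

/-- The symmetrised product `(λ_c - ρ_{k₀})(ρ_c - λ_{k₀})`. -/
def sym2 (k₀ c : K) (x : R) : R :=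
  ι c * x * ι c + ι k₀ * x * ι k₀ - (ι (c * k₀) * x + x * ι (c * k₀))

omit [Fintype K] in
theorem sym2_mem {S : AddSubgroup R} (hS : Jordan S) (hK : ∀ k, ι k ∈ S) (k₀ c : K) {x : R}
    (hx : x ∈ S) : sym2 ι k₀ c x ∈ S :=
  S.sub_mem (S.add_mem (hS.mul_mul_mem (hK _) hx) (hS.mul_mul_mem (hK _) hx))
    (hS.symm_mul_mem (hK _) hx)

omit [Fintype K] in
theorem sym2_factor (k₀ c : K) (x : R) :
    sym2 ι k₀ c x = ι k₀ * (x * ι k₀ - ι c * x) - (x * ι k₀ - ι c * x) * ι c := by
  have e1 : ι (c * k₀) * x = ι k₀ * (ι c * x) := by rw [mul_comm c k₀, map_mul, mul_assoc]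
  have e2 : x * ι (c * k₀) = x * ι k₀ * ι c := by rw [mul_comm c k₀, map_mul, mul_assoc]
  rw [sym2, e1, e2]
  simp only [mul_sub, sub_mul, mul_assoc]
  abel

theorem exists_sym2_poly {k₀ : K} (hk₀ : Gen k₀) (c : K) :
    ∃ q : K[X], ∀ x : R, act ι k₀ (q * (X - C c)) x = sym2 ι k₀ c x := by
  rcases hk₀ c with rfl | ⟨n, hn⟩
  · refine ⟨C k₀, fun x => ?_⟩
    simp [sym2, act_mul, act_C, act_X, mul_assoc]
  · refine ⟨C k₀ - X ^ n, fun x => ?_⟩
    rw [sym2_factor, act_mul, act_sub, act_C, act_X_pow, act_lin, ← hn]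

theorem exists_twist [Nontrivial R] {S : AddSubgroup R} (hS : Jordan S) (hK : ∀ k, ι k ∈ S)
    (hC : ∀ x ∈ S, (∀ k, x * ι k = ι k * x) → ∃ k, ι k = x)
    {b₀ : R} (hb₀ : b₀ ∈ S) (hb₀K : ¬ ∃ k, ι k = b₀) {k₀ : K} (hk₀ : Gen k₀) :
    ∃ b ∈ S, (¬ ∃ k, ι k = b) ∧ ∃ (s : K ≃+* K) (g h : R),
      b = g + h ∧ Rel ι s g ∧ Rel ι s.symm h ∧ s k₀ ≠ k₀ := by
  classical
  have key : ∀ L : List K, ∀ x ∈ S, (¬ ∃ k, ι k = x) →
      act ι k₀ ((L.map fun c => X - C c).prod) x = 0 →
      ∃ c, ∃ y ∈ S, (¬ ∃ k, ι k = y) ∧ ∃ k, ι k = sym2 ι k₀ c y := by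
    intro L
    induction L with
    | nil =>
      intro x _ hx hact
      exfalso
      simp only [List.map_nil, List.prod_nil, act_one] at hact
      exact hx ⟨0, by rw [map_zero, hact]⟩
    | cons c L ih =>
      intro x hxS hx hact
      by_cases hc : ∃ k, ι k = sym2 ι k₀ c x
      · exact ⟨c, x, hxS, hx, hc⟩
      · obtain ⟨q, hq⟩ := exists_sym2_poly ι hk₀ c
        refine ih _ (sym2_mem ι hS hK k₀ c hxS) hc ?_
        rw [List.map_cons, List.prod_cons] at hact
        rw [← hq, ← act_mul, show (L.map fun c => X - C c).prod * (q * (X - C c))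
          = q * ((X - C c) * (L.map fun c => X - C c).prod) by ring, act_mul, hact, map_zero]
  have hfull : act ι k₀ (((Finset.univ : Finset K).toList.map fun c => X - C c).prod) b₀ = 0 := by
    have he : ((Finset.univ : Finset K).toList.map fun c => X - C c).prod
        = X ^ Fintype.card K - X := by
      rw [Finset.prod_map_toList]
      have hq : 1 < Fintype.card K := Fintype.one_lt_card
      have hm : (X ^ Fintype.card K - X : K[X]).Monic := by
        refine (monic_X_pow _).sub_of_left ?_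
        rw [degree_X, degree_X_pow]
        exact_mod_cast hq
      have hr := FiniteField.roots_X_pow_card_sub_X K
      have hcard : Multiset.card (X ^ Fintype.card K - X : K[X]).roots
          = (X ^ Fintype.card K - X : K[X]).natDegree := by
        rw [hr, FiniteField.X_pow_card_sub_X_natDegree_eq K hq]
        exact Finset.card_univ
      have := prod_multiset_X_sub_C_of_monic_of_roots_card_eq hm hcard
      rw [hr] at this
      exact this
    rw [he, act_card]
  obtain ⟨c, y, hyS, hy, k₁, hk₁⟩ := key _ b₀ hb₀ hb₀K hfull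
  have hck : c ≠ k₀ := by
    rintro rfl
    apply hy
    have hD : act ι c ((X - C c) ^ 2) y = -ι k₁ := by
      rw [hk₁, sym2_factor, sq, act_mul, act_lin, act_lin, neg_sub]
    have h4 : act ι c ((X - C c) ^ 2) (act ι c (X - C c) y) = 0 := by
      rw [← act_mul, show (X - C c) ^ 2 * (X - C c) = (X - C c) * (X - C c) ^ 2 by ring, act_mul,
        hD, act_lin, neg_mul, mul_neg, sub_neg_eq_add, ← map_mul, ← map_mul, mul_comm, neg_add_cancel]
    have h2 : act ι c ((X - C c) ^ 2) y = 0 := by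
      rw [sq, act_mul]; exact act_sq_eq_zero ι h4
    have h1 := act_sq_eq_zero ι h2
    rw [act_lin, sub_eq_zero] at h1
    refine hC y hyS fun k => ?_
    exact rel_of_gen ι (k₀ := c) hk₀ (RingEquiv.refl K) h1 k
  have hne : (c - k₀) * (c - k₀) ≠ 0 := mul_ne_zero (sub_ne_zero.2 hck) (sub_ne_zero.2 hck)
  set m := k₁ * ((c - k₀) * (c - k₀))⁻¹ with hm
  set b := y - ι m with hb
  have hbS : b ∈ S := S.sub_mem hyS (hK _)
  have hbK : ¬ ∃ k, ι k = b := by
    rintro ⟨k, hk⟩
    exact hy ⟨k + m, by rw [map_add, hk, hb, sub_add_cancel]⟩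
  have hkill : sym2 ι k₀ c b = 0 := by
    have hlin : sym2 ι k₀ c b = sym2 ι k₀ c y - sym2 ι k₀ c (ι m) := by
      simp only [hb, sym2, mul_sub, sub_mul]
      abel
    rw [hlin, ← hk₁, sub_eq_zero, sym2]
    simp only [← map_mul, ← map_add, ← map_sub]
    congr 1
    rw [hm]
    field_simp
    ring
  rw [sym2_factor] at hkill
  set u := b * ι k₀ - ι c * b with hu
  by_cases hu0 : u = 0
  · rw [sub_eq_zero] at hu0
    have hb0 : b ≠ 0 := fun e => hbK ⟨0, by rw [map_zero, e]⟩
    obtain ⟨s, hs, hrel⟩ := exists_rel ι hb0 hk₀ hu0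
    exact ⟨b, hbS, hbK, s, b, 0, (add_zero b).symm, hrel, fun k => by simp, hs ▸ hck⟩
  rw [sub_eq_zero] at hkill
  have hgc := gen_of_rel ι hu0 hk₀ hkill.symm
  obtain ⟨t, ht, hrel⟩ := exists_rel ι hu0 hgc hkill.symm
  have htc : t k₀ ≠ c := by
    intro e
    apply hu0
    have h2 : act ι k₀ ((X - C c) ^ 2) b = 0 := by
      rw [sq, act_mul, act_lin ι k₀ c b, ← hu, act_lin, hrel k₀, e, sub_self]
    have := act_sq_eq_zero ι h2
    rwa [act_lin, ← hu] at this
  set g := ι (c - t k₀)⁻¹ * (b * ι k₀ - ι (t k₀) * b) with hg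
  have hd : c - t k₀ ≠ 0 := sub_ne_zero.2 (Ne.symm htc)
  have hgd : ι (c - t k₀) * g = b * ι k₀ - ι (t k₀) * b := by
    rw [hg, ← mul_assoc, ← map_mul, mul_inv_cancel₀ hd, map_one, one_mul]
  have hboth : act ι k₀ (X - C c) (act ι k₀ (X - C (t k₀)) b) = 0 := by
    rw [← act_mul, mul_comm, act_mul, act_lin ι k₀ c b, ← hu, act_lin, hrel k₀, sub_self]
  have hg1 : g * ι k₀ = ι c * g := by
    rw [← sub_eq_zero]
    have e : ι (c - t k₀)⁻¹ * (act ι k₀ (X - C c) (act ι k₀ (X - C (t k₀)) b))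
        = g * ι k₀ - ι c * g := by
      rw [act_lin, act_lin, hg, mul_sub, mul_assoc, ← mul_assoc (ι c) (ι _),
        ← mul_assoc (ι _) (ι c), ← map_mul, ← map_mul, mul_comm (c - t k₀)⁻¹ c]
    rw [← e, hboth, mul_zero]
  have hh1 : (b - g) * ι k₀ = ι (t k₀) * (b - g) := by
    rw [← sub_eq_zero]
    have : (b - g) * ι k₀ - ι (t k₀) * (b - g)
        = (b * ι k₀ - ι (t k₀) * b) - (g * ι k₀ - ι (t k₀) * g) := by
      simp only [sub_mul, mul_sub]; abel
    rw [this, hg1, ← sub_mul, ← map_sub, hgd, sub_self]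
  have hts : t.symm k₀ = c := by rw [RingEquiv.symm_apply_eq]; exact ht.symm
  refine ⟨b, hbS, hbK, t.symm, g, b - g, (add_sub_cancel g b).symm,
    rel_of_gen ι hk₀ t.symm (by rw [hts]; exact hg1), ?_, by rw [hts]; exact hck⟩
  rw [RingEquiv.symm_symm]
  exact rel_of_gen ι hk₀ t hh1

end CfsgLib.ItoDesign48
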