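import Mathlib
import Cfsg.Agent.ItoDesign48.JordanTwist

/-!
Jordan subgroups twisted by an automorphism of odd order: a small invariant subspace.
-/

set_option autoImplicit false
set_option maxHeartbeats 800000

namespace CfsgLib.ItoDesign48

open Polynomial

section Galois

variable {L : Type*} [Field L] [Fintype L]

instance : Finite (L ≃+* L) := Finite.of_injective (fun e => (e : L → L)) DFunLike.coe_injective

/-- An automorphism whose square has the same fixed points has odd order. -/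
theorem orderOf_odd_of_fixed (σ : L ≃+* L) (h : ∀ x, σ (σ x) = x → σ x = x) :
    Odd (orderOf σ) := by
  classical
  have hsq : ∀ x : L, (σ ^ 2) x = σ (σ x) := fun x => by rw [pow_two]; rfl
  let M1 : Subgroup (L ≃+* L) := Subgroup.zpowers (σ ^ 2)
  let M2 : Subgroup (L ≃+* L) := Subgroup.zpowers σ
  haveI : FaithfulSMul (L ≃+* L) L := ⟨fun h => RingEquiv.ext h⟩
  haveI : FaithfulSMul M1 L := ⟨fun h => Subtype.ext (RingEquiv.ext h)⟩
  haveI : FaithfulSMul M2 L := ⟨fun h => Subtype.ext (RingEquiv.ext h)⟩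
  letI : Fintype M1 := Fintype.ofFinite _
  letI : Fintype M2 := Fintype.ofFinite _
  have hfix : FixedPoints.subfield M1 L = FixedPoints.subfield M2 L := by
    ext x
    constructor
    · intro hx
      have h2 : σ x = x := h x (by rw [← hsq]; exact hx ⟨σ ^ 2, Subgroup.mem_zpowers _⟩)
      intro g
      have hle : M2 ≤ MulAction.stabilizer (L ≃+* L) x := Subgroup.zpowers_le.2 h2
      exact hle g.2
    · intro hx g
      have hle : M1 ≤ M2 := Subgroup.zpowers_le.2 (Subgroup.pow_mem _ (Subgroup.mem_zpowers _) _)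
      exact hx ⟨g, hle g.2⟩
  have e1 := FixedPoints.finrank_eq_card M1 L
  rw [hfix, FixedPoints.finrank_eq_card M2 L, ← Nat.card_eq_fintype_card,
    ← Nat.card_eq_fintype_card, Nat.card_zpowers, Nat.card_zpowers, orderOf_pow] at e1
  rw [Nat.odd_iff]
  rcases Nat.mod_two_eq_zero_or_one (orderOf σ) with h0 | h0
  · exfalso
    have hg : Nat.gcd (orderOf σ) 2 = 2 := Nat.gcd_eq_right (Nat.dvd_of_mod_eq_zero h0)
    rw [hg] at e1
    have := orderOf_pos σ
    omega
  · exact h0

/-- Norms along a cyclic automorphism group fill the fixed field. -/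
theorem exists_norm_eq (σ : L ≃+* L) (z : L) (hz : σ z = z) :
    ∃ x : L, ∏ i ∈ Finset.range (orderOf σ), (σ ^ i) x = z := by
  classical
  let M : Subgroup (L ≃+* L) := Subgroup.zpowers σ
  haveI : FaithfulSMul M L := ⟨fun h => Subtype.ext (RingEquiv.ext h)⟩
  letI : Fintype M := Fintype.ofFinite _
  have hz' : z ∈ FixedPoints.subfield M L := fun g =>
    (Subgroup.zpowers_le.2 (show σ ∈ MulAction.stabilizer (L ≃+* L) z from hz) :
      M ≤ MulAction.stabilizer (L ≃+* L) z) g.2
  haveI : Finite (FixedPoints.subfield M L) := Subtype.finite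
  obtain ⟨x, hx⟩ := FiniteField.norm_surjective (FixedPoints.subfield M L) L ⟨z, hz'⟩
  refine ⟨x, ?_⟩
  have h1 := Algebra.norm_eq_prod_automorphisms (FixedPoints.subfield M L) x
  rw [hx, ← Equiv.prod_comp (FixedPoints.toAlgAutMulEquiv M L).toEquiv,
    ← Equiv.prod_comp (finEquivZPowers (isOfFinOrder_of_finite σ))] at h1
  rw [Finset.prod_range]
  exact (h1.trans (Finset.prod_congr rfl fun i _ => rfl)).symm

end Galois

section Lang

variable {L W : Type*} [Field L] [Fintype L] [AddCommGroup W] (j : L →+* AddMonoid.End W)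

/-- Dedekind independence, for coefficients acting on a group. -/
theorem eq_zero_of_sum_auto {n : ℕ} (τ : Fin n → L ≃+* L) (hτ : Function.Injective τ)
    (u : Fin n → W) (h : ∀ l : L, ∑ i, j (τ i l) (u i) = 0) (i : Fin n) : u i = 0 := by
  induction n with
  | zero => exact i.elim0
  | succ n ih =>
    have h0 : ∀ i : Fin n, u i.succ = 0 := by
      intro i
      obtain ⟨l', hl'⟩ : ∃ l', τ 0 l' ≠ τ i.succ l' := by
        by_contra hc
        push Not at hc
        exact (Fin.succ_ne_zero i) (hτ (RingEquiv.ext hc)).symm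
      have key := ih (fun i => τ i.succ) (hτ.comp (Fin.succ_injective n))
        (fun i => j (τ i.succ l' - τ 0 l') (u i.succ)) (fun l => ?_) i
      · have hd : τ i.succ l' - τ 0 l' ≠ 0 := sub_ne_zero.2 (Ne.symm hl')
        have e : j (τ i.succ l' - τ 0 l')⁻¹ (j (τ i.succ l' - τ 0 l') (u i.succ)) = u i.succ := by
          rw [← Function.comp_apply (f := j (τ i.succ l' - τ 0 l')⁻¹)]
          show (j (τ i.succ l' - τ 0 l')⁻¹ * j (τ i.succ l' - τ 0 l')) (u i.succ) = u i.succ
          rw [← map_mul, inv_mul_cancel₀ hd, map_one]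
          rfl
        rw [← e, key, map_zero]
      · have h1 := h (l * l')
        have h2 := congrArg (fun v => j (τ 0 l') v) (h l)
        simp only [map_sum, map_zero] at h2
        rw [Fin.sum_univ_succ] at h1 h2
        have hmul : ∀ (a b : L) (v : W), j (a * b) v = j a (j b v) := fun a b v => by
          rw [map_mul]; rfl
        have hsub : ∀ (a b : L) (v : W), j (a - b) v = j a v - j b v := fun a b v => by
          rw [map_sub]; rfl
        have e1 : ∀ i : Fin n, j (τ i.succ l) (j (τ i.succ l' - τ 0 l') (u i.succ))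
            = j (τ i.succ (l * l')) (u i.succ) - j (τ 0 l') (j (τ i.succ l) (u i.succ)) := by
          intro i
          rw [← hmul, ← hmul, mul_sub, hsub, map_mul (τ i.succ), mul_comm (τ i.succ l) (τ 0 l')]
        have e0 : j (τ 0 (l * l')) (u 0) = j (τ 0 l') (j (τ 0 l) (u 0)) := by
          rw [← hmul, map_mul, mul_comm]
        rw [Finset.sum_congr rfl fun i _ => e1 i, Finset.sum_sub_distrib, sub_eq_zero]
        refine add_left_cancel (a := j (τ 0 (l * l')) (u 0)) ?_
        rw [h1, e0, h2]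
    cases i using Fin.cases with
    | succ i => exact h0 i
    | zero =>
      have := h 1
      rw [Fin.sum_univ_succ] at this
      simpa [h0] using this

/-- A semilinear map some power of which has an eigenvector has an eigenvector. -/
theorem exists_semilinear_eigen (σ : L ≃+* L) {T : AddMonoid.End W} (hT : Rel j σ T)
    (U : AddSubgroup W) (hUL : ∀ l, ∀ v ∈ U, j l v ∈ U) (hUT : ∀ v ∈ U, T v ∈ U)
    {v₀ : W} (hv₀ : v₀ ∈ U) (hv₀0 : v₀ ≠ 0) {z : L} (hz : σ z = z) (hz0 : z ≠ 0)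
    (hpow : (T ^ orderOf σ) v₀ = j z v₀) :
    ∃ v ∈ U, v ≠ 0 ∧ ∃ c : L, T v = j c v := by
  set d := orderOf σ
  have hrel : ∀ (l : L) (v : W), T (j l v) = j (σ l) (T v) := fun l v => by
    exact DFunLike.congr_fun (hT l) v
  obtain ⟨μ, hμ⟩ := exists_norm_eq σ z⁻¹ (by rw [map_inv₀, hz])
  set T' : AddMonoid.End W := j μ * T with hT'
  have hrel' : ∀ (l : L) (v : W), T' (j l v) = j (σ l) (T' v) := fun l v => by
    show j μ (T (j l v)) = j (σ l) (j μ (T v))
    rw [hrel, ← Function.comp_apply (f := j μ), ← Function.comp_apply (f := j (σ l))]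
    show (j μ * j (σ l)) (T v) = (j (σ l) * j μ) (T v)
    rw [← map_mul, ← map_mul, mul_comm]
  have hpow' : ∀ n : ℕ, ∀ v : W,
      (T' ^ n) v = j (∏ i ∈ Finset.range n, (σ ^ i) μ) ((T ^ n) v) := by
    intro n
    induction n with
    | zero => intro v; simp
    | succ n ih =>
      intro v
      rw [pow_succ' T', pow_succ' T]
      show j μ (T ((T' ^ n) v)) = _
      rw [ih, hrel]
      show (j μ * j (σ (∏ i ∈ Finset.range n, (σ ^ i) μ))) (T ((T ^ n) v)) = _
      rw [← map_mul, map_prod, Finset.prod_range_succ', mul_comm]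
      simp only [pow_succ', pow_zero]
      rfl
  have hUT' : ∀ n : ℕ, ∀ v ∈ U, (T' ^ n) v ∈ U := by
    intro n
    induction n with
    | zero => intro v hv; simpa using hv
    | succ n ih =>
      intro v hv
      rw [pow_succ']
      exact hUL _ _ (hUT _ (ih v hv))
  have hfix : (T' ^ d) v₀ = v₀ := by
    rw [hpow', hpow, hμ]
    show (j z⁻¹ * j z) v₀ = v₀
    rw [← map_mul, inv_mul_cancel₀ hz0, map_one]
    rfl
  have hμ0 : μ ≠ 0 := by
    intro e
    have h0 : ∏ i ∈ Finset.range d, (σ ^ i) μ = 0 :=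
      Finset.prod_eq_zero (Finset.mem_range.2 (orderOf_pos σ)) (by simp [e])
    rw [hμ] at h0
    exact inv_ne_zero hz0 h0
  have hit : ∀ (n : ℕ) (l : L) (v : W), (T' ^ n) (j l v) = j ((σ ^ n) l) ((T' ^ n) v) := by
    intro n
    induction n with
    | zero => intro l v; simp
    | succ n ih =>
      intro l v
      rw [pow_succ', pow_succ' σ]
      show T' ((T' ^ n) (j l v)) = j (σ ((σ ^ n) l)) (T' ((T' ^ n) v))
      rw [ih, hrel']
  obtain ⟨l, hl⟩ : ∃ l, ∑ i : Fin d, (T' ^ (i : ℕ)) (j l v₀) ≠ 0 := by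
    by_contra hc
    push Not at hc
    have hinj : Function.Injective fun i : Fin d => σ ^ (i : ℕ) := fun a b e =>
      Fin.ext (pow_injOn_Iio_orderOf a.2 b.2 e)
    have := eq_zero_of_sum_auto j (fun i : Fin d => σ ^ (i : ℕ)) hinj
      (fun i => (T' ^ (i : ℕ)) v₀) (fun l => by simp only [← hit]; exact hc l)
      ⟨0, orderOf_pos σ⟩
    simp only [pow_zero] at this
    exact hv₀0 this
  set v := ∑ i : Fin d, (T' ^ (i : ℕ)) (j l v₀) with hv
  refine ⟨v, U.sum_mem fun i _ => hUT' _ _ (hUL _ _ hv₀), hl, μ⁻¹, ?_⟩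
  have hTv : T' v = v := by
    have hd' : (T' ^ d) (j l v₀) = j l v₀ := by rw [hit, hfix, pow_orderOf_eq_one]; rfl
    rw [hv, map_sum, Fin.sum_univ_eq_sum_range (fun i => (T' ^ i) (j l v₀)) d,
      Fin.sum_univ_eq_sum_range (fun i => T' ((T' ^ i) (j l v₀))) d]
    have h1 := Finset.sum_range_succ' (fun i => (T' ^ i) (j l v₀)) d
    rw [Finset.sum_range_succ, hd'] at h1
    refine (add_right_cancel (b := j l v₀) ?_).symm
    refine h1.trans ?_
    congr 1
    exact Finset.sum_congr rfl fun i _ => by rw [pow_succ']; rfl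
  calc T v = (j μ⁻¹ * j μ) (T v) := by rw [← map_mul, inv_mul_cancel₀ hμ0, map_one]; rfl
    _ = j μ⁻¹ v := congrArg (j μ⁻¹) hTv

end Lang

section Odd

variable {K W : Type*} [Field K] [Fintype K] [AddCommGroup W]
  (ι : K →+* AddMonoid.End W)

/-- The polynomial cutting out the part commuting with the field. -/
noncomputable def cpol (k₀ : K) : K[X] := 1 - ((X - C k₀) ^ 2) ^ (Fintype.card K - 1)

theorem cpol_eval (k₀ v : K) [Decidable (v = k₀)] :
    (cpol k₀).eval v = if v = k₀ then 1 else 0 := by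
  have h : 0 < Fintype.card K - 1 := by have := Fintype.one_lt_card (α := K); omega
  simp only [cpol, eval_sub, eval_one, eval_pow, eval_X, eval_C]
  split_ifs with hv
  · rw [hv, sub_self, zero_pow two_ne_zero, zero_pow h.ne', sub_zero]
  · rw [FiniteField.pow_card_sub_one_eq_one _ (pow_ne_zero _ (sub_ne_zero.2 hv)), sub_self]

theorem rel_zpow {s : K ≃+* K} {u : (AddMonoid.End W)ˣ} (hu : Rel ι s (u : AddMonoid.End W))
    (j : ℤ) : Rel ι (s ^ j) ((u ^ j : (AddMonoid.End W)ˣ) : AddMonoid.End W) := by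
  have hinv : Rel ι s⁻¹ ((u⁻¹ : (AddMonoid.End W)ˣ) : AddMonoid.End W) := fun k => by
    rw [Units.inv_mul_eq_iff_eq_mul, ← mul_assoc, hu, mul_assoc, Units.mul_inv, mul_one]
    exact congrArg ι (s.apply_symm_apply k).symm
  induction j with
  | zero => intro k; simp
  | succ n ih =>
    intro k
    rw [zpow_add_one, zpow_add_one, Units.val_mul, mul_assoc, hu, ← mul_assoc, ih, mul_assoc]
    rfl
  | pred n ih =>
    intro k
    rw [zpow_sub_one, zpow_sub_one, Units.val_mul, mul_assoc, hinv, ← mul_assoc, ih, mul_assoc]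
    rfl

theorem map_act {R : Type*} [Ring R] {E : Type*} [Ring E] (ιR : K →+* R) (ιE : K →+* E)
    (φ : R → E) (hadd : ∀ x y, φ (x + y) = φ x + φ y) (hlam : ∀ k x, φ (ιR k * x) = ιE k * φ x)
    (hrho : ∀ k x, φ (x * ιR k) = φ x * ιE k) (k₀ : K) (p : K[X]) (x : R) :
    φ (act ιR k₀ p x) = act ιE k₀ p (φ x) := by
  induction p using Polynomial.induction_on' with
  | add p q hp hq => rw [act_add, act_add, hadd, hp, hq]
  | monomial n a =>
    rw [← C_mul_X_pow_eq_monomial, act_mul, act_mul, act_C, act_C, act_X_pow, act_X_pow, hlam, hrho]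

theorem card_le_of_invariant {S : AddSubgroup (AddMonoid.End W)} [Finite W] (hS : Jordan S)
    [Nontrivial (AddMonoid.End W)] (U : AddSubgroup W) {v : W} (hv : v ∈ U) (hv0 : v ≠ 0)
    (hU : ∀ x ∈ S, ∀ u ∈ U, x u ∈ U) : Nat.card S ≤ Nat.card U := by
  refine Nat.card_le_card_of_injective (fun x : S => (⟨(x : AddMonoid.End W) v, hU _ x.2 v hv⟩ : U)) ?_
  intro x y e
  have e' : ((x : AddMonoid.End W) - y) v = 0 := sub_eq_zero.2 (congrArg Subtype.val e)
  by_contra hne
  obtain ⟨z, -, -, hz⟩ := hS.inv _ (S.sub_mem x.2 y.2) fun h => hne (Subtype.ext (sub_eq_zero.1 h))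
  apply hv0
  calc v = (z * ((x : AddMonoid.End W) - y)) v := by rw [hz]; rfl
    _ = z (((x : AddMonoid.End W) - y) v) := rfl
    _ = 0 := by rw [e', map_zero]

/-- A line over a small field invariant under `u` bounds `S`. -/
theorem card_le_of_eigen [Finite W] [Nontrivial (AddMonoid.End W)]
    (u : (AddMonoid.End W)ˣ) (α : K) {S : AddSubgroup (AddMonoid.End W)} (hS : Jordan S)
    {b : AddMonoid.End W}
    (hb : b = u + ((u⁻¹ : (AddMonoid.End W)ˣ) : AddMonoid.End W) * ι α)
    (hgen : ∀ U : AddSubgroup W, (∀ k, ∀ v ∈ U, ι k v ∈ U) → (∀ v ∈ U, b v ∈ U) →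
      ∀ x ∈ S, ∀ v ∈ U, x v ∈ U)
    {L : Type*} [Field L] [Fintype L] (j : L →+* AddMonoid.End W)
    (hjK : ∀ k, ∃ l, j l = ι k)
    (hju : ∀ l, ∃ l', (u : AddMonoid.End W) * j l = j l' * u)
    (hju' : ∀ l, ∃ l', ((u⁻¹ : (AddMonoid.End W)ˣ) : AddMonoid.End W) * j l
      = j l' * ((u⁻¹ : (AddMonoid.End W)ˣ) : AddMonoid.End W))
    {v : W} (hv0 : v ≠ 0) (hc : ∃ c, (u : AddMonoid.End W) v = j c v) :
    Nat.card S ≤ Fintype.card L := by
  obtain ⟨c, hc⟩ := hc
  have hc0 : c ≠ 0 := by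
    rintro rfl
    rw [map_zero] at hc
    apply hv0
    calc v = (((u⁻¹ : (AddMonoid.End W)ˣ) : AddMonoid.End W) * u) v := by
          rw [Units.inv_mul]; rfl
      _ = 0 := by
          show ((u⁻¹ : (AddMonoid.End W)ˣ) : AddMonoid.End W) ((u : AddMonoid.End W) v) = 0
          rw [hc]
          exact map_zero _
  have jmul : ∀ (a e : L) (x : W), j (a * e) x = j a (j e x) := fun a e x => by rw [map_mul]; rfl
  let U : AddSubgroup W := AddMonoidHom.range (AddMonoidHom.mk' (fun l => j l v)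
    (fun a e => by rw [map_add]; rfl))
  have hU : ∀ l, j l v ∈ U := fun l => ⟨l, rfl⟩
  have hu' : ((u⁻¹ : (AddMonoid.End W)ˣ) : AddMonoid.End W) v ∈ U := by
    obtain ⟨l', hl'⟩ := hju' c
    refine ⟨l'⁻¹, ?_⟩
    have h1 : j l' (((u⁻¹ : (AddMonoid.End W)ˣ) : AddMonoid.End W) v) = v := by
      calc _ = (((u⁻¹ : (AddMonoid.End W)ˣ) : AddMonoid.End W) * j c) v := by rw [hl']; rfl
        _ = ((u⁻¹ : (AddMonoid.End W)ˣ) : AddMonoid.End W) ((u : AddMonoid.End W) v) := by
            rw [hc]; rfl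
        _ = v := by
            show (((u⁻¹ : (AddMonoid.End W)ˣ) : AddMonoid.End W) * u) v = v
            rw [Units.inv_mul]; rfl
    have hl0 : l' ≠ 0 := fun e => hv0 (by rw [← h1, e, map_zero]; rfl)
    show j l'⁻¹ v = _
    nth_rw 1 [← h1]
    rw [← jmul, inv_mul_cancel₀ hl0, map_one]
    rfl
  have hUK : ∀ k, ∀ x ∈ U, ι k x ∈ U := by
    rintro k _ ⟨l, rfl⟩
    obtain ⟨lk, hlk⟩ := hjK k
    refine ⟨lk * l, ?_⟩
    show j (lk * l) v = ι k (j l v)
    rw [jmul, hlk]
  have hUu : ∀ x ∈ U, (u : AddMonoid.End W) x ∈ U := by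
    rintro _ ⟨l, rfl⟩
    obtain ⟨l', hl'⟩ := hju l
    refine ⟨l' * c, ?_⟩
    show j (l' * c) v = (u : AddMonoid.End W) (j l v)
    rw [jmul, ← hc]
    exact (DFunLike.congr_fun hl' v).symm
  have hUu' : ∀ x ∈ U, ((u⁻¹ : (AddMonoid.End W)ˣ) : AddMonoid.End W) x ∈ U := by
    rintro _ ⟨l, rfl⟩
    obtain ⟨l', hl'⟩ := hju' l
    obtain ⟨m, hm⟩ := hu'
    refine ⟨l' * m, ?_⟩
    show j (l' * m) v = ((u⁻¹ : (AddMonoid.End W)ˣ) : AddMonoid.End W) (j l v)
    rw [jmul, show j m v = _ from hm]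
    exact (DFunLike.congr_fun hl' v).symm
  have hle := card_le_of_invariant hS U (show v ∈ U from ⟨1, by simp⟩) hv0
    (hgen U hUK fun x hx => by
      rw [hb]
      exact U.add_mem (hUu x hx) (hUu' _ (hUK α x hx)))
  refine hle.trans (le_of_le_of_eq ?_ Nat.card_eq_fintype_card)
  exact Nat.card_le_card_of_surjective (fun l => (⟨j l v, hU l⟩ : U))
    fun ⟨x, l, hl⟩ => ⟨l, Subtype.ext hl⟩

theorem odd_case_false [Finite W] [Nontrivial W] (s : K ≃+* K) (hne : ∃ k, s k ≠ k)
    (hs2 : ∀ k, s (s k) = k → s k = k) {k₀ : K} (hk₀ : Gen k₀)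
    (u : (AddMonoid.End W)ˣ) (hu : Rel ι s (u : AddMonoid.End W)) (α : K)
    {S : AddSubgroup (AddMonoid.End W)} (hS : Jordan S) (hK : ∀ k, ι k ∈ S)
    {b : AddMonoid.End W}
    (hb : b = u + ((u⁻¹ : (AddMonoid.End W)ˣ) : AddMonoid.End W) * ι α) (hbS : b ∈ S)
    (hbK : ¬ ∃ k, ι k = b)
    (hgen : ∀ U : AddSubgroup W, (∀ k, ∀ v ∈ U, ι k v ∈ U) → (∀ v ∈ U, b v ∈ U) →
      ∀ x ∈ S, ∀ v ∈ U, x v ∈ U)
    (hπ : ∀ n, ∃ κ, ι κ = act ι k₀ (cpol k₀) (b ^ n)) : False := by
  classical
  haveI : Nontrivial (AddMonoid.End W) := by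
    obtain ⟨v, hv⟩ := exists_ne (0 : W)
    exact ⟨⟨1, 0, fun e => hv (DFunLike.congr_fun e v)⟩⟩
  have hodd := orderOf_odd_of_fixed s hs2
  set d := orderOf s with hd
  have hd3 : 3 ≤ d := by
    obtain ⟨m, hm⟩ := hodd
    by_contra hc
    have h1 : d = 1 := by omega
    obtain ⟨k, hk⟩ := hne
    rw [hd, orderOf_eq_one_iff] at h1
    exact hk (by rw [h1]; rfl)
  have hsfix : ∀ j : ℤ, j ≠ 0 → -(d : ℤ) < j → j < d → (s ^ j) k₀ ≠ k₀ := by
    intro j hj0 hj1 hj2 e
    have hone : s ^ j = 1 := by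
      apply RingEquiv.ext
      intro k
      show (s ^ j) k = k
      rcases hk₀ k with rfl | ⟨n, rfl⟩
      · rw [map_zero]
      · rw [map_pow, e]
    have := orderOf_dvd_iff_zpow_eq_one.2 hone
    rw [← hd] at this
    rcases lt_trichotomy j 0 with h | h | h
    · have := Int.le_of_dvd (by omega) (Int.dvd_neg.2 this); omega
    · exact hj0 h
    · have := Int.le_of_dvd h this; omega
  -- powers of `b`
  let uz : ℤ → AddMonoid.End W := fun j => ((u ^ j : (AddMonoid.End W)ˣ) : AddMonoid.End W)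
  have huz : ∀ j, Rel ι (s ^ j) (uz j) := rel_zpow ι hu
  have huzmul : ∀ i j, uz i * uz j = uz (i + j) := fun i j => by
    show _ * _ = ((u ^ (i + j) : (AddMonoid.End W)ˣ) : AddMonoid.End W)
    rw [zpow_add, Units.val_mul]
  have huz1 : uz 1 = u := by show ((u ^ (1 : ℤ) : (AddMonoid.End W)ˣ) : AddMonoid.End W) = _; simp
  have huzm1 : uz (-1) = ((u⁻¹ : (AddMonoid.End W)ˣ) : AddMonoid.End W) := by
    show ((u ^ (-1 : ℤ) : (AddMonoid.End W)ˣ) : AddMonoid.End W) = _; simp
  have hbmul : ∀ (c : K) (j : ℤ), b * (ι c * uz j)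
      = ι (s c) * uz (j + 1) + ι (s.symm (α * c)) * uz (j - 1) := by
    intro c j
    rw [hb, add_mul, ← huz1, ← huzm1, ← mul_assoc, huz 1 c, zpow_one, mul_assoc, huzmul,
      mul_assoc (uz (-1)), ← mul_assoc (ι α), ← map_mul, ← mul_assoc, huz (-1), mul_assoc, huzmul,
      show -1 + j = j - 1 by ring, show 1 + j = j + 1 by ring, zpow_neg_one]
    rfl
  let M : ℕ → AddSubgroup (AddMonoid.End W) := fun n => AddSubgroup.closure
    {x | ∃ (c : K) (i : ℕ), 1 ≤ i ∧ i + 1 ≤ n ∧ x = ι c * uz ((n : ℤ) - 2 * i)}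
  have hMb : ∀ n, ∀ x ∈ M n, b * x ∈ M (n + 1) := by
    intro n x hx
    induction hx using AddSubgroup.closure_induction with
    | mem x hx =>
      obtain ⟨c, i, hi1, hi2, rfl⟩ := hx
      rw [hbmul]
      refine add_mem (AddSubgroup.subset_closure ⟨s c, i, hi1, by omega, ?_⟩)
        (AddSubgroup.subset_closure ⟨s.symm (α * c), i + 1, by omega, by omega, ?_⟩)
      · congr 2; push_cast; ring
      · congr 2; push_cast; ring
    | zero => rw [mul_zero]; exact zero_mem _
    | add a c _ _ ha hc => rw [mul_add]; exact add_mem ha hc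
    | neg a _ ha => rw [mul_neg]; exact neg_mem ha
  have hexp : ∀ n, 1 ≤ n → ∃ N : K, b ^ n - uz n - ι N * uz (-(n : ℤ)) ∈ M n := by
    intro n hn
    induction n, hn using Nat.le_induction with
    | base =>
      refine ⟨s.symm α, ?_⟩
      have e := hbmul 1 0
      simp only [map_one, mul_one, one_mul, zero_add, zero_sub] at e
      have h0 : uz 0 = 1 := by show ((u ^ (0 : ℤ) : (AddMonoid.End W)ˣ) : AddMonoid.End W) = 1; simp
      rw [h0, mul_one] at e
      rw [pow_one, Nat.cast_one, e, add_sub_cancel_left, sub_self]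
      exact zero_mem _
    | succ n hn ih =>
      obtain ⟨N, hN⟩ := ih
      refine ⟨s.symm (α * N), ?_⟩
      have h1 := hMb n _ hN
      have e : b ^ (n + 1) - uz ((n + 1 : ℕ) : ℤ) - ι (s.symm (α * N)) * uz (-((n + 1 : ℕ) : ℤ))
          = b * (b ^ n - uz n - ι N * uz (-(n : ℤ))) + ι (s.symm α) * uz ((n : ℤ) - 1)
            + ι (s N) * uz (-(n : ℤ) + 1) := by
        have h2 := hbmul 1 n
        rw [map_one, one_mul, map_one, mul_one, map_one, one_mul] at h2
        rw [mul_sub, mul_sub, hbmul N, ← pow_succ', h2]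
        push_cast
        rw [show -((n : ℤ) + 1) = -(n : ℤ) - 1 by ring]
        abel
      rw [e]
      refine add_mem (add_mem h1 (AddSubgroup.subset_closure ⟨s.symm α, 1, le_rfl, by omega, ?_⟩))
        (AddSubgroup.subset_closure ⟨s N, n, hn, by omega, ?_⟩)
      · congr 2; push_cast; ring
      · congr 2; push_cast; ring
  obtain ⟨N, hN⟩ := hexp d (by omega)
  obtain ⟨κ, hκ⟩ := hπ d
  set ζ := uz d with hζ
  have hsd : ∀ k, (s ^ (d : ℤ)) k = k := fun k => by
    rw [zpow_natCast, hd, pow_orderOf_eq_one]; rfl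
  have hrelζ : ∀ k, ζ * ι k = ι k * ζ := fun k => by rw [huz d k, hsd]
  have hπM : ∀ x ∈ M d, act ι k₀ (cpol k₀) x = 0 := by
    intro x hx
    induction hx using AddSubgroup.closure_induction with
    | mem x hx =>
      obtain ⟨c, i, hi1, hi2, rfl⟩ := hx
      have hrel : Rel ι (s ^ ((d : ℤ) - 2 * i)) (ι c * uz ((d : ℤ) - 2 * i)) := fun k => by
        rw [mul_assoc, huz _ k, ← mul_assoc, ← map_mul, mul_comm, map_mul, mul_assoc]
      rw [act_rel ι hrel, cpol_eval, if_neg, map_zero, zero_mul]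
      refine hsfix _ ?_ (by omega) (by omega)
      obtain ⟨m, hm⟩ := hodd
      omega
    | zero => rw [map_zero]
    | add a c _ _ ha hc => rw [map_add, ha, hc, add_zero]
    | neg a _ ha => rw [map_neg, ha, neg_zero]
  have hrelN : Rel ι (s ^ (-(d : ℤ))) (ι N * uz (-(d : ℤ))) := fun k => by
    rw [mul_assoc, huz _ k, ← mul_assoc, ← map_mul, mul_comm, map_mul, mul_assoc]
  have hκeq : ι κ = ζ + ι N * uz (-(d : ℤ)) := by
    have h1 := hπM _ hN
    rw [map_sub, map_sub, ← hκ, act_rel ι (huz d), act_rel ι hrelN, hsd, cpol_eval, if_pos rfl,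
      map_one, one_mul, sub_sub, sub_eq_zero] at h1
    rw [h1, zpow_neg, show (s ^ (d : ℤ)) = 1 from RingEquiv.ext hsd, inv_one,
      show (1 : K ≃+* K) k₀ = k₀ from rfl, cpol_eval, if_pos rfl, map_one, one_mul]
  have hquad : ζ * ζ - ι κ * ζ + ι N = 0 := by
    have h0 : uz (-(d : ℤ)) * ζ = 1 := by
      rw [hζ, huzmul, neg_add_cancel]
      show ((u ^ (0 : ℤ) : (AddMonoid.End W)ˣ) : AddMonoid.End W) = 1
      simp
    rw [hκeq, add_mul, mul_assoc (ι N), h0, mul_one]
    abel
  have hcomm : (u : AddMonoid.End W) * ζ = ζ * u := by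
    rw [hζ, ← huz1, huzmul, huzmul, add_comm]
  have happ : ∀ (k : K) (v : W), (u : AddMonoid.End W) (ι k v) = ι (s k) ((u : AddMonoid.End W) v) :=
    fun k v => DFunLike.congr_fun (hu k) v
  have happmul : ∀ (a c : K) (v : W), ι (a * c) v = ι a (ι c v) := fun a c v => by
    rw [map_mul]; rfl
  have hιinj : ∀ (k : K) (v : W), v ≠ 0 → ι k v = 0 → k = 0 := by
    intro k v hv h
    by_contra hk
    exact hv (by
      rw [← show ι (1 : K) v = v by rw [map_one]; rfl, ← inv_mul_cancel₀ hk, happmul, h, map_zero])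
  have hζu : ∀ v, ζ v = 0 → v = 0 := by
    intro v hv
    have h1 : (uz (-(d : ℤ)) * ζ) v = v := by
      rw [hζ, huzmul, neg_add_cancel]
      show ((u ^ (0 : ℤ) : (AddMonoid.End W)ˣ) : AddMonoid.End W) v = v
      simp
    rw [← h1]
    show uz (-(d : ℤ)) (ζ v) = 0
    rw [hv, map_zero]
  have hupow : ((u : AddMonoid.End W) ^ d) = ζ := by
    show _ = ((u ^ (d : ℤ) : (AddMonoid.End W)ˣ) : AddMonoid.End W)
    rw [zpow_natCast, Units.val_pow_eq_pow_val]
  have hιinj' : Function.Injective ι := ι.injective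
  haveI : Finite (AddMonoid.End W) :=
    Finite.of_injective (fun f => (f : W → W)) DFunLike.coe_injective
  haveI : Finite S := Subtype.finite
  have hKS : Fintype.card K < Nat.card S := by
    rw [← Nat.card_eq_fintype_card]
    have hinj : Function.Injective fun k => (⟨ι k, hK k⟩ : S) :=
      fun a c e => hιinj' (congrArg Subtype.val e)
    refine lt_of_le_of_ne (Nat.card_le_card_of_injective _ hinj) fun e => ?_
    obtain ⟨k, hk⟩ := ((Nat.bijective_iff_injective_and_card _).2 ⟨hinj, e⟩).2 ⟨b, hbS⟩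
    exact hbK ⟨k, congrArg Subtype.val hk⟩
  have hcomm' : ((u⁻¹ : (AddMonoid.End W)ˣ) : AddMonoid.End W) * ζ
      = ζ * ((u⁻¹ : (AddMonoid.End W)ˣ) : AddMonoid.End W) := by
    rw [hζ, ← huzm1, huzmul, huzmul, add_comm]
  by_cases hroot : ∃ r : K, ∃ v : W, v ≠ 0 ∧ ζ v = ι r v
  · obtain ⟨r, v, hv0, hv⟩ := hroot
    have hrt : ∀ r' : K, ∀ x : W, x ≠ 0 → ζ x = ι r' x → r' * r' - κ * r' + N = 0 := by
      intro r' x hx0 hx
      have hq : ζ (ζ x) - ι κ (ζ x) + ι N x = 0 := DFunLike.congr_fun hquad x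
      have hzz : ζ (ι r' x) = ι r' (ζ x) := DFunLike.congr_fun (hrelζ r') x
      rw [hx, hzz, hx, ← happmul, ← happmul] at hq
      refine hιinj _ x hx0 ?_
      rw [map_add, map_sub]
      exact hq
    have hstep : ∀ r' : K, ∀ x : W, x ≠ 0 → ζ x = ι r' x →
        (u : AddMonoid.End W) x ≠ 0 ∧
          ζ ((u : AddMonoid.End W) x) = ι (s r') ((u : AddMonoid.End W) x) := by
      intro r' x hx0 hx
      refine ⟨fun e => hx0 ?_, ?_⟩
      · calc x = (((u⁻¹ : (AddMonoid.End W)ˣ) : AddMonoid.End W) * u) x := by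
              rw [Units.inv_mul]; rfl
          _ = 0 := by
              show ((u⁻¹ : (AddMonoid.End W)ˣ) : AddMonoid.End W) ((u : AddMonoid.End W) x) = 0
              rw [e, map_zero]
      · have h1 : ζ ((u : AddMonoid.End W) x) = (u : AddMonoid.End W) (ζ x) :=
          (DFunLike.congr_fun hcomm x).symm
        rw [h1, hx, happ]
    have hsr : s r = r := by
      by_contra hne'
      obtain ⟨h1, h1'⟩ := hstep r v hv0 hv
      obtain ⟨h2, h2'⟩ := hstep _ _ h1 h1'
      have e0 := hrt r v hv0 hv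
      have e1 := hrt _ _ h1 h1'
      have e2 := hrt _ _ h2 h2'
      have f1 : (r - s r) * (r + s r - κ) = 0 := by linear_combination e0 - e1
      have f2 : (s r - s (s r)) * (s r + s (s r) - κ) = 0 := by linear_combination e1 - e2
      have g1 := (mul_eq_zero.1 f1).resolve_left (sub_ne_zero.2 (Ne.symm hne'))
      have g2 := (mul_eq_zero.1 f2).resolve_left
        (sub_ne_zero.2 fun e => hne' (s.injective e).symm)
      exact hne' (hs2 r (by linear_combination g2 - g1))
    have hr0 : r ≠ 0 := by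
      rintro rfl
      rw [map_zero] at hv
      exact hv0 (hζu v hv)
    let U : AddSubgroup W := (ζ - ι r).ker
    have hmem : ∀ x, x ∈ U ↔ ζ x = ι r x := fun x => sub_eq_zero
    have hUK : ∀ k, ∀ x ∈ U, ι k x ∈ U := by
      intro k x hx
      rw [hmem] at hx ⊢
      have hzk : ζ (ι k x) = ι k (ζ x) := DFunLike.congr_fun (hrelζ k) x
      rw [hzk, hx, ← happmul, ← happmul, mul_comm]
    have hUu : ∀ x ∈ U, (u : AddMonoid.End W) x ∈ U := by
      intro x hx
      rw [hmem] at hx ⊢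
      have h1 : ζ ((u : AddMonoid.End W) x) = (u : AddMonoid.End W) (ζ x) :=
        (DFunLike.congr_fun hcomm x).symm
      rw [h1, hx, happ, hsr]
    obtain ⟨x, -, hx0, hxc⟩ := exists_semilinear_eigen ι s hu U hUK hUu ((hmem v).2 hv) hv0 hsr hr0
      (by rw [← hd, hupow]; exact hv)
    have := card_le_of_eigen ι u α hS hb hgen ι (fun k => ⟨k, rfl⟩) (fun l => ⟨s l, hu l⟩)
      (fun l => ⟨(s ^ (-1 : ℤ)) l, by rw [← huzm1]; exact huz (-1) l⟩) hx0 hxc
    omega
  push Not at hroot
  obtain ⟨v₀, hv₀⟩ := exists_ne (0 : W)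
  have hindep : ∀ c c' : K, (∃ x : W, x ≠ 0 ∧ (ι c + ι c' * ζ) x = 0) → c = 0 ∧ c' = 0 := by
    rintro c c' ⟨x, hx0, hx⟩
    have hx' : ι c x + ι c' (ζ x) = 0 := hx
    by_cases hc' : c' = 0
    · subst hc'
      rw [map_zero] at hx'
      exact ⟨hιinj c x hx0 (by simpa using hx'), rfl⟩
    · exfalso
      refine hroot (-c / c') x hx0 ?_
      have h2 : ι c' (ζ x) = ι (-c) x := by rw [map_neg]; exact eq_neg_of_add_eq_zero_right hx'
      calc ζ x = ι c'⁻¹ (ι c' (ζ x)) := by rw [← happmul, inv_mul_cancel₀ hc', map_one]; rfl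
        _ = ι (-c / c') x := by rw [h2, ← happmul, div_eq_inv_mul]
  -- the coefficients are fixed
  have hsκN : s κ = κ ∧ s N = N := by
    have h1 : (u : AddMonoid.End W) * (ζ * ζ - ι κ * ζ + ι N)
        = (ζ * ζ - ι (s κ) * ζ + ι (s N)) * u := by
      rw [mul_add, mul_sub, add_mul, sub_mul, ← mul_assoc _ ζ, hcomm, mul_assoc, hcomm,
        ← mul_assoc _ (ι κ), hu κ, mul_assoc (ι (s κ)), hcomm, hu N]
      simp only [mul_assoc]
    rw [hquad, mul_zero] at h1
    have h2 : ζ * ζ - ι (s κ) * ζ + ι (s N) = 0 := by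
      have := congrArg (· * ((u⁻¹ : (AddMonoid.End W)ˣ) : AddMonoid.End W)) h1
      simpa [mul_assoc] using this.symm
    have h3 : ι (N - s N) + ι (s κ - κ) * ζ = 0 := by
      have e : ι (N - s N) + ι (s κ - κ) * ζ
          = (ζ * ζ - ι κ * ζ + ι N) - (ζ * ζ - ι (s κ) * ζ + ι (s N)) := by
        rw [map_sub, map_sub, sub_mul]; abel
      rw [e, hquad, h2, sub_zero]
    obtain ⟨e1, e2⟩ := hindep _ _ ⟨v₀, hv₀, DFunLike.congr_fun h3 v₀⟩
    exact ⟨sub_eq_zero.1 e2, (sub_eq_zero.1 e1).symm⟩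
  -- the small field
  let A : Subring (AddMonoid.End W) :=
    { carrier := {x | ∃ c c' : K, x = ι c + ι c' * ζ}
      one_mem' := ⟨1, 0, by simp⟩
      zero_mem' := ⟨0, 0, by simp⟩
      add_mem' := fun {x y} ⟨a, a', ha⟩ ⟨c, c', hc⟩ => ⟨a + c, a' + c', by
        rw [ha, hc, map_add, map_add, add_mul]; abel⟩
      neg_mem' := fun {x} ⟨a, a', ha⟩ => ⟨-a, -a', by rw [ha, map_neg, map_neg, neg_mul, neg_add]⟩
      mul_mem' := fun {x y} ⟨a, a', ha⟩ ⟨c, c', hc⟩ => ⟨a * c - a' * c' * N,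
        a * c' + a' * c + a' * c' * κ, by
        have hzz : ζ * ζ = ι κ * ζ - ι N := by rw [← sub_eq_zero, ← hquad]; abel
        have h2 : ι a' * ζ * (ι c' * ζ) = ι (a' * c') * (ι κ * ζ - ι N) := by
          rw [mul_assoc, ← mul_assoc ζ, hrelζ, mul_assoc, hzz, map_mul, mul_assoc]
        rw [ha, hc, add_mul, mul_add, mul_add, h2, mul_assoc (ι a') ζ (ι c), hrelζ, mul_sub]
        simp only [map_add, map_sub, map_mul, add_mul, ← mul_assoc]
        abel⟩ }
  have hAcomm : ∀ x y : A, x * y = y * x := by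
    rintro ⟨x, a, a', rfl⟩ ⟨y, c, c', rfl⟩
    apply Subtype.ext
    show (ι a + ι a' * ζ) * (ι c + ι c' * ζ) = (ι c + ι c' * ζ) * (ι a + ι a' * ζ)
    have hc1 : ∀ p q : K, Commute (ι p) (ι q) := fun p q => (Commute.all p q).map ι
    have hc2 : ∀ p : K, Commute (ι p) ζ := fun p => (hrelζ p).symm
    exact ((hc1 a c).add_right ((hc1 a c').mul_right (hc2 a))).add_left
      (((hc1 a' c).mul_left (hc2 c).symm).add_right
        (((hc1 a' c').mul_left (hc2 c').symm).mul_right
          ((hc2 a').mul_left (Commute.refl ζ))))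
  haveI : Finite (AddMonoid.End W) :=
    Finite.of_injective (fun f => (f : W → W)) DFunLike.coe_injective
  haveI : Finite A := Subtype.finite
  letI : Fintype A := Fintype.ofFinite A
  letI : CommRing A := { (inferInstance : Ring A) with mul_comm := hAcomm }
  have hAinj : ∀ x : W, x ≠ 0 → ∀ l : A, (l : AddMonoid.End W) x = 0 → l = 0 := by
    rintro x hx ⟨l, c, c', rfl⟩ hl
    obtain ⟨rfl, rfl⟩ := hindep c c' ⟨x, hx, hl⟩
    apply Subtype.ext
    show ι 0 + ι 0 * ζ = 0
    simp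
  haveI : IsDomain A := by
    haveI : NoZeroDivisors A := ⟨fun {x y} e => by
      have e1 : (x : AddMonoid.End W) ((y : AddMonoid.End W) v₀) = 0 := by
        have e' := congrArg Subtype.val e
        exact DFunLike.congr_fun e' v₀
      by_cases hy : (y : AddMonoid.End W) v₀ = 0
      · exact Or.inr (hAinj v₀ hv₀ y hy)
      · exact Or.inl (hAinj _ hy x e1)⟩
    exact NoZeroDivisors.to_isDomain A
  letI : Field A := Fintype.fieldOfDomain A
  let j : A →+* AddMonoid.End W :=
    { toFun := fun a => (a : AddMonoid.End W)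
      map_one' := rfl
      map_mul' := fun _ _ => rfl
      map_zero' := rfl
      map_add' := fun _ _ => rfl }
  have hιA : ∀ k, ι k ∈ A := fun k => ⟨k, 0, by simp⟩
  have hconj : ∀ x : A, (u : AddMonoid.End W) * (x : AddMonoid.End W)
      * ((u⁻¹ : (AddMonoid.End W)ˣ) : AddMonoid.End W) ∈ A := by
    rintro ⟨x, c, c', rfl⟩
    refine ⟨s c, s c', ?_⟩
    show (u : AddMonoid.End W) * (ι c + ι c' * ζ) * _ = _
    rw [mul_add, hu c, ← mul_assoc _ (ι c'), hu c', mul_assoc (ι (s c')), hcomm, ← mul_assoc,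
      ← add_mul, mul_assoc, Units.mul_inv, mul_one]
  let φ : A →+* A :=
    { toFun := fun x => ⟨_, hconj x⟩
      map_one' := Subtype.ext (by
        show (u : AddMonoid.End W) * 1 * _ = 1
        rw [mul_one, Units.mul_inv])
      map_mul' := fun x y => Subtype.ext (by
        show (u : AddMonoid.End W) * ((x : AddMonoid.End W) * y) * _ = (_ * _) * (_ * _)
        simp [mul_assoc])
      map_zero' := Subtype.ext (by
        show (u : AddMonoid.End W) * 0 * _ = 0
        rw [mul_zero, zero_mul])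
      map_add' := fun x y => Subtype.ext (by
        show (u : AddMonoid.End W) * ((x : AddMonoid.End W) + y) * _ = _ + _
        rw [mul_add, add_mul]) }
  let σ : A ≃+* A := RingEquiv.ofBijective φ
    ⟨φ.injective, Finite.surjective_of_injective φ.injective⟩
  have hσ : ∀ x : A, ((σ x : A) : AddMonoid.End W) = (u : AddMonoid.End W) * x
      * ((u⁻¹ : (AddMonoid.End W)ˣ) : AddMonoid.End W) := fun x => rfl
  have hσrel : Rel j σ (u : AddMonoid.End W) := fun x => by
    show (u : AddMonoid.End W) * (x : AddMonoid.End W) = ((σ x : A) : AddMonoid.End W) * u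
    rw [hσ, mul_assoc, Units.inv_mul, mul_one]
  have hσpow : ∀ (m : ℕ) (x : A), (((σ ^ m) x : A) : AddMonoid.End W)
      = uz m * x * uz (-(m : ℤ)) := by
    intro m
    induction m with
    | zero => intro x; show (x : AddMonoid.End W) = _; simp [uz]
    | succ m ih =>
      intro x
      rw [pow_succ']
      show ((σ ((σ ^ m) x) : A) : AddMonoid.End W) = _
      rw [hσ, ih, ← huz1, ← huzm1, ← mul_assoc, ← mul_assoc, huzmul, mul_assoc, huzmul]
      congr 2
      · congr 1; push_cast; ring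
      · push_cast; ring
  have hord : orderOf σ = d := by
    refine Nat.dvd_antisymm (orderOf_dvd_of_pow_eq_one (RingEquiv.ext fun x => Subtype.ext ?_)) ?_
    · rw [hσpow]
      obtain ⟨x, c, c', rfl⟩ := x
      show ζ * (ι c + ι c' * ζ) * uz (-(d : ℤ)) = ι c + ι c' * ζ
      rw [mul_add, hrelζ, ← mul_assoc ζ, hrelζ, ← add_mul, mul_assoc, hζ, huzmul, add_neg_cancel]
      simp [uz]
    · rw [hd]
      refine orderOf_dvd_of_pow_eq_one (RingEquiv.ext fun k => hιinj' ?_)
      have h1 := hσpow (orderOf σ) ⟨ι k, hιA k⟩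
      rw [pow_orderOf_eq_one] at h1
      have h2 : (s ^ (orderOf σ : ℤ)) k = k := by
        refine hιinj' ?_
        have h3 : uz (orderOf σ) * ι k * uz (-(orderOf σ : ℤ)) = ι ((s ^ (orderOf σ : ℤ)) k) := by
          rw [huz _ k, mul_assoc, huzmul, add_neg_cancel]; simp [uz]
        exact (h1.trans h3).symm
      rw [zpow_natCast] at h2
      exact congrArg ι h2
  have hζA : ζ ∈ A := ⟨0, 1, by simp⟩
  obtain ⟨x, -, hx0, hxc⟩ := exists_semilinear_eigen j σ hσrel ⊤ (fun _ _ _ => trivial)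
    (fun _ _ => trivial) (v₀ := v₀) trivial hv₀ (z := ⟨ζ, hζA⟩)
    (Subtype.ext (by rw [hσ, hcomm, mul_assoc, Units.mul_inv, mul_one]))
    (fun e => hv₀ (hζu v₀ (by
      have e' : ζ = 0 := congrArg Subtype.val e
      rw [e']; rfl)))
    (by rw [hord, hupow]; rfl)
  have hupper : Nat.card S ≤ Fintype.card A :=
    card_le_of_eigen ι u α hS hb hgen j (fun k => ⟨⟨ι k, hιA k⟩, rfl⟩) (fun l => ⟨σ l, hσrel l⟩)
      (fun l => ⟨σ.symm l, by
        obtain ⟨l', rfl⟩ := σ.surjective l
        rw [RingEquiv.symm_apply_apply]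
        show _ * ((σ l' : A) : AddMonoid.End W) = (l' : AddMonoid.End W) * _
        rw [hσ, ← mul_assoc, ← mul_assoc, Units.inv_mul, one_mul]⟩) hx0 hxc
  have hAcard : Fintype.card A ≤ Fintype.card K * Fintype.card K := by
    rw [← Fintype.card_prod]
    refine Fintype.card_le_of_surjective (fun c : K × K => (⟨_, c.1, c.2, rfl⟩ : A)) ?_
    rintro ⟨y, c, c', rfl⟩
    exact ⟨(c, c'), rfl⟩
  -- many elements of `S`
  have hdist : ∀ i j : ℤ, i ≠ j → i - j < d → j - i < d → (s ^ i) k₀ ≠ (s ^ j) k₀ := by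
    intro i j hij h1 h2 e
    refine hsfix (i - j) (by omega) (by omega) h1 ?_
    rw [show i - j = -j + i by ring, zpow_add]
    show (s ^ (-j)) ((s ^ i) k₀) = k₀
    rw [e]
    show (s ^ (-j) * s ^ j) k₀ = k₀
    rw [← zpow_add, neg_add_cancel]
    simp
  have hproj : ∀ (t : K) (c : K) (i : ℤ), act ι k₀ (cpol t) (ι c * uz i)
      = if (s ^ i) k₀ = t then ι c * uz i else 0 := by
    intro t c i
    have hrel : Rel ι (s ^ i) (ι c * uz i) := fun k => by
      rw [mul_assoc, huz _ k, ← mul_assoc, ← map_mul, mul_comm, map_mul, mul_assoc]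
    rw [act_rel ι hrel, cpol_eval]
    split_ifs <;> simp
  have hcancel : ∀ (c : K) (i : ℤ), ι c * uz i = 0 → c = 0 := by
    intro c i h
    have h' := congrArg (· * uz (-i)) h
    simp only [zero_mul, mul_assoc, huzmul, add_neg_cancel] at h'
    refine hιinj' ?_
    rw [map_zero, ← h']
    simp [uz]
  let β : K := s.symm α
  have hbexp : b = ι 1 * uz 1 + ι β * uz (-1) := by
    have e := hbmul 1 0
    have h0 : uz 0 = 1 := by simp [uz]
    simp only [h0, map_one, mul_one, one_mul, zero_add, zero_sub, β] at e ⊢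
    exact e
  let Φ : K × K × K →+ S := AddMonoidHom.mk'
    (fun p => ⟨ι p.1 + (ι p.2.1 * b + b * ι p.2.1) + b * ι p.2.2 * b, S.add_mem
      (S.add_mem (hK _) (hS.symm_mul_mem (hK _) hbS)) (hS.mul_mul_mem hbS (hK _))⟩)
    (fun p q => Subtype.ext (by
      show ι (p.1 + q.1) + (ι (p.2.1 + q.2.1) * b + b * ι (p.2.1 + q.2.1))
        + b * ι (p.2.2 + q.2.2) * b = (_ + _ + _) + (_ + _ + _)
      simp only [map_add, add_mul, mul_add]
      abel))
  have hker : ∀ p ∈ Φ.ker, p.1 = 0 ∧ s p.2.1 = p.2.1 ∧ p.2.2 = 0 := by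
    rintro ⟨k, l, y⟩ hp
    have h0 : ι k + (ι l * b + b * ι l) + b * ι y * b = 0 := congrArg Subtype.val hp
    have hu0 : uz 0 = 1 := by simp [uz]
    have e1 : ι l * b + b * ι l
        = ι (l + s l) * uz 1 + ι (l * β + s.symm (α * l)) * uz (-1) := by
      have e := hbmul l 0
      rw [hu0, mul_one, zero_add, zero_sub] at e
      rw [e, hbexp, mul_add, ← mul_assoc, ← mul_assoc, ← map_mul, ← map_mul, mul_one, map_add ι,
        map_add ι, add_mul, add_mul]
      abel
    have e2 : b * ι y * b = ι (s y) * uz 2 + ι (s.symm (α * y) + s (y * β)) * uz 0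
        + ι (s.symm (α * (y * β))) * uz (-2) := by
      rw [mul_assoc, show ι y * b = ι y * uz 1 + ι (y * β) * uz (-1) by
        conv_lhs => rw [hbexp]
        rw [mul_add, ← mul_assoc, ← mul_assoc, ← map_mul, ← map_mul, mul_one],
        mul_add, hbmul, hbmul, map_add ι, add_mul]
      norm_num
      abel
    set A0 := k + (s.symm (α * y) + s (y * β)) with hA0
    set c1 := l + s l with hc1
    set cm1 := l * β + s.symm (α * l) with hcm1
    set cm2 := s.symm (α * (y * β)) with hcm2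
    have e3 : ι A0 * uz 0 + ι c1 * uz 1 + ι cm1 * uz (-1) + ι (s y) * uz 2 + ι cm2 * uz (-2)
        = 0 := by
      rw [← h0, e1, e2, hA0, map_add ι k, add_mul, hu0, mul_one, mul_one]
      abel
    have happly : ∀ t : K, act ι k₀ (cpol t) (ι A0 * uz 0) + act ι k₀ (cpol t) (ι c1 * uz 1)
        + act ι k₀ (cpol t) (ι cm1 * uz (-1)) + act ι k₀ (cpol t) (ι (s y) * uz 2)
        + act ι k₀ (cpol t) (ι cm2 * uz (-2)) = 0 := fun t => by
      rw [← map_add, ← map_add, ← map_add, ← map_add, e3, map_zero]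
    have hy0 : y = 0 := by
      have h2 := happly ((s ^ (2 : ℤ)) k₀)
      simp only [hproj, if_pos, if_neg (hdist 0 2 (by omega) (by omega) (by omega)),
        if_neg (hdist 1 2 (by omega) (by omega) (by omega)), zero_add] at h2
      refine (map_eq_zero s).1 ?_
      by_cases h5 : 5 ≤ d
      · rw [if_neg (hdist (-1) 2 (by omega) (by omega) (by omega)),
          if_neg (hdist (-2) 2 (by omega) (by omega) (by omega)), zero_add, add_zero] at h2
        exact hcancel _ _ h2
      · have hd3' : d = 3 := by obtain ⟨m, hm⟩ := hodd; omega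
        have hper : (s ^ (-1 : ℤ)) k₀ = (s ^ (2 : ℤ)) k₀ := by
          have h4 := hsd ((s ^ (-1 : ℤ)) k₀)
          rw [hd3'] at h4
          rw [← h4]
          show (s ^ ((3 : ℕ) : ℤ) * s ^ (-1 : ℤ)) k₀ = _
          rw [← zpow_add]
          norm_num
        rw [if_pos hper, if_neg (fun e => hdist (-2) (-1) (by omega) (by omega) (by omega)
          (e.trans hper.symm)), add_zero] at h2
        have h3 := congrArg (· * uz 1) h2
        simp only [add_mul, zero_mul, mul_assoc, huzmul] at h3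
        rw [show (2 : ℤ) + 1 = ((d : ℕ) : ℤ) by rw [hd3']; norm_num, ← hζ,
          show ((-1 : ℤ) + 1) = 0 by norm_num, hu0, mul_one] at h3
        exact (hindep cm1 (s y) ⟨v₀, hv₀, DFunLike.congr_fun h3 v₀⟩).2
    subst hy0
    have hz1 : cm2 = 0 := by simp [hcm2]
    have h1 := happly ((s ^ (1 : ℤ)) k₀)
    simp only [hproj, if_pos, hz1, map_zero, zero_mul, ite_self, add_zero,
      if_neg (hdist 0 1 (by omega) (by omega) (by omega)),
      if_neg (hdist (-1) 1 (by omega) (by omega) (by omega)), zero_add] at h1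
    have hl : c1 = 0 := hcancel _ _ h1
    have hsl : s l = l := by
      refine hs2 l ?_
      rw [hc1] at hl
      have e : s l = -l := eq_neg_of_add_eq_zero_right hl
      rw [e, map_neg, e, neg_neg]
    have h1' := happly ((s ^ (0 : ℤ)) k₀)
    simp only [hproj, if_pos, hz1, map_zero, zero_mul, ite_self, add_zero,
      if_neg (hdist 1 0 (by omega) (by omega) (by omega)),
      if_neg (hdist (-1) 0 (by omega) (by omega) (by omega))] at h1'
    have hk := hcancel _ _ h1'
    simp [hA0] at hk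
    exact ⟨hk, hsl, rfl⟩
  -- counting
  let Z : AddSubgroup K := (s.toAddEquiv.toAddMonoidHom - AddMonoidHom.id K).ker
  have hZ : ∀ z, z ∈ Z ↔ s z = z := fun z => sub_eq_zero
  have hkerle : Nat.card Φ.ker ≤ Nat.card Z := by
    refine Nat.card_le_card_of_injective
      (fun p : Φ.ker => (⟨p.1.2.1, (hZ _).2 (hker _ p.2).2.1⟩ : Z)) ?_
    intro p q e
    obtain ⟨h1, -, h3⟩ := hker _ p.2
    obtain ⟨g1, -, g3⟩ := hker _ q.2
    exact Subtype.ext (Prod.ext (h1.trans g1.symm)
      (Prod.ext (congrArg Subtype.val e) (h3.trans g3.symm)))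
  have hZlt : Nat.card Z < Fintype.card K := by
    obtain ⟨k, hk⟩ := hne
    rw [← Nat.card_eq_fintype_card]
    exact Finite.card_subtype_lt (p := fun z => z ∈ Z) (x := k) (fun h => hk ((hZ k).1 h))
  have hrange : Nat.card Φ.range ≤ Nat.card S :=
    Nat.card_le_card_of_injective _ Subtype.val_injective
  have hprod : Fintype.card K * (Fintype.card K * Fintype.card K)
      = Nat.card Φ.range * Nat.card Φ.ker := by
    rw [← AddSubgroup.index_ker, mul_comm Φ.ker.index, AddSubgroup.card_mul_index, Nat.card_prod, Nat.card_prod,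
      Nat.card_eq_fintype_card]
  have hbound : Nat.card Φ.range * Nat.card Φ.ker
      ≤ Fintype.card K * Fintype.card K * Nat.card Z :=
    Nat.mul_le_mul ((hrange.trans hupper).trans hAcard) hkerle
  have hpos : 0 < Fintype.card K * Fintype.card K := Nat.mul_pos Fintype.card_pos Fintype.card_pos
  rw [← hprod, ← mul_assoc] at hbound
  exact absurd (Nat.le_of_mul_le_mul_left hbound hpos) (not_le.2 hZlt)

end Odd

end CfsgLib.ItoDesign48
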