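import Mathlib
import Cfsg.Agent.ItoDesign48.JordanOdd

/-!
Jordan subgroups of finite rings are commutative.
-/

set_option autoImplicit false
set_option maxHeartbeats 400000

namespace CfsgLib.ItoDesign48

open Polynomial

universe u

variable {R : Type u} [Ring R] {K : Type*} [Field K] [Fintype K]

/-- Minimality: a noncommutative Jordan subgroup of `S` is all of `S`. -/
def MinJordan (S : AddSubgroup R) : Prop :=
  ∀ T : AddSubgroup R, Jordan T → T ≤ S → (∃ x ∈ T, ∃ y ∈ T, x * y ≠ y * x) → T = S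

theorem mem_centralizer_singleton {r x : R} :
    x ∈ (Subring.centralizer ({r} : Set R)).toAddSubgroup ↔ r * x = x * r := by
  show x ∈ Subring.centralizer ({r} : Set R) ↔ _
  rw [Subring.mem_centralizer_iff]
  simp

theorem twist_false [Finite R] [Nontrivial R] (ι : K →+* R) {S : AddSubgroup R} (hS : Jordan S)
    (hmin : MinJordan S) (hK : ∀ k, ι k ∈ S) (s : K ≃+* K) (hne : ∃ k, s k ≠ k)
    (hs2 : ∀ k, s (s k) = k → s k = k) {k₀ : K} (hk₀ : Gen k₀) {b : R} (hb : b ∈ S)
    (hbK : ¬ ∃ k, ι k = b) (hnc : b * ι k₀ ≠ ι k₀ * b)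
    (hπ : ∀ x ∈ S, ∃ κ, ι κ = act ι k₀ (cpol k₀) x)
    (e g g' : R) (α : K) (he0 : e ≠ 0) (hee : e * e = e) (heK : ∀ k, e * ι k = ι k * e)
    (heb : e * b = b * e) (hbe : b * e = g + g' * ι α) (heg : e * g = g) (hge : g * e = g)
    (heg' : e * g' = g') (hge' : g' * e = g') (hgg' : g * g' = e) (hg'g : g' * g = e)
    (hg : Rel ι s g) : False := by
  classical
  have hCe : ∀ x ∈ S, e * x = x * e := by
    have hT := hmin _ (hS.inf_commute e) inf_le_left
      ⟨b, ⟨hb, mem_centralizer_singleton.2 heb⟩, ι k₀,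
        ⟨hK _, mem_centralizer_singleton.2 (heK _)⟩, hnc⟩
    intro x hx
    rw [← hT] at hx
    exact mem_centralizer_singleton.1 hx.2
  -- the corner
  let W : AddSubgroup R := (AddMonoidHom.mulLeft e).range
  have hW : ∀ w : W, e * (w : R) = w := by
    rintro ⟨_, w, rfl⟩
    show e * (e * w) = e * w
    rw [← mul_assoc, hee]
  let φ : R → AddMonoid.End W := fun x => AddMonoidHom.mk'
    (fun w => (⟨e * (x * (w : R)), _, rfl⟩ : W))
    (fun v w => Subtype.ext (by show e * (x * ((v : R) + w)) = _ + _; rw [mul_add, mul_add]))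
  have hφ : ∀ x (w : W), ((φ x w : W) : R) = e * (x * (w : R)) := fun x w => rfl
  have hext : ∀ f f' : AddMonoid.End W, (∀ w, ((f w : W) : R) = f' w) → f = f' :=
    fun f f' h => AddMonoidHom.ext fun w => Subtype.ext (h w)
  have hadd : ∀ x y, φ (x + y) = φ x + φ y := fun x y => hext _ _ fun w => by
    show e * ((x + y) * (w : R)) = e * (x * w) + e * (y * w)
    rw [add_mul, mul_add]
  have hmull : ∀ x y, e * x = x * e → φ (x * y) = φ x * φ y := fun x y h => hext _ _ fun w => by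
    show e * (x * y * (w : R)) = e * (x * (e * (y * w)))
    rw [← mul_assoc x e, ← h, ← mul_assoc e (e * x), ← mul_assoc e e, hee]
    simp only [mul_assoc]
  have hmulr : ∀ x y, e * y = y * e → φ (x * y) = φ x * φ y := fun x y h => hext _ _ fun w => by
    show e * (x * y * (w : R)) = e * (x * (e * (y * w)))
    rw [← mul_assoc e y, h, mul_assoc y e, hW, mul_assoc]
  have hone : φ 1 = 1 := hext _ _ fun w => by
    show e * (1 * (w : R)) = w
    rw [one_mul, hW]
  have hφe : φ e = 1 := hext _ _ fun w => by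
    show e * (e * (w : R)) = w
    rw [hW, hW]
  have hzero : φ 0 = 0 := hext _ _ fun w => by
    show e * (0 * (w : R)) = 0
    rw [zero_mul, mul_zero]
  let ι' : K →+* AddMonoid.End W :=
    { toFun := fun k => φ (ι k)
      map_one' := by rw [map_one, hone]
      map_mul' := fun a c => by rw [map_mul, hmull _ _ (heK a)]
      map_zero' := by rw [map_zero, hzero]
      map_add' := fun a c => by rw [map_add, hadd] }
  haveI : Finite W := Subtype.finite
  haveI : Nontrivial W := ⟨⟨⟨e, e, hee⟩, 0, fun h => he0 (congrArg Subtype.val h)⟩⟩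
  let u : (AddMonoid.End W)ˣ :=
    ⟨φ g, φ g', by rw [← hmull g g' (heg.trans hge.symm), hgg', hφe],
      by rw [← hmull g' g (heg'.trans hge'.symm), hg'g, hφe]⟩
  have hu : Rel ι' s (u : AddMonoid.End W) := fun k => by
    show φ g * φ (ι k) = φ (ι (s k)) * φ g
    rw [← hmull _ _ (heg.trans hge.symm), ← hmull _ _ (heK _), hg k]
  let φH : R →+ AddMonoid.End W := AddMonoidHom.mk' φ hadd
  let S' : AddSubgroup (AddMonoid.End W) := S.map φH
  have hinj : ∀ x ∈ S, φ x = 0 → x = 0 := by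
    intro x hx h
    have h1 : ((φ x ⟨e, e, hee⟩ : W) : R) = 0 := by rw [h]; rfl
    rw [hφ, ← mul_assoc, hCe x hx, mul_assoc, hee] at h1
    exact (hS.mul_eq_zero hx h1).resolve_right he0
  have hS' : Jordan S' := by
    refine ⟨⟨1, hS.one, hone⟩, ?_⟩
    rintro _ ⟨a, ha, rfl⟩ ha0
    obtain ⟨a', ha', h1, h2⟩ := hS.inv a ha fun h => ha0 (show φ a = 0 by rw [h, hzero])
    refine ⟨φ a', ⟨a', ha', rfl⟩, ?_, ?_⟩
    · show φ a * φ a' = 1
      rw [← hmull _ _ (hCe a ha), h1, hone]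
    · show φ a' * φ a = 1
      rw [← hmull _ _ (hCe a' ha'), h2, hone]
  have hφb : φ b = (u : AddMonoid.End W)
      + ((u⁻¹ : (AddMonoid.End W)ˣ) : AddMonoid.End W) * ι' α := by
    show φ b = φ g + φ g' * φ (ι α)
    rw [← hmull _ _ (heg'.trans hge'.symm), ← hadd, ← hbe, hmull _ _ (hCe b hb), hφe, mul_one]
  have hpow : ∀ n : ℕ, φ b ^ n = φ (b ^ n) := by
    intro n
    induction n with
    | zero => rw [pow_zero, pow_zero, hone]
    | succ n ih => rw [pow_succ', pow_succ', hmull _ _ (hCe b hb), ih]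
  refine odd_case_false ι' s hne hs2 hk₀ u hu α hS' (fun k => ⟨ι k, hK k, rfl⟩) hφb
    ⟨b, hb, rfl⟩ ?_ ?_ ?_
  · rintro ⟨k, hk⟩
    refine hbK ⟨k, ?_⟩
    rw [← sub_eq_zero]
    refine hinj _ (S.sub_mem (hK k) hb) ?_
    show φH (ι k - b) = 0
    rw [map_sub]
    exact sub_eq_zero.2 hk
  · -- invariant subgroups
    intro U hUK hUb
    let T : AddSubgroup R :=
      { carrier := {x | e * x = x * e ∧ ∀ v ∈ U, φ x v ∈ U}
        zero_mem' := ⟨by simp, fun v _ => by rw [hzero]; exact U.zero_mem⟩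
        add_mem' := fun {x y} hx hy => ⟨by rw [mul_add, add_mul, hx.1, hy.1], fun v hv => by
          rw [hadd]; exact U.add_mem (hx.2 v hv) (hy.2 v hv)⟩
        neg_mem' := fun {x} hx => ⟨by rw [mul_neg, neg_mul, hx.1], fun v hv => by
          show φH (-x) v ∈ U
          rw [map_neg]
          exact U.neg_mem (hx.2 v hv)⟩ }
    have hT : Jordan (S ⊓ T) := by
      refine hS.inf ⟨by simp, fun v hv => by rw [hone]; exact hv⟩ fun a ha c hac hca => ?_
      have hc : e * c = c * e := by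
        calc e * c = c * a * (e * c) := by rw [hca, one_mul]
          _ = c * (e * a) * c := by rw [ha.1]; simp only [mul_assoc]
          _ = c * e := by rw [mul_assoc c (e * a) c, mul_assoc e a c, hac, mul_one]
      refine ⟨hc, fun v hv => ?_⟩
      let f : U → U := fun v => ⟨φ a v, ha.2 v v.2⟩
      have hf : Function.Injective f := by
        intro v w h
        have h1 : φ c (φ a v) = φ c (φ a w) :=
          congrArg (fun z : U => φ c (z : W)) h
        apply Subtype.ext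
        calc (v : W) = (φ c * φ a) v := by rw [← hmull _ _ hc, hca, hone]; rfl
          _ = (φ c * φ a) w := h1
          _ = w := by rw [← hmull _ _ hc, hca, hone]; rfl
      obtain ⟨w, hw⟩ := Finite.surjective_of_injective hf ⟨v, hv⟩
      have hw' : φ a w = v := congrArg Subtype.val hw
      rw [← hw']
      show (φ c * φ a) w ∈ U
      rw [← hmull _ _ hc, hca, hone]
      exact w.2
    have hTeq := hmin _ hT inf_le_left
      ⟨b, ⟨hb, hCe b hb, hUb⟩, ι k₀, ⟨hK _, heK _, fun v hv => hUK k₀ v hv⟩, hnc⟩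
    rintro _ ⟨x, hx, rfl⟩ v hv
    rw [← hTeq] at hx
    exact hx.2.2 v hv
  · intro n
    obtain ⟨κ, hκ⟩ := hπ _ (hS.pow_mem hb n)
    refine ⟨κ, ?_⟩
    rw [hpow, ← map_act ι ι' φ hadd (fun k x => hmull _ _ (heK k))
      (fun k x => hmulr _ _ (heK k)), ← hκ]
    rfl

/-- Projection to the centraliser of the field. -/
theorem exists_proj (ι : K →+* R) {S : AddSubgroup R} (hS : Jordan S) (hK : ∀ k, ι k ∈ S)
    (hC : ∀ x ∈ S, (∀ k, x * ι k = ι k * x) → ∃ k, ι k = x) {k₀ : K} (hk₀ : Gen k₀) {x : R}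
    (hx : x ∈ S) : ∃ κ, ι κ = act ι k₀ (cpol k₀) x := by
  classical
  have hD : ∀ n : ℕ, act ι k₀ (((X - C k₀) ^ 2) ^ n) x ∈ S := by
    intro n
    induction n with
    | zero => rw [pow_zero, act_one]; exact hx
    | succ n ih => rw [pow_succ', act_mul]; exact act_sq_mem ι hS hK ih
  have hmem : act ι k₀ (cpol k₀) x ∈ S := by
    rw [cpol, act_sub, act_one]
    exact S.sub_mem hx (hD _)
  refine hC _ hmem fun k => ?_
  refine rel_of_gen ι hk₀ (RingEquiv.refl K) ?_ k
  have hev : ∀ v : K, ((X - C k₀) * cpol k₀).eval v = 0 := by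
    intro v
    rw [eval_mul, cpol_eval]
    split_ifs with h
    · rw [eval_sub, eval_X, eval_C, h, sub_self, zero_mul]
    · rw [mul_zero]
  obtain ⟨Q, hQ⟩ : ∃ Q : K[X], (X - C k₀) * cpol k₀ = Q * (X ^ Fintype.card K - X) := by
    by_cases h0 : (X - C k₀) * cpol k₀ = 0
    · exact ⟨0, by rw [h0, zero_mul]⟩
    have hq : 1 < Fintype.card K := Fintype.one_lt_card
    have hm : (X ^ Fintype.card K - X : K[X]).Monic := by
      refine (monic_X_pow _).sub_of_left ?_
      rw [degree_X, degree_X_pow]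
      exact_mod_cast hq
    have hr := FiniteField.roots_X_pow_card_sub_X K
    have hcard : Multiset.card (X ^ Fintype.card K - X : K[X]).roots
        = (X ^ Fintype.card K - X : K[X]).natDegree := by
      rw [hr, FiniteField.X_pow_card_sub_X_natDegree_eq K hq]
      exact Finset.card_univ
    have hprod := prod_multiset_X_sub_C_of_monic_of_roots_card_eq hm hcard
    rw [hr] at hprod
    have hle : (Finset.univ : Finset K).val ≤ ((X - C k₀) * cpol k₀).roots :=
      (Multiset.le_iff_subset Finset.univ.nodup).2 fun v _ => (mem_roots h0).2 (hev v)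
    have := (Multiset.prod_X_sub_C_dvd_iff_le_roots h0 _).2 hle
    rw [hprod] at this
    obtain ⟨Q, hQ⟩ := this
    exact ⟨Q, by rw [hQ, mul_comm]⟩
  have h1 : act ι k₀ (X - C k₀) (act ι k₀ (cpol k₀) x) = 0 := by
    rw [← act_mul, hQ, act_mul, act_card, map_zero]
  rw [act_lin, sub_eq_zero] at h1
  exact h1

omit [Fintype K] in
theorem exists_mul_mem_of_commute [Finite R] [Nontrivial R] {S : AddSubgroup R} (hS : Jordan S)
    {x y : R} (hx : x ∈ S) (hy : y ∈ S) (hxy : x * y = y * x) (h2 : (2 : R) ≠ 0) :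
    x * y ∈ S := by
  obtain ⟨p, hp, hcp⟩ := hS.exists_prime_char
  obtain ⟨m, hm⟩ : Odd p := (hp.eq_two_or_odd').resolve_left fun e => h2 (by
    subst e
    rw [show (2 : R) = ((2 : ℕ) : R) from rfl, CharP.cast_eq_zero R 2])
  have hmem := S.nsmul_mem (hS.symm_mul_mem hx hy) (m + 1)
  have : (m + 1) • (x * y + y * x) = x * y := by
    rw [← hxy, ← two_nsmul, ← mul_nsmul', show (m + 1) * 2 = p + 1 by omega, succ_nsmul,
      nsmul_eq_mul, CharP.cast_eq_zero R p, zero_mul, zero_add]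
  rwa [this] at hmem

theorem quadratic_false [Finite R] [Nontrivial R] (ι : K →+* R) {S : AddSubgroup R}
    (hS : Jordan S) (hmin : MinJordan S) (hK : ∀ k, ι k ∈ S)
    (hC : ∀ x ∈ S, (∀ k, x * ι k = ι k * x) → ∃ k, ι k = x)
    {b : R} (hb : b ∈ S) (hbK : ¬ ∃ k, ι k = b) {k₁ k₁' : K} (hne : k₁' ≠ k₁)
    (h1 : b * ι k₁ = ι k₁' * b) (h2 : b * ι k₁' = ι k₁ * b) : False := by
  classical
  have hb0 : b ≠ 0 := fun e => hbK ⟨0, by rw [map_zero, e]⟩
  have hbb : b * b ∈ S := by rw [← sq]; exact hS.pow_mem hb 2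
  obtain ⟨γ, hγ⟩ : ∃ γ, ι γ = b * b := by
    refine hC _ hbb fun k => ?_
    by_contra hnc
    have hT := hmin _ (hS.inf_commute (ι k₁)) inf_le_left
      ⟨b * b, ⟨hbb, mem_centralizer_singleton.2 ?_⟩, ι k,
        ⟨hK _, mem_centralizer_singleton.2 (by rw [← map_mul, ← map_mul, mul_comm])⟩, hnc⟩
    · rw [← hT] at hb
      have := mem_centralizer_singleton.1 hb.2
      rw [h1] at this
      refine hne (sub_eq_zero.1 (eq_zero_of_iota_mul ι hb0 ?_))
      rw [map_sub, sub_mul, this, sub_self]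
    · rw [mul_assoc b b (ι k₁), h1, ← mul_assoc b, h2, mul_assoc]
  let F : Subfield K :=
    { carrier := {k | b * ι k = ι k * b}
      one_mem' := by simp
      zero_mem' := by simp
      add_mem' := fun {x y} (hx : b * ι x = _) (hy : b * ι y = _) => show _ = _ by
        rw [map_add, mul_add, add_mul, hx, hy]
      neg_mem' := fun {x} (hx : b * ι x = _) => show _ = _ by
        rw [map_neg, mul_neg, neg_mul, hx]
      mul_mem' := fun {x y} (hx : b * ι x = _) (hy : b * ι y = _) => show _ = _ by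
        rw [map_mul, ← mul_assoc, hx, mul_assoc, hy, mul_assoc]
      inv_mem' := fun x (hx : b * ι x = _) => show _ = _ by
        by_cases h : x = 0
        · simp [h]
        calc b * ι x⁻¹ = ι x⁻¹ * ι x * (b * ι x⁻¹) := by
              rw [← map_mul, inv_mul_cancel₀ h, map_one, one_mul]
          _ = ι x⁻¹ * (b * ι x) * ι x⁻¹ := by rw [hx]; simp only [mul_assoc]
          _ = ι x⁻¹ * b := by
              rw [mul_assoc (ι x⁻¹), mul_assoc b, ← map_mul, mul_inv_cancel₀ h, map_one, mul_one] }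
  have hF : ∀ x, x ∈ F ↔ b * ι x = ι x * b := fun x => Iff.rfl
  haveI : Finite F := Subtype.finite
  letI : Fintype F := Fintype.ofFinite F
  have hγF : γ ∈ F := (hF γ).2 (by rw [hγ, mul_assoc])
  obtain ⟨p, hp⟩ := CharP.exists K
  haveI : Fact p.Prime :=
    ⟨(CharP.char_is_prime_or_zero K p).resolve_right (CharP.char_ne_zero_of_finite K p)⟩
  by_cases hchar : (2 : K) = 0
  · obtain ⟨δ, hδ⟩ : IsSquare (⟨γ, hγF⟩ : F) :=
      FiniteField.isSquare_of_char_two (by
        haveI : CharP K 2 := CharTwo.of_one_ne_zero_of_two_eq_zero one_ne_zero hchar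
        haveI : CharP F 2 := RingHom.charP F.subtype Subtype.val_injective 2
        exact ringChar.eq F 2) _
    have hδ' : γ = (δ : K) * δ := congrArg Subtype.val hδ
    have h22 : ∀ z : R, z + z = 0 := fun z => by
      rw [← two_mul, show (2 : R) = ι 2 from (map_ofNat ι 2).symm, hchar, map_zero, zero_mul]
    have hz : (b - ι δ) * (b - ι δ) = 0 := by
      have hδb : b * ι δ = ι δ * b := (hF _).1 δ.2
      rw [sub_mul, mul_sub, mul_sub, ← map_mul, ← hδ', hδb, hγ]
      have := h22 (b * b - ι δ * b)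
      rw [← this]
      abel
    rcases hS.mul_eq_zero (S.sub_mem hb (hK _)) hz with e | e <;>
      exact hbK ⟨δ, (sub_eq_zero.1 e).symm⟩
  · set k₂ := k₁ - k₁' with hk₂
    have hk20 : k₂ ≠ 0 := sub_ne_zero.2 hne.symm
    have hanti : b * ι k₂ = -(ι k₂ * b) := by
      rw [hk₂, map_sub, mul_sub, sub_mul, h1, h2, neg_sub]
    have hk2F : k₂ ∉ F := by
      intro h
      rw [hF, hanti] at h
      have h3 : ι (2 * k₂) * b = 0 := by
        rw [two_mul, map_add, add_mul]
        nth_rw 1 [← h]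
        exact neg_add_cancel _
      exact mul_ne_zero hchar hk20 (eq_zero_of_iota_mul ι hb0 h3)
    have hk2sq : k₂ * k₂ ∈ F := (hF _).2 (by
      rw [map_mul, ← mul_assoc, hanti, neg_mul, mul_assoc, hanti, mul_neg, neg_neg, ← mul_assoc])
    have hF2 : ringChar F ≠ 2 := by
      intro h
      apply hchar
      haveI := (ringChar.of_eq h : CharP F 2)
      exact congrArg Subtype.val (CharTwo.two_eq_zero (R := F))
    have hγ0 : (⟨γ, hγF⟩ : F) ≠ 0 := fun e => by
      have : γ = 0 := congrArg Subtype.val e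
      rw [this, map_zero] at hγ
      exact hb0 ((hS.mul_eq_zero hb hγ.symm).elim id id)
    obtain ⟨x, y, hxy⟩ := FiniteField.exists_root_sum_quadratic
      (f := C (⟨k₂ * k₂, hk2sq⟩ : F) * X ^ 2) (g := C (⟨γ, hγF⟩ : F) * X ^ 2 - 1)
      (degree_C_mul_X_pow 2 fun e => mul_ne_zero hk20 hk20 (congrArg Subtype.val e))
      (by
        rw [degree_sub_eq_left_of_degree_lt]
        · exact degree_C_mul_X_pow 2 hγ0
        · rw [degree_C_mul_X_pow 2 hγ0, degree_one]
          decide)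
      (FiniteField.odd_card_of_char_ne_two hF2 |> Nat.odd_iff.2 |> Nat.odd_iff.1)
    simp only [eval_mul, eval_C, eval_pow, eval_X, eval_sub, eval_one] at hxy
    have hxy' : k₂ * k₂ * (x : K) ^ 2 + (γ * (y : K) ^ 2 - 1) = 0 := congrArg Subtype.val hxy
    have hxb : b * ι x = ι x * b := (hF _).1 x.2
    have hyb : b * ι y = ι y * b := (hF _).1 y.2
    have h2R : (2 : R) ≠ 0 := fun e => hchar (ι.injective (by rw [map_ofNat, map_zero, e]))
    set w := ι (x * k₂) + ι y * b with hw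
    have hwS : w ∈ S := S.add_mem (hK _) (exists_mul_mem_of_commute hS (hK _) hb hyb.symm h2R)
    have hcross : ι y * b * ι (x * k₂) = -(ι (x * k₂) * (ι y * b)) := by
      rw [map_mul, mul_assoc, ← mul_assoc b, hxb, mul_assoc (ι x) b, hanti]
      simp only [mul_neg, ← mul_assoc]
      congr 2
      rw [← map_mul, ← map_mul, ← map_mul, ← map_mul]
      congr 1
      ring
    have hw2 : w * w = 1 := by
      have hq : ι y * b * (ι y * b) = ι ((y : K) ^ 2 * γ) := by
        rw [mul_assoc, ← mul_assoc b, hyb, mul_assoc (ι y) b b, ← hγ, ← mul_assoc, ← map_mul,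
          ← map_mul, sq]
      rw [hw, add_mul, mul_add, mul_add, hcross, hq, ← map_mul]
      have e : (x : K) * k₂ * (x * k₂) + (y : K) ^ 2 * γ = 1 := by linear_combination hxy'
      rw [← map_one ι, ← e, map_add]
      abel
    have hz : (w - 1) * (w + 1) = 0 := by
      rw [show (w - 1) * (w + 1) = w * w - 1 by noncomm_ring, hw2, sub_self]
    obtain ⟨c, hc⟩ : ∃ c : K, (c = 1 ∨ c = -1) ∧ w = ι c := by
      rcases hS.mul_eq_zero (S.sub_mem hwS hS.one) hz with e | e
      · exact ⟨1, Or.inl rfl, by rw [map_one]; exact sub_eq_zero.1 e⟩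
      · exact ⟨-1, Or.inr rfl, by rw [map_neg, map_one]; exact eq_neg_of_add_eq_zero_left e⟩
    by_cases hy : (y : K) = 0
    · rw [hw, hy, map_zero, zero_mul, add_zero] at hc
      have e := ι.injective hc.2
      have hc0 : c ≠ 0 := by rcases hc.1 with rfl | rfl <;> simp
      have hx0 : (x : K) ≠ 0 := fun h => hc0 (by rw [← e, h, zero_mul])
      refine hk2F ?_
      have hk : k₂ = (x : K)⁻¹ * c := by rw [← e, ← mul_assoc, inv_mul_cancel₀ hx0, one_mul]
      rw [hk]
      refine F.mul_mem (F.inv_mem x.2) ?_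
      rcases hc.1 with rfl | rfl
      · exact F.one_mem
      · exact F.neg_mem F.one_mem
    · refine hbK ⟨(y : K)⁻¹ * (c - x * k₂), ?_⟩
      rw [map_mul, map_sub, ← hc.2, hw, add_sub_cancel_left, ← mul_assoc, ← map_mul,
        inv_mul_cancel₀ hy, map_one, one_mul]

theorem rel_pow (ι : K →+* R) {s : K ≃+* K} {x : R} (hx : Rel ι s x) :
    ∀ n : ℕ, Rel ι (s ^ n) (x ^ n)
  | 0 => fun k => by simp
  | n + 1 => fun k => by
    rw [pow_succ', pow_succ' s, mul_assoc, rel_pow ι hx n k, ← mul_assoc, hx, mul_assoc]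
    rfl

/-- A Jordan subgroup of a finite ring is commutative. -/
theorem Jordan.comm [Finite R] {S : AddSubgroup R} (hS : Jordan S) :
    ∀ a ∈ S, ∀ b ∈ S, a * b = b * a := by
  classical
  rcases subsingleton_or_nontrivial R with h | h
  · exact fun a _ b _ => Subsingleton.elim _ _
  induction hn : Nat.card S using Nat.strong_induction_on generalizing S with
  | _ n ih =>
  subst hn
  intro a ha b₀ hb₀
  by_contra hab
  have hmin : MinJordan S := by
    intro T hT hTS ⟨x, hx, y, hy, hxy⟩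
    haveI : Finite S := Subtype.finite
    by_contra hne
    have hlt : Nat.card T < Nat.card S :=
      Set.Finite.card_lt_card (Set.toFinite _) (lt_of_le_of_ne hTS fun e => hne (SetLike.coe_injective e))
    exact hxy (ih _ hlt hT rfl x hx y hy)
  -- a maximal field
  have hCne : ∀ x ∈ S ⊓ (Subring.centralizer ({a} : Set R)).toAddSubgroup,
      ∀ y ∈ S ⊓ (Subring.centralizer ({a} : Set R)).toAddSubgroup, x * y = y * x := by
    intro x hx y hy
    by_contra hxy
    have := hmin _ (hS.inf_commute a) inf_le_left ⟨x, hx, y, hy, hxy⟩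
    rw [← this] at hb₀
    exact hab (mem_centralizer_singleton.1 hb₀.2)
  obtain ⟨K, iK, iKf, ι, hι⟩ := (hS.inf_commute a).exists_field hCne
  have hK : ∀ k, ι k ∈ S := fun k => ((hι _).2 ⟨k, rfl⟩).1
  obtain ⟨ka, hka⟩ := (hι a).1 ⟨ha, mem_centralizer_singleton.2 rfl⟩
  have hC : ∀ x ∈ S, (∀ k, x * ι k = ι k * x) → ∃ k, ι k = x := fun x hx hxk =>
    (hι x).1 ⟨hx, mem_centralizer_singleton.2 (by rw [← hka, hxk])⟩
  have hb₀K : ¬ ∃ k, ι k = b₀ := fun hk => hab (mem_centralizer_singleton.1 ((hι b₀).2 hk).2)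
  obtain ⟨k₀, hk₀⟩ := exists_gen (K := K)
  obtain ⟨b, hb, hbK, s, g, hh, hbgh, hg, hh', hsk₀⟩ := exists_twist ι hS hK hC hb₀ hb₀K hk₀
  by_cases hq : ∃ k₁, s k₁ ≠ k₁ ∧ s (s k₁) = k₁
  · obtain ⟨k₁, hne, hss⟩ := hq
    have e1 : s.symm k₁ = s k₁ := by rw [RingEquiv.symm_apply_eq, hss]
    refine quadratic_false ι hS hmin hK hC hb hbK hne ?_ ?_
    · rw [hbgh, add_mul, hg, hh', e1, mul_add]
    · rw [hbgh, add_mul, hg, hh', hss, RingEquiv.symm_apply_apply, mul_add]
  push Not at hq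
  have hs2 : ∀ k, s (s k) = k → s k = k := fun k hk => by
    by_contra h; exact hq k h hk
  have hπ := fun x (hx : x ∈ S) => exists_proj ι hS hK hC hk₀ hx
  have hnc : b * ι k₀ ≠ ι k₀ * b := fun e =>
    hbK (hC b hb fun k => rel_of_gen ι hk₀ (RingEquiv.refl K) e k)
  have hb0 : b ≠ 0 := fun e => hbK ⟨0, by rw [map_zero, e]⟩
  -- the products of the two parts
  have hss : s (s k₀) ≠ k₀ := fun e => hsk₀ (hs2 _ e)
  have hss' : s.symm (s.symm k₀) ≠ k₀ := fun e => hss (by
    nth_rw 1 [← e]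
    rw [RingEquiv.apply_symm_apply, RingEquiv.apply_symm_apply])
  have hπy : ∀ y : K, ∃ κ, ι κ = ι (s y) * (g * hh) + ι (s.symm y) * (hh * g) := by
    intro y
    obtain ⟨κ, hκ⟩ := hπ _ (hS.mul_mul_mem hb (hK y))
    refine ⟨κ, hκ.trans ?_⟩
    have h1 : Rel ι (s.trans s) (ι (s y) * (g * g)) := fun k => by
      rw [mul_assoc, mul_assoc g g, hg, ← mul_assoc g, hg, ← mul_assoc, ← mul_assoc, ← mul_assoc,
        ← map_mul, mul_comm, map_mul]
      simp [mul_assoc]
    have h2 : Rel ι (s.symm.trans s.symm) (ι (s.symm y) * (hh * hh)) := fun k => by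
      rw [mul_assoc, mul_assoc hh hh, hh', ← mul_assoc hh, hh', ← mul_assoc, ← mul_assoc,
        ← mul_assoc, ← map_mul, mul_comm, map_mul]
      simp [mul_assoc]
    have h3 : Rel ι (RingEquiv.refl K) (ι (s y) * (g * hh)) := fun k => by
      rw [mul_assoc, mul_assoc g hh, hh', ← mul_assoc g, hg, RingEquiv.apply_symm_apply,
        ← mul_assoc, ← mul_assoc, ← mul_assoc, ← map_mul, mul_comm, map_mul]
      simp [mul_assoc]
    have h4 : Rel ι (RingEquiv.refl K) (ι (s.symm y) * (hh * g)) := fun k => by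
      rw [mul_assoc, mul_assoc hh g, hg, ← mul_assoc hh, hh', RingEquiv.symm_apply_apply,
        ← mul_assoc, ← mul_assoc, ← mul_assoc, ← map_mul, mul_comm, map_mul]
      simp [mul_assoc]
    have e : b * ι y * b = ι (s y) * (g * g) + ι (s y) * (g * hh) + ι (s.symm y) * (hh * g)
        + ι (s.symm y) * (hh * hh) := by
      rw [hbgh, add_mul, hg, hh']
      simp only [add_mul, mul_add, mul_assoc]
      abel
    rw [e, map_add, map_add, map_add, act_rel ι h1, act_rel ι h2, act_rel ι h3, act_rel ι h4,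
      cpol_eval, cpol_eval, cpol_eval, if_neg (show (s.trans s) k₀ ≠ k₀ from hss),
      if_neg (show (s.symm.trans s.symm) k₀ ≠ k₀ from hss'), if_pos (by rfl), map_zero, zero_mul,
      zero_mul, map_one, one_mul, one_mul, zero_add, add_zero]
  obtain ⟨κ₁, hκ₁⟩ := hπy 1
  obtain ⟨κ₂, hκ₂⟩ := hπy k₀
  simp only [map_one, one_mul] at hκ₁
  have hd : s k₀ - s.symm k₀ ≠ 0 := sub_ne_zero.2 fun e => hss (by
    rw [e, RingEquiv.apply_symm_apply])
  obtain ⟨a₁, ha₁⟩ : ∃ a₁, ι a₁ = g * hh := by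
    refine ⟨(s k₀ - s.symm k₀)⁻¹ * (κ₂ - s.symm k₀ * κ₁), ?_⟩
    have e : ι (κ₂ - s.symm k₀ * κ₁) = ι (s k₀ - s.symm k₀) * (g * hh) := by
      rw [map_sub, map_mul, hκ₁, hκ₂, map_sub]
      simp only [mul_add, sub_mul]
      abel
    rw [map_mul, e, ← mul_assoc, ← map_mul, inv_mul_cancel₀ hd, map_one, one_mul]
  obtain ⟨a₂, ha₂⟩ : ∃ a₂, ι a₂ = hh * g :=
    ⟨κ₁ - a₁, by rw [map_sub, hκ₁, ha₁, add_sub_cancel_left]⟩
  have hshift : g ≠ 0 → a₁ = s a₂ := fun hg0 => by
    refine sub_eq_zero.1 (eq_zero_of_iota_mul ι hg0 ?_)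
    rw [map_sub, sub_mul, ha₁, ← hg a₂, ha₂, mul_assoc, sub_self]
  have hunit : ∀ x y : R, x * y = 1 → y * x = 1 := fun x y h => mul_eq_one_comm.1 h
  have fin := fun (s : K ≃+* K) (hne : ∃ k, s k ≠ k) (hs2 : ∀ k, s (s k) = k → s k = k)
      (e g g' : R) (α : K) => twist_false ι hS hmin hK s hne hs2 hk₀ hb hbK hnc hπ e g g' α
  by_cases ha10 : a₁ ≠ 0
  · -- an invertible part
    set g' := hh * ι a₁⁻¹ with hg'
    have e1 : g * g' = 1 := by
      rw [hg', ← mul_assoc, ← ha₁, ← map_mul, mul_inv_cancel₀ ha10, map_one]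
    refine fin s ⟨k₀, hsk₀⟩ hs2 1 g g' a₁ one_ne_zero (one_mul _) (fun k => by simp) (by simp) ?_
      (one_mul _) (mul_one _) (one_mul _) (mul_one _) e1 (hunit _ _ e1) hg
    rw [mul_one, hbgh, hg', mul_assoc, ← map_mul, inv_mul_cancel₀ ha10, map_one, mul_one]
  rw [not_not] at ha10
  subst ha10
  rw [map_zero] at ha₁
  have ha₂' : hh * g = 0 := by
    by_cases hg0 : g = 0
    · rw [hg0, mul_zero]
    · have := (map_eq_zero s).1 (hshift hg0).symm
      rw [← ha₂, this, map_zero]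
  -- one non-zero part
  have pure : ∀ (s : K ≃+* K) (g : R), (∃ k, s k ≠ k) → (∀ k, s (s k) = k → s k = k) →
      Rel ι s g → b = g → False := by
    intro s g hne hs2 hg hbg
    obtain ⟨b', -, e1, e2⟩ := hS.inv b hb hb0
    exact fin s hne hs2 1 g b' 0 one_ne_zero (one_mul _) (fun k => by simp) (by simp)
      (by simp [hbg]) (one_mul _) (mul_one _) (one_mul _) (mul_one _) (hbg ▸ e1) (hbg ▸ e2) hg
  by_cases hg0 : g = 0
  · refine pure s.symm hh ⟨k₀, fun e => hsk₀ ((RingEquiv.symm_apply_eq s).1 e).symm⟩ ?_ hh'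
      (by rw [hbgh, hg0, zero_add])
    intro k hk
    have h1 : s (s k) = k := by
      nth_rw 1 [← hk]
      rw [RingEquiv.apply_symm_apply, RingEquiv.apply_symm_apply]
    rw [RingEquiv.symm_apply_eq, hs2 k h1]
  by_cases hh0 : hh = 0
  · exact pure s g ⟨k₀, hsk₀⟩ hs2 hg (by rw [hbgh, hh0, add_zero])
  -- two orthogonal parts
  set d := orderOf s with hd'
  haveI : Finite (K ≃+* K) := Finite.of_injective (fun e => (e : K → K)) DFunLike.coe_injective
  obtain ⟨d₁, hd₁⟩ : ∃ d₁, d = d₁ + 1 := ⟨d - 1, by have := orderOf_pos s; omega⟩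
  have hsd : s ^ d = 1 := pow_orderOf_eq_one s
  have hgd : ∀ k, g ^ d * ι k = ι k * g ^ d := fun k => by rw [rel_pow ι hg d k, hsd]; rfl
  have hhd : ∀ k, hh ^ d * ι k = ι k * hh ^ d := fun k => by
    rw [rel_pow ι hh' d k, show (s.symm) ^ d = 1 by
      rw [show s.symm = s⁻¹ from rfl, inv_pow, hsd, inv_one]]
    rfl
  have hpow : ∀ n : ℕ, b ^ (n + 1) = g ^ (n + 1) + hh ^ (n + 1) := by
    intro n
    induction n with
    | zero => simpa using hbgh
    | succ n ih =>
      rw [pow_succ' b, ih, hbgh, add_mul, mul_add, mul_add, ← pow_succ' g, ← pow_succ' hh,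
        pow_succ' hh n, ← mul_assoc g, ← ha₁, zero_mul, pow_succ' g n, ← mul_assoc hh, ha₂',
        zero_mul, add_zero, zero_add]
  obtain ⟨η, hη⟩ := hπ _ (hS.pow_mem hb d)
  have hη' : ι η = g ^ d + hh ^ d := by
    rw [hη, hd₁, hpow, map_add, ← hd₁, act_rel ι (show Rel ι (RingEquiv.refl K) (g ^ d) from hgd),
      act_rel ι (show Rel ι (RingEquiv.refl K) (hh ^ d) from hhd)]
    simp [cpol_eval]
  have hη0 : η ≠ 0 := by
    rintro rfl
    obtain ⟨b', -, e1, -⟩ := hS.inv b hb hb0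
    have h0 : b ^ d = 0 := by
      rw [hd₁, hpow, ← hd₁, ← hη', map_zero]
    have h1 : ∀ n : ℕ, b ^ n * b' ^ n = 1 := fun n => by
      induction n with
      | zero => simp
      | succ n ih => rw [pow_succ b, pow_succ' b', mul_assoc, ← mul_assoc b, e1, one_mul, ih]
    have h2 := h1 d
    rw [h0, zero_mul] at h2
    exact zero_ne_one h2
  have hghd : g * hh ^ d = 0 := by rw [hd₁, pow_succ', ← mul_assoc, ← ha₁, zero_mul]
  have hhgd : hh * g ^ d = 0 := by rw [hd₁, pow_succ', ← mul_assoc, ha₂', zero_mul]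
  have hdhg : hh ^ d * g = 0 := by rw [hd₁, pow_succ, mul_assoc, ha₂', mul_zero]
  have hdgh : g ^ d * hh = 0 := by rw [hd₁, pow_succ, mul_assoc, ← ha₁, mul_zero]
  have hgη : g * ι η = g ^ (d + 1) := by rw [hη', mul_add, hghd, add_zero, ← pow_succ']
  have hηg : ι η * g = g ^ (d + 1) := by rw [hη', add_mul, hdhg, add_zero, ← pow_succ]
  have hgη' : g * ι η⁻¹ = ι η⁻¹ * g := by
    calc g * ι η⁻¹ = ι η⁻¹ * (ι η * g) * ι η⁻¹ := by
          rw [← mul_assoc (ι η⁻¹), ← map_mul, inv_mul_cancel₀ hη0, map_one, one_mul]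
      _ = ι η⁻¹ * (g * ι η) * ι η⁻¹ := by rw [hgη, hηg]
      _ = ι η⁻¹ * g := by
          rw [mul_assoc (ι η⁻¹), mul_assoc g, ← map_mul, mul_inv_cancel₀ hη0, map_one, mul_one]
  set e := ι η⁻¹ * g ^ d with he
  have heg : e * g = g := by
    rw [he, mul_assoc, ← pow_succ, ← hηg, ← mul_assoc, ← map_mul, inv_mul_cancel₀ hη0, map_one,
      one_mul]
  have hge : g * e = g := by
    rw [he, ← mul_assoc, hgη', mul_assoc, ← pow_succ', ← hηg, ← mul_assoc, ← map_mul,
      inv_mul_cancel₀ hη0, map_one, one_mul]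
  have hgdη : ∀ n, g ^ n * e = if n = 0 then e else g ^ n := fun n => by
    rcases n with - | n
    · simp
    · rw [if_neg (Nat.succ_ne_zero n), pow_succ, mul_assoc, hge]
  have hee : e * e = e := by
    nth_rw 1 [he]
    rw [mul_assoc, hgdη, if_neg (by omega)]
  have heK : ∀ k, e * ι k = ι k * e := fun k => by
    rw [he, mul_assoc, hgd, ← mul_assoc, ← map_mul, mul_comm, map_mul, mul_assoc]
  have hhe : hh * e = 0 := by rw [he, ← mul_assoc, hh', mul_assoc, hhgd, mul_zero]
  have heh : e * hh = 0 := by rw [he, mul_assoc, hdgh, mul_zero]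
  set g' := ι η⁻¹ * g ^ d₁ * e with hg'
  have hgd1 : g ^ d₁ * g = g ^ d := by rw [← pow_succ, ← hd₁]
  have hgd2 : g * g ^ d₁ = g ^ d := by rw [← pow_succ', ← hd₁]
  have hedc : e * g ^ d₁ = g ^ d₁ * e := by
    have hc : Commute e g := heg.trans hge.symm
    exact hc.pow_right d₁
  have hr1 : g' * g = e := by
    rw [hg', mul_assoc _ e g, heg, mul_assoc, hgd1]
  have hr2 : g * g' = e := by
    calc g * g' = g * (ι η⁻¹ * g ^ d₁ * e) := rfl
      _ = ι η⁻¹ * (g * g ^ d₁) * e := by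
          simp only [← mul_assoc]; rw [hgη']
      _ = e * e := by rw [hgd2]
      _ = e := hee
  clear_value g' e
  refine fin s ⟨k₀, hsk₀⟩ hs2 e g g' 0 (fun h => hg0 (by rw [← heg, h, zero_mul])) hee heK
    ?_ ?_ heg hge ?_ ?_ hr2 hr1 hg
  · rw [hbgh, mul_add, add_mul, heg, hge, heh, hhe]
  · rw [hbgh, add_mul, hge, hhe, map_zero, mul_zero]
  · rw [hg', ← mul_assoc, ← mul_assoc, heK, mul_assoc (ι η⁻¹), hedc, ← mul_assoc, mul_assoc _ e e,
      hee]
  · rw [hg', mul_assoc _ e e, hee]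

end CfsgLib.ItoDesign48
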