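import Mathlib
import Cfsg.Agent.Chars.Apps.FrobeniusKernel
import Cfsg.Agent.ItoDesign48.Basic

/-!
If some non-trivial element fixes a block pointwise, the design has elation groups: the pointwise
stabiliser of a block is semiregular off the block or is a Frobenius group there.
-/

set_option autoImplicit false

namespace CfsgLib.ItoDesign48

open MulAction Finset
open scoped Classical Pointwise

variable {G P Q : Type*} [Group G] [MulAction G P] [MulAction G Q] [Fintype P] [Fintype Q]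

namespace Sym

variable (D : Sym G P Q)

/-- The pointwise stabiliser of a block. -/
def pw (B : Q) : Subgroup G where
  carrier := {x | ∀ y, D.inc y B → x • y = y}
  one_mem' := fun y _ => one_smul G y
  mul_mem' := fun {a b} ha hb y hy => by rw [mul_smul, hb y hy, ha y hy]
  inv_mem' := fun {a} ha y hy => by rw [inv_smul_eq_iff, ha y hy]

theorem mem_pw {B : Q} {x : G} : x ∈ D.pw B ↔ ∀ y, D.inc y B → x • y = y := Iff.rfl

theorem smul_eq_of_mem_pw {B : Q} {x : G} (hx : x ∈ D.pw B) : x • B = B :=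
  (D.eq_of_ptsF_subset fun y hy => by rw [← hx y hy]; exact (D.inc_smul x y B).2 hy).symm

theorem conj_mem_pw {B : Q} {x : G} (g : G) (hx : x ∈ D.pw B) : g * x * g⁻¹ ∈ D.pw (g • B) :=
  fun y hy => by
    rw [mul_smul, mul_smul, hx _ ((D.inc_smul g _ B).1 (by rwa [smul_inv_smul])), smul_inv_smul]

/-- A block through a moved point and its image is fixed, and conversely. -/
theorem smul_eq_of_inc_pw {B C : Q} {x : G} (hx : x ∈ D.pw B) {y : P} (hy : ¬ D.inc y B)
    (h1 : D.inc y C) (h2 : D.inc (x • y) C) : x • C = C := by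
  by_cases hCB : C = B
  · rw [hCB]; exact D.smul_eq_of_mem_pw hx
  by_contra hne
  have hsub : insert (x • y) (D.ptsF B ∩ D.ptsF C) ⊆ D.ptsF (x • C) ∩ D.ptsF C := by
    intro u hu
    simp only [Finset.mem_insert, Finset.mem_inter, Sym.mem_ptsF] at hu ⊢
    rcases hu with rfl | ⟨huB, huC⟩
    · exact ⟨(D.inc_smul x y C).2 h1, h2⟩
    · refine ⟨?_, huC⟩
      rw [← hx u huB]
      exact (D.inc_smul x u C).2 huC
  have h3 := Finset.card_le_card hsub
  rw [Finset.card_insert_of_notMem, D.card_ptsF_inter (Ne.symm hCB), D.card_ptsF_inter hne] at h3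
  · omega
  · simp only [Finset.mem_inter, Sym.mem_ptsF, not_and]
    intro h
    exact absurd h fun h => hy ((D.smul_inc_iff (D.smul_eq_of_mem_pw hx) y).1 h)

/-- A non-trivial element fixing a block pointwise fixes at most one further point. -/
theorem eq_of_fixed_off [FaithfulSMul G P] {B : Q} {x : G} (hx : x ∈ D.pw B) (hx1 : x ≠ 1)
    {a b : P} (ha : ¬ D.inc a B) (hb : ¬ D.inc b B) (hax : x • a = a) (hbx : x • b = b) :
    a = b := by
  by_contra hab
  set F : Finset P := {y | ¬ D.inc y B ∧ x • y = y} with hF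
  set FQ : Finset Q := {X | x • X = X} with hFQ
  have hBfix : B ∈ FQ := by simp [hFQ, D.smul_eq_of_mem_pw hx]
  have hmv : ∀ y, ¬ D.inc y B → x • y ≠ y → #{X ∈ FQ | D.inc y X} = D.l := by
    intro y hy hne
    rw [← D.pairP y (x • y) (Ne.symm hne)]
    congr 1
    ext X
    simp only [hFQ, Finset.mem_filter, Finset.mem_univ, true_and]
    exact ⟨fun h => ⟨h.2, (D.smul_inc_iff h.1 y).2 h.2⟩,
      fun h => ⟨D.smul_eq_of_inc_pw hx hy h.1 h.2, h.1⟩⟩
  have hcardQ : #FQ = D.k + #F := by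
    rw [hFQ, ← D.fix_eq x]
    have hd : Disjoint (D.ptsF B) F := by
      rw [Finset.disjoint_left]
      intro y h1 h2
      simp only [hF, Finset.mem_filter, Finset.mem_univ, true_and] at h2
      exact h2.1 (D.mem_ptsF.1 h1)
    rw [← D.card_ptsF B, ← Finset.card_union_of_disjoint hd]
    congr 1
    ext y
    simp only [Finset.mem_filter, Finset.mem_univ, true_and, Finset.mem_union, mem_ptsF, hF]
    exact ⟨fun h => (em (D.inc y B)).imp id fun hy => ⟨hy, h⟩,
      fun h => h.elim (hx y) And.right⟩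
  -- count incidences with the fixed blocks
  have hall : ∑ y, #{X ∈ FQ | D.inc y X} = #FQ * D.k := by
    have h := Finset.sum_card_bipartiteAbove_eq_sum_card_bipartiteBelow
      (s := (Finset.univ : Finset P)) (t := FQ) D.inc
    simp only [Finset.bipartiteAbove, Finset.bipartiteBelow] at h
    rw [h, Finset.sum_congr rfl fun X _ => D.pts X, Finset.sum_const, smul_eq_mul]
  have hin : ∑ y ∈ D.ptsF B, #{X ∈ FQ | D.inc y X} = D.k + (#FQ - 1) * D.l := by
    have h := Finset.sum_card_bipartiteAbove_eq_sum_card_bipartiteBelow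
      (s := D.ptsF B) (t := FQ) D.inc
    simp only [Finset.bipartiteAbove, Finset.bipartiteBelow] at h
    rw [h, ← Finset.add_sum_erase _ _ hBfix]
    congr 1
    · rw [← D.card_ptsF B]; congr 1; ext y; simp
    · rw [Finset.sum_congr rfl fun X hX => ?_, Finset.sum_const, Finset.card_erase_of_mem hBfix,
        smul_eq_mul]
      rw [← D.card_ptsF_inter (Finset.ne_of_mem_erase hX).symm]
      congr 1; ext y; simp
  set M : Finset P := {y | ¬ D.inc y B ∧ x • y ≠ y} with hM
  have hM' : ∑ y ∈ M, #{X ∈ FQ | D.inc y X} = #M * D.l := by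
    rw [Finset.sum_congr rfl fun y hy => ?_, Finset.sum_const, smul_eq_mul]
    simp only [hM, Finset.mem_filter, Finset.mem_univ, true_and] at hy
    exact hmv y hy.1 hy.2
  have hsplit : ∀ f : P → ℕ, ∑ y, f y = ∑ y ∈ D.ptsF B, f y + (∑ y ∈ F, f y + ∑ y ∈ M, f y) := by
    intro f
    rw [← Finset.sum_add_sum_compl (D.ptsF B) f,
      ← Finset.sum_filter_add_sum_filter_not (D.ptsF B)ᶜ (fun y => x • y = y) f]
    congr 2
    · congr 1; ext y; simp [hF]
    · congr 1; ext y; simp [hM]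
  have hn := hsplit fun _ => 1
  simp only [Finset.sum_const, smul_eq_mul, mul_one, Finset.card_univ, D.card_ptsF] at hn
  have hsum := hsplit fun y => #{X ∈ FQ | D.inc y X}
  simp only [hall, hin, hM', hcardQ] at hsum
  have hFle : ∀ y ∈ F, #{X ∈ FQ | D.inc y X} ≤ D.k := fun y _ => by
    rw [← D.thru y]; exact Finset.card_le_card fun X hX => by simpa using (Finset.mem_filter.1 hX).2
  have htot : ∑ y ∈ F, #{X ∈ FQ | D.inc y X} = #F * D.k := by
    have h1 := D.mul_eq
    have h2 := D.two_le_k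
    zify [show 1 ≤ Fintype.card P by omega, show 1 ≤ D.k by omega,
      show 1 ≤ D.k + #F by omega] at h1 hsum hn ⊢
    rw [hn] at h1
    linear_combination -hsum - h1
  have hcent : ∀ c ∈ F, ∀ X, D.inc c X → x • X = X := by
    intro c hc X hcX
    have heq : ∀ y ∈ F, #{X ∈ FQ | D.inc y X} = D.k := by
      refine (Finset.sum_eq_sum_iff_of_le hFle).1 ?_
      rw [htot, Finset.sum_const, smul_eq_mul]
    have h1 : ({X ∈ FQ | D.inc c X} : Finset Q) = D.blkF c := by
      refine Finset.eq_of_subset_of_card_le (fun X hX => by simpa using (Finset.mem_filter.1 hX).2) ?_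
      rw [heq c hc, D.card_blkF]
    have h2 : X ∈ ({X ∈ FQ | D.inc c X} : Finset Q) := by rw [h1]; simpa using hcX
    simpa [hFQ] using (Finset.mem_filter.1 h2).1
  obtain ⟨y, hy, hyx⟩ : ∃ y, ¬ D.inc y B ∧ x • y ≠ y := by
    by_contra hc
    push Not at hc
    refine hx1 (FaithfulSMul.eq_of_smul_eq_smul fun y : P => ?_)
    rw [one_smul]
    by_cases hy : D.inc y B
    · exact hx y hy
    · exact hc y hy
  have hSy : ∀ c ∈ F, ∀ X, D.inc y X → D.inc (x • y) X → D.inc c X := by
    intro c hc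
    have hcy : y ≠ c := fun e => hyx (by rw [e]; exact (Finset.mem_filter.1 hc).2.2)
    have hsub : D.blkF y ∩ D.blkF c ⊆ D.blkF y ∩ D.blkF (x • y) := fun X hX => by
      simp only [Finset.mem_inter, mem_blkF] at hX ⊢
      exact ⟨hX.1, (D.smul_inc_iff (hcent c hc X hX.2) y).2 hX.1⟩
    have heq := Finset.eq_of_subset_of_card_le hsub
      (by rw [D.card_blkF_inter (Ne.symm hyx), D.card_blkF_inter hcy])
    intro X h1 h2
    have h3 : X ∈ D.blkF y ∩ D.blkF c := by rw [heq]; simp [h1, h2]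
    exact D.mem_blkF.1 (Finset.mem_inter.1 h3).2
  have haF : a ∈ F := by simp [hF, ha, hax]
  have hbF : b ∈ F := by simp [hF, hb, hbx]
  obtain ⟨C, haC, hbC⟩ : ∃ C, D.inc a C ∧ ¬ D.inc b C := by
    by_contra hc
    push Not at hc
    exact hab (D.eq_of_blkF_subset hc)
  have hCB : C ≠ B := fun e => ha (e ▸ haC)
  have hCF : D.ptsF C \ D.ptsF B ⊆ F.erase b := by
    intro u hu
    simp only [Finset.mem_sdiff, mem_ptsF] at hu
    refine Finset.mem_erase.2 ⟨fun e => hbC (e ▸ hu.1), ?_⟩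
    simp only [hF, Finset.mem_filter, Finset.mem_univ, true_and]
    refine ⟨hu.2, by_contra fun hne => ?_⟩
    have hua : u ≠ a := fun e => hne (e ▸ hax)
    have hsub : D.blkF u ∩ D.blkF a ⊆ D.blkF u ∩ D.blkF (x • u) := fun X hX => by
      simp only [Finset.mem_inter, mem_blkF] at hX ⊢
      exact ⟨hX.1, (D.smul_inc_iff (hcent a haF X hX.2) u).2 hX.1⟩
    have heq := Finset.eq_of_subset_of_card_le hsub
      (by rw [D.card_blkF_inter (Ne.symm hne), D.card_blkF_inter hua])
    have hbu : u ≠ b := fun e => hne (e ▸ hbx)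
    have hsub' : D.blkF u ∩ D.blkF b ⊆ D.blkF u ∩ D.blkF (x • u) := fun X hX => by
      simp only [Finset.mem_inter, mem_blkF] at hX ⊢
      exact ⟨hX.1, (D.smul_inc_iff (hcent b hbF X hX.2) u).2 hX.1⟩
    have heq' := Finset.eq_of_subset_of_card_le hsub'
      (by rw [D.card_blkF_inter (Ne.symm hne), D.card_blkF_inter hbu])
    have h3 : C ∈ D.blkF u ∩ D.blkF b := by rw [heq', ← heq]; simp [hu.1, haC]
    exact hbC (D.mem_blkF.1 (Finset.mem_inter.1 h3).2)
  obtain ⟨X, hX⟩ : (D.blkF y ∩ D.blkF (x • y)).Nonempty := by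
    rw [← Finset.card_pos, D.card_blkF_inter (Ne.symm hyx)]; exact D.one_le_l
  simp only [Finset.mem_inter, mem_blkF] at hX
  have hXB : X ≠ B := fun e => hy (e ▸ hX.1)
  have hFX : F ⊆ D.ptsF X \ D.ptsF B := fun c hc => by
    simp only [Finset.mem_sdiff, mem_ptsF]
    exact ⟨hSy c hc X hX.1 hX.2, (Finset.mem_filter.1 hc).2.1⟩
  have h1 := Finset.card_le_card hCF
  have h2 := Finset.card_le_card hFX
  rw [D.card_ptsF_sdiff (Ne.symm hCB), Finset.card_erase_of_mem hbF] at h1
  rw [D.card_ptsF_sdiff (Ne.symm hXB)] at h2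
  have := Finset.card_pos.2 ⟨b, hbF⟩
  omega

/-- The elements fixing a block pointwise and no other point, with the identity, form a subgroup. -/
theorem exists_elations [Finite G] [FaithfulSMul G P] {B : Q} (hB : D.pw B ≠ ⊥) :
    ∃ E : Subgroup G, E ≠ ⊥ ∧ ∀ x, x ∈ E ↔
      x ∈ D.pw B ∧ (x = 1 ∨ ∀ y, ¬ D.inc y B → x • y ≠ y) := by
  by_cases hall : ∀ x ∈ D.pw B, ∀ y, ¬ D.inc y B → x • y = y → x = 1
  · refine ⟨D.pw B, hB, fun x => ⟨fun hx => ⟨hx, ?_⟩, And.left⟩⟩
    by_cases hx1 : x = 1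
    · exact Or.inl hx1
    · exact Or.inr fun y hy e => hx1 (hall x hx y hy e)
  push Not at hall
  obtain ⟨x₀, hx₀, p, hp, hx₀p, hx₀1⟩ := hall
  let K := D.pw B
  letI : Fintype K := Fintype.ofFinite K
  let S : P → Finset K := fun q => {x | (x : G) • q = q}
  have hmemS : ∀ q x, x ∈ S q ↔ (x : G) • q = q := fun q x => by simp [S]
  set Ω : Finset P := (D.ptsF B)ᶜ with hΩ
  have hmemΩ : ∀ q, q ∈ Ω ↔ ¬ D.inc q B := fun q => by simp [hΩ]
  have hinv : ∀ x : K, ∀ q, ¬ D.inc q B → ¬ D.inc ((x : G) • q) B := fun x q hq => by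
    rwa [D.smul_inc_iff (D.smul_eq_of_mem_pw x.2)]
  -- all stabilisers have the same order
  have hm : ∀ q, ¬ D.inc q B → #(S q) = #(S p) := by
    intro q hq
    obtain ⟨g, hgB, hgp⟩ := D.transB B p q (iff_of_false hp hq)
    have hginv : g⁻¹ • B = B := by rw [inv_smul_eq_iff, hgB]
    refine (Finset.card_bij' (fun (x : K) _ => (⟨g * x * g⁻¹, by
        have := D.conj_mem_pw g x.2
        rwa [hgB] at this⟩ : K))
      (fun (x : K) _ => (⟨g⁻¹ * x * g, by
        have := D.conj_mem_pw g⁻¹ x.2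
        rwa [inv_inv, hginv] at this⟩ : K)) ?_ ?_ ?_ ?_).symm
    · intro x hx
      rw [hmemS] at hx ⊢
      show (g * x * g⁻¹) • q = q
      rw [← hgp, mul_smul, mul_smul, inv_smul_smul, hx]
    · intro x hx
      rw [hmemS] at hx ⊢
      show (g⁻¹ * x * g) • p = p
      rw [mul_smul, mul_smul, hgp, hx, ← hgp, inv_smul_smul]
    · intro x _; exact Subtype.ext (by simp [mul_assoc])
    · intro x _; exact Subtype.ext (by simp [mul_assoc])
  have hm2 : 2 ≤ #(S p) := Finset.one_lt_card.2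
    ⟨⟨x₀, hx₀⟩, (hmemS _ _).2 hx₀p, 1, (hmemS _ _).2 (one_smul _ _),
      fun e => hx₀1 (congrArg Subtype.val e)⟩
  have hcount : #Ω * (#(S p) - 1) + 1 ≤ Fintype.card K := by
    have hd : (Ω : Set P).PairwiseDisjoint fun q => (S q).erase 1 := by
      intro q hq q' hq' hne
      rw [Function.onFun, Finset.disjoint_left]
      intro x h1 h2
      obtain ⟨hx1, h1⟩ := Finset.mem_erase.1 h1
      obtain ⟨-, h2⟩ := Finset.mem_erase.1 h2
      exact hne (D.eq_of_fixed_off x.2 (fun e => hx1 (Subtype.ext e)) ((hmemΩ q).1 hq)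
        ((hmemΩ q').1 hq') ((hmemS _ _).1 h1) ((hmemS _ _).1 h2))
    have h1 : #(Ω.biUnion fun q => (S q).erase 1) = #Ω * (#(S p) - 1) := by
      rw [Finset.card_biUnion hd, Finset.sum_congr rfl fun q hq => ?_, Finset.sum_const, smul_eq_mul]
      rw [Finset.card_erase_of_mem ((hmemS _ _).2 (one_smul _ _)), hm q ((hmemΩ q).1 hq)]
    have h2 : (1 : K) ∉ Ω.biUnion fun q => (S q).erase 1 := by simp
    rw [← h1, ← Finset.card_insert_of_notMem h2]
    exact Finset.card_le_univ _
  let O : P → Finset P := fun q => Finset.univ.image fun x : K => (x : G) • q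
  have hO : ∀ q, ¬ D.inc q B → #(O q) * #(S p) = Fintype.card K := by
    intro q hq
    rw [← Finset.card_univ, Finset.card_eq_sum_card_image (fun x : K => (x : G) • q) Finset.univ,
      ← smul_eq_mul, ← Finset.sum_const]
    refine Finset.sum_congr rfl fun u hu => ?_
    obtain ⟨y, -, rfl⟩ := Finset.mem_image.1 hu
    rw [← hm q hq]
    refine Finset.card_equiv (Equiv.mulLeft y) fun x => ?_
    simp [hmemS, mul_smul]
  have htrans : ∀ q, ¬ D.inc q B → q ∈ O p := by
    intro q hq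
    by_contra hn
    have hd : Disjoint (O p) (O q) := by
      rw [Finset.disjoint_left]
      intro u h1 h2
      obtain ⟨x, -, rfl⟩ := Finset.mem_image.1 h1
      obtain ⟨x', -, he⟩ := Finset.mem_image.1 h2
      refine hn (Finset.mem_image.2 ⟨x'⁻¹ * x, Finset.mem_univ _, ?_⟩)
      rw [Subgroup.coe_mul, mul_smul, ← he, Subgroup.coe_inv, inv_smul_smul]
    have hle : #(O p) + #(O q) ≤ #Ω := by
      rw [← Finset.card_union_of_disjoint hd]
      refine Finset.card_le_card fun u hu => (hmemΩ u).2 ?_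
      rcases Finset.mem_union.1 hu with h | h <;> obtain ⟨x, -, rfl⟩ := Finset.mem_image.1 h
      · exact hinv x p hp
      · exact hinv x q hq
    have e1 := hO p hp
    have e2 := hO q hq
    have h3 : (#(O p) + #(O q)) * (#(S p) - 1) + 1 ≤ Fintype.card K :=
      le_trans (Nat.add_le_add_right (Nat.mul_le_mul_right _ hle) 1) hcount
    obtain ⟨m, hm'⟩ : ∃ m, #(S p) = m + 2 := ⟨#(S p) - 2, by omega⟩
    rw [hm', show m + 2 - 1 = m + 1 by omega] at h3
    rw [hm'] at e1 e2
    nlinarith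
  let A : Subgroup K := stabilizer K p
  have hA : ∀ x : K, x ∈ A ↔ (x : G) • p = p := fun x => Iff.rfl
  have hTI : ∀ g h : K, h ∈ A → h ≠ 1 → g * h * g⁻¹ ∈ A → g ∈ A := by
    intro g h hh h1 hc
    rw [hA] at hh hc ⊢
    simp only [Subgroup.coe_mul, Subgroup.coe_inv, mul_smul] at hc
    have h2 : (h : G) • ((g : G)⁻¹ • p) = (g : G)⁻¹ • p := by
      nth_rw 2 [← hc]
      rw [inv_smul_smul]
    have hpg : ¬ D.inc ((g : G)⁻¹ • p) B := hinv g⁻¹ p hp
    have := D.eq_of_fixed_off h.2 (fun e => h1 (Subtype.ext e)) hpg hp h2 hh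
    nth_rw 1 [← this]
    rw [smul_inv_smul]
  obtain ⟨N, -, hNset, hNcard, -, -⟩ :=
    CfsgLib.Chars.Apps.exists_normal_complement_of_malnormal A hTI
  refine ⟨N.map K.subtype, ?_, fun x => ?_⟩
  · intro h
    rw [Subgroup.map_eq_bot_iff_of_injective _ (Subgroup.subtype_injective K)] at h
    rw [h, Subgroup.card_bot] at hNcard
    have hidx : A.index = 1 := hNcard.symm
    rw [Subgroup.index_eq_one] at hidx
    obtain ⟨q, hq, hqp⟩ : ∃ q, ¬ D.inc q B ∧ q ≠ p := by
      obtain ⟨q, hq, hqp⟩ := Finset.exists_mem_ne (s := Ω)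
        (by rw [hΩ, Finset.card_compl, D.card_ptsF]; have := D.k_add_two; omega) p
      exact ⟨q, (hmemΩ q).1 hq, hqp⟩
    obtain ⟨x, -, hx⟩ := Finset.mem_image.1 (htrans q hq)
    exact hqp (hx ▸ (hA x).1 (hidx ▸ Subgroup.mem_top x))
  · have key : ∀ y : K, y ∈ N ↔ y = 1 ∨ ∀ q, ¬ D.inc q B → (y : G) • q ≠ q := by
      intro y
      rw [← SetLike.mem_coe, hNset]
      refine or_congr Iff.rfl ⟨fun h q hq e => ?_, fun h g hg => ?_⟩
      · obtain ⟨g, -, hg⟩ := Finset.mem_image.1 (htrans q hq)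
        refine h g ?_
        rw [Subgroup.mem_pointwise_smul_iff_inv_smul_mem, ← map_inv, MulAut.smul_def,
          MulAut.conj_apply, hA, inv_inv]
        simp only [Subgroup.coe_mul, Subgroup.coe_inv, mul_smul, hg, e]
        rw [← hg, inv_smul_smul]
      · rw [Subgroup.mem_pointwise_smul_iff_inv_smul_mem, ← map_inv, MulAut.smul_def,
          MulAut.conj_apply, hA, inv_inv] at hg
        simp only [Subgroup.coe_mul, Subgroup.coe_inv, mul_smul] at hg
        exact h _ (hinv g p hp) (by rwa [inv_smul_eq_iff] at hg)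
    constructor
    · rintro ⟨y, hy, rfl⟩
      exact ⟨y.2, ((key y).1 hy).imp (fun e => by rw [e]; rfl) id⟩
    · rintro ⟨hx, h⟩
      exact ⟨⟨x, hx⟩, (key ⟨x, hx⟩).2 (h.imp (fun e => Subtype.ext e) id), rfl⟩

/-- One unfaithful block yields elation groups for all blocks. -/
theorem exists_elation [Finite G] [FaithfulSMul G P] {B₀ : Q} {x₀ : G} (hx₀ : x₀ ∈ D.pw B₀)
    (hx₀1 : x₀ ≠ 1) : Nonempty (Elation D) := by
  have hne : ∀ B, D.pw B ≠ ⊥ := by
    intro B hB
    have hex : ∃ g : G, g • B₀ = B := by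
      by_cases h : B = B₀
      · exact ⟨1, by rw [one_smul, h]⟩
      · obtain ⟨g, hg, -⟩ := D.transQ B₀ B B B₀ (Ne.symm h) h
        exact ⟨g, hg⟩
    obtain ⟨g, rfl⟩ := hex
    have := D.conj_mem_pw g hx₀
    rw [hB, Subgroup.mem_bot, mul_inv_eq_one] at this
    exact hx₀1 (mul_eq_left.1 this)
  choose E hE1 hE2 using fun B => D.exists_elations (hne B)
  exact ⟨{
    E := E
    conj := fun g B x hx => by
      rw [hE2] at hx ⊢
      refine ⟨D.conj_mem_pw g hx.1, hx.2.imp (fun e => by simp [e]) fun h y hy e => ?_⟩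
      refine h (g⁻¹ • y) (fun hc => hy ?_) ?_
      · have := (D.inc_smul g _ B).2 hc
        rwa [smul_inv_smul] at this
      · rwa [mul_smul, mul_smul, ← eq_inv_smul_iff] at e
    fixB := fun B x hx => D.smul_eq_of_mem_pw ((hE2 B x).1 hx).1
    fixP := fun B x hx => ((hE2 B x).1 hx).1
    semireg := fun B x hx y hy e => ((hE2 B x).1 hx).2.resolve_right fun h => h y hy e
    ne_bot := hE1 }⟩

end Sym

end CfsgLib.ItoDesign48
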