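import Mathlib
import Cfsg.Agent.ItoDesign48.Geometry
import Cfsg.Agent.ItoDesign48.JordanMain

/-!
The group of a block as a vector space: elations with other axes induce the graphs between the
components, and these give a field acting on every component.
-/

set_option autoImplicit false
set_option maxHeartbeats 400000

namespace CfsgLib.ItoDesign48

open MulAction Finset
open scoped Classical

universe uG

variable {G : Type uG} {P Q : Type*} [Group G] [MulAction G P] [MulAction G Q] [Fintype P]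
  [Fintype Q] [Fintype G] {D : Sym G P Q}

namespace Elation

variable (T : Elation D)

theorem fix_iff {B : Q} {c : P} {x : G} (hx : x ∈ T.Ec B c) (hx1 : x ≠ 1) (X : Q) :
    x • X = X ↔ D.inc c X := by
  obtain ⟨c₀, -, hfix, -⟩ := T.exists_centre hx.1 hx1
  rw [hfix, T.centre_unique hx.1 hx1 (fun Y hY => (hfix Y).2 hY) hx.2]

theorem conj_mem_Ec {B : Q} {c : P} {x : G} (g : G) (hx : x ∈ T.Ec B c) :
    g * x * g⁻¹ ∈ T.Ec (g • B) (g • c) := by
  refine ⟨T.conj g B x hx.1, fun X hX => ?_⟩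
  rw [mul_smul, mul_smul, hx.2 _ ((D.inc_smul g _ _).1 (by rwa [smul_inv_smul])), smul_inv_smul]

theorem eq_of_axes {B C : Q} {x : G} (h : B ≠ C) (hB : x ∈ T.E B) (hC : x ∈ T.E C) : x = 1 := by
  obtain ⟨y, hy, hy'⟩ : ∃ y, D.inc y C ∧ ¬ D.inc y B := by
    by_contra hc
    push Not at hc
    exact h (D.eq_of_ptsF_subset hc).symm
  exact T.semireg B x hB y hy' (T.fixP C x hC y hy)

theorem eq_one_of_fix {B C : Q} {c : P} {x : G} (hx : x ∈ T.Ec B c) (hc : ¬ D.inc c C)
    (h : x • C = C) : x = 1 :=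
  by_contra fun hx1 => hc ((T.fix_iff hx hx1 C).1 h)

end Elation

/-- The group of a block, written additively. -/
def Vec (T : Elation D) (B : Q) : Type uG := Additive (T.E B)

namespace Vec

variable {T : Elation D} {B : Q}

noncomputable instance : AddCommGroup (Vec T B) :=
  { (inferInstance : AddGroup (Additive (T.E B))) with
    add_comm := fun v z => Subtype.ext (T.commute_all v.toMul.2 z.toMul.2) }

noncomputable instance : Fintype (Vec T B) :=
  inferInstanceAs (Fintype (Additive (T.E B)))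

/-- The group element of a vector. -/
def val (v : Vec T B) : G := ((v.toMul : T.E B) : G)

/-- The vector of a group element. -/
def mk (x : G) (hx : x ∈ T.E B) : Vec T B := Additive.ofMul ⟨x, hx⟩

theorem val_mem (v : Vec T B) : v.val ∈ T.E B := v.toMul.2

@[simp] theorem val_mk (x : G) (hx : x ∈ T.E B) : (mk x hx).val = x := rfl

@[simp] theorem val_zero : (0 : Vec T B).val = 1 := rfl

@[simp] theorem val_add (v z : Vec T B) : (v + z).val = v.val * z.val := rfl

@[simp] theorem val_neg (v : Vec T B) : (-v).val = v.val⁻¹ := rfl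

@[ext] theorem ext {v z : Vec T B} (h : v.val = z.val) : v = z := Subtype.ext h

theorem val_eq_one {v : Vec T B} : v.val = 1 ↔ v = 0 := ⟨fun h => ext h, fun h => by rw [h]; rfl⟩

/-- The component of a centre. -/
def comp (T : Elation D) (B : Q) (c : P) : AddSubgroup (Vec T B) where
  carrier := {v | v.val ∈ T.Ec B c}
  zero_mem' := (T.Ec B c).one_mem
  add_mem' := fun hv hz => (T.Ec B c).mul_mem hv hz
  neg_mem' := fun hv => (T.Ec B c).inv_mem hv

theorem mem_comp {c : P} {v : Vec T B} : v ∈ comp T B c ↔ v.val ∈ T.Ec B c := Iff.rfl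

theorem exists_comp (v : Vec T B) : ∃ c, D.inc c B ∧ v ∈ comp T B c := T.exists_Ec v.val_mem

theorem comp_disjoint {c c' : P} (h : c ≠ c') {v : Vec T B} (h1 : v ∈ comp T B c)
    (h2 : v ∈ comp T B c') : v = 0 := val_eq_one.1 (T.Ec_disjoint h h1 h2)

theorem comp_unique {c c' : P} {v : Vec T B} (hv : v ≠ 0) (h1 : v ∈ comp T B c)
    (h2 : v ∈ comp T B c') : c = c' := by_contra fun h => hv (comp_disjoint h h1 h2)

theorem card_comp {c : P} (hc : D.inc c B) : Nat.card (comp T B c) = T.w := by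
  rw [← T.card_Ec hc, Nat.card_eq_fintype_card, Fintype.card_subtype]
  refine Finset.card_bij (fun v _ => v.val) ?_ ?_ ?_
  · intro v hv; simpa [mem_comp] using hv
  · intro v _ z _ h; exact ext h
  · intro x hx
    simp only [Finset.mem_filter, Finset.mem_univ, true_and] at hx
    exact ⟨mk x hx.1, by simpa [mem_comp] using hx, rfl⟩

theorem exists_ne_zero {c : P} (hc : D.inc c B) : ∃ v ∈ comp T B c, v ≠ 0 := by
  obtain ⟨x, hx, hx1⟩ := T.exists_Ec_ne_one hc
  exact ⟨mk x hx.1, hx, fun h => hx1 (congrArg val h)⟩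

/-- The elements fixing a second block. -/
def fixC (T : Elation D) (B C : Q) : AddSubgroup (Vec T B) where
  carrier := {v | v.val • C = C}
  zero_mem' := one_smul G C
  add_mem' := fun {v z} (hv : v.val • C = C) (hz : z.val • C = C) => show _ = C by
    rw [val_add, mul_smul, hz, hv]
  neg_mem' := fun {v} (hv : v.val • C = C) => show _ = C by
    rw [val_neg, inv_smul_eq_iff, hv]

theorem mem_fixC {C : Q} {v : Vec T B} : v ∈ fixC T B C ↔ v.val • C = C := Iff.rfl

theorem comp_le_fixC {C : Q} {c : P} (hc : D.inc c C) {v : Vec T B} (hv : v ∈ comp T B c) :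
    v ∈ fixC T B C := hv.2 C hc

theorem eq_zero_of_fixC {C : Q} {c : P} (hc : ¬ D.inc c C) {v : Vec T B} (hv : v ∈ comp T B c)
    (h : v ∈ fixC T B C) : v = 0 := val_eq_one.1 (T.eq_one_of_fix hv hc h)

theorem centre_of_fixC {C : Q} {c : P} {v : Vec T B} (hv0 : v ≠ 0) (hv : v ∈ comp T B c)
    (h : v ∈ fixC T B C) : D.inc c C := by_contra fun hc => hv0 (eq_zero_of_fixC hc hv h)

theorem exists_split {C : Q} (hC : C ≠ B) {a : P} (ha : D.inc a B) (haC : ¬ D.inc a C)
    (v : Vec T B) : ∃ z ∈ comp T B a, v - z ∈ fixC T B C := by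
  have himg : ((T.EF B).filter (fun x => x ∈ T.Ec B a)).image (· • C) = T.orb B C := by
    refine Finset.eq_of_subset_of_card_le (fun X hX => ?_) ?_
    · obtain ⟨x, hx, rfl⟩ := Finset.mem_image.1 hX
      exact T.mem_orb.2 ⟨x, T.mem_EF.1 (Finset.mem_filter.1 hx).1, rfl⟩
    · rw [T.orb_eq_w hC.symm, Finset.card_image_of_injOn, ← T.card_Ec ha]
      · refine Finset.card_le_card fun x hx => ?_
        simp only [Finset.mem_filter, Finset.mem_univ, true_and] at hx ⊢
        exact ⟨T.mem_EF.2 hx.1, hx⟩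
      · intro x hx x' hx' e
        simp only [Finset.coe_filter, Set.mem_setOf_eq] at hx hx'
        refine (inv_mul_eq_one.1 (T.eq_one_of_fix
          ((T.Ec B a).mul_mem ((T.Ec B a).inv_mem hx'.2) hx.2) haC ?_)).symm
        rw [mul_smul, show x • C = x' • C from e, inv_smul_smul]
  have hv : v.val • C ∈ T.orb B C := T.mem_orb.2 ⟨v.val, v.val_mem, rfl⟩
  rw [← himg] at hv
  obtain ⟨x, hx, he⟩ := Finset.mem_image.1 hv
  obtain ⟨hxE, hxc⟩ := Finset.mem_filter.1 hx
  refine ⟨mk x hxc.1, hxc, ?_⟩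
  rw [mem_fixC, sub_eq_add_neg, add_comm, val_add, val_neg, val_mk, mul_smul, inv_smul_eq_iff, he]

end Vec

open Vec

variable {T : Elation D} {B C : Q}

/-- Elations with axis `C` fixing `B`. -/
def Sh (T : Elation D) (B C : Q) : Subgroup G := T.E C ⊓ stabilizer G B

theorem mem_Sh {x : G} : x ∈ Sh T B C ↔ x ∈ T.E C ∧ x • B = B := Iff.rfl

theorem Sh_of_Ec {c : P} (hcB : D.inc c B) {x : G} (hx : x ∈ T.Ec C c) : x ∈ Sh T B C :=
  ⟨hx.1, hx.2 B hcB⟩

theorem exists_Ec_of_Sh (hC : C ≠ B) {x : G} (hx : x ∈ Sh T B C) :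
    ∃ c, D.inc c B ∧ D.inc c C ∧ x ∈ T.Ec C c := by
  by_cases hx1 : x = 1
  · obtain ⟨c, hc⟩ : (D.ptsF B ∩ D.ptsF C).Nonempty := by
      rw [← Finset.card_pos, D.card_ptsF_inter hC.symm]; exact D.one_le_l
    simp only [Finset.mem_inter, Sym.mem_ptsF] at hc
    exact ⟨c, hc.1, hc.2, hx1 ▸ (T.Ec C c).one_mem⟩
  · obtain ⟨c, hc, hxc⟩ := T.exists_Ec hx.1
    exact ⟨c, (T.fix_iff hxc hx1 B).1 hx.2, hc, hxc⟩

/-- The commutator with an elation fixing `B`. -/
noncomputable def shear (x : Sh T B C) : AddMonoid.End (Vec T B) :=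
  AddMonoidHom.mk' (fun v => Vec.mk ((x : G) * v.val * (x : G)⁻¹ * v.val⁻¹) (by
    have h := T.conj x B v.val v.val_mem
    rw [(mem_Sh.1 x.2).2] at h
    exact (T.E B).mul_mem h ((T.E B).inv_mem v.val_mem))) (fun v z => by
    apply Vec.ext
    have hh : ∀ u ∈ T.E B, (x : G) * u * (x : G)⁻¹ ∈ T.E B := fun u hu => by
      have h := T.conj x B u hu; rwa [(mem_Sh.1 x.2).2] at h
    have hc : Commute ((x : G) * z.val * (x : G)⁻¹ * z.val⁻¹) (v.val⁻¹) :=
      T.commute_all ((T.E B).mul_mem (hh _ z.val_mem) ((T.E B).inv_mem z.val_mem))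
        ((T.E B).inv_mem v.val_mem)
    simp only [val_mk, val_add]
    calc (x : G) * (v.val * z.val) * (x : G)⁻¹ * (v.val * z.val)⁻¹
        = (x : G) * v.val * (x : G)⁻¹ * (((x : G) * z.val * (x : G)⁻¹ * z.val⁻¹) * v.val⁻¹) := by
          group
      _ = _ := by rw [hc.eq]; group)

theorem shear_val (x : Sh T B C) (v : Vec T B) :
    (shear x v).val = (x : G) * v.val * (x : G)⁻¹ * v.val⁻¹ := rfl

theorem shear_mem_comp {c : P} (hcB : D.inc c B) {x : Sh T B C} (hx : (x : G) ∈ T.Ec C c)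
    (v : Vec T B) : shear x v ∈ comp T B c := by
  refine ⟨(shear x v).val_mem, fun X hX => ?_⟩
  have hfix : v.val • c = c := T.fixP B _ v.val_mem c hcB
  have hX' : D.inc c (v.val⁻¹ • X) := by
    have h := (D.inc_smul v.val⁻¹ c X).2 hX
    rwa [T.fixP B _ ((T.E B).inv_mem v.val_mem) c hcB] at h
  have hi : D.inc c ((x : G)⁻¹ • v.val⁻¹ • X) := by
    rw [(T.Ec C c).inv_mem hx |>.2 _ hX']; exact hX'
  rw [shear_val, mul_smul, mul_smul, mul_smul, (T.Ec C c).inv_mem hx |>.2 _ hX', smul_inv_smul,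
    hx.2 _ hX]

theorem shear_mem_fixC (hC : C ≠ B) (x : Sh T B C) (v : Vec T B) :
    shear x v ∈ fixC T B C := by
  obtain ⟨c, hcB, hcC, hx⟩ := exists_Ec_of_Sh hC x.2
  exact comp_le_fixC hcC (shear_mem_comp hcB hx v)

theorem commute_of_fixC (hC : C ≠ B) (x : Sh T B C) {v : Vec T B} (hv : v ∈ fixC T B C) :
    Commute (x : G) v.val := by
  refine commutatorElement_eq_one_iff_mul_comm.1 (T.eq_of_axes hC.symm (shear x v).val_mem ?_)
  have h := T.conj v.val C _ ((T.E C).inv_mem (mem_Sh.1 x.2).1)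
  rw [mem_fixC.1 hv] at h
  rw [commutatorElement_def, mul_assoc, mul_assoc, ← mul_assoc v.val]
  exact (T.E C).mul_mem (mem_Sh.1 x.2).1 h

theorem shear_eq_zero_of_fixC (hC : C ≠ B) (x : Sh T B C) {v : Vec T B} (hv : v ∈ fixC T B C) :
    shear x v = 0 := by
  apply Vec.ext
  rw [shear_val, val_zero, (commute_of_fixC hC x hv).eq, mul_inv_cancel_right, mul_inv_cancel]

theorem mem_fixC_of_shear_eq_zero {x : Sh T B C} (hx : x ≠ 1) {v : Vec T B}
    (h : shear x v = 0) : v ∈ fixC T B C := by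
  by_contra hv
  apply hx
  apply Subtype.ext
  have h1 : (x : G) * v.val = v.val * x := by
    have := congrArg Vec.val h
    rw [shear_val, val_zero, mul_inv_eq_one, mul_inv_eq_iff_eq_mul] at this
    exact this
  have h2 : (x : G) ∈ T.E (v.val • C) := by
    have := T.conj v.val C _ (mem_Sh.1 x.2).1
    rwa [← h1, mul_inv_cancel_right] at this
  exact T.eq_of_axes (fun e => hv (mem_fixC.2 e.symm)) (mem_Sh.1 x.2).1 h2

theorem shear_mul (hC : C ≠ B) (x y : Sh T B C) (v : Vec T B) :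
    shear (x * y) v = shear x v + shear y v := by
  apply Vec.ext
  have hc := commute_of_fixC hC x (shear_mem_fixC hC y v)
  have hc' := T.commute_all (shear x v).val_mem (shear y v).val_mem
  rw [val_add, hc'.eq, shear_val, shear_val, Subgroup.coe_mul]
  calc (x : G) * y * v.val * ((x : G) * y)⁻¹ * v.val⁻¹
      = (x : G) * ((y : G) * v.val * (y : G)⁻¹ * v.val⁻¹) * (v.val * (x : G)⁻¹ * v.val⁻¹) := by
        group
    _ = ((y : G) * v.val * (y : G)⁻¹ * v.val⁻¹) * (x : G) * (v.val * (x : G)⁻¹ * v.val⁻¹) := by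
        rw [← shear_val, hc.eq]
    _ = _ := by rw [shear_val]; group

theorem shear_one (v : Vec T B) : shear (1 : Sh T B C) v = 0 := by
  apply Vec.ext
  rw [shear_val]
  simp

theorem add_shear_mem {a : P} (x : Sh T B C) {v : Vec T B} (hv : v ∈ comp T B a) :
    v + shear x v ∈ comp T B ((x : G) • a) := by
  rw [add_comm, mem_comp, val_add, shear_val, inv_mul_cancel_right]
  have := T.conj_mem_Ec (x : G) hv
  rwa [(mem_Sh.1 x.2).2] at this

/-- Elations with a given centre carry a moved vector to every vector of the component. -/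
theorem exists_shear (hC : C ≠ B) {c : P} (hcB : D.inc c B) (hcC : D.inc c C) {v : Vec T B}
    (hv : v ∉ fixC T B C) {t : Vec T B} (ht : t ∈ comp T B c) :
    ∃ x : Sh T B C, (x : G) ∈ T.Ec C c ∧ shear x v = t := by
  have hcard : Nat.card (T.Ec C c) = Nat.card (comp T B c) := by
    rw [card_comp hcB, ← T.card_Ec hcC, Nat.card_eq_fintype_card, Fintype.card_subtype]
  let φ : T.Ec C c → comp T B c := fun x =>
    ⟨shear (⟨x, Sh_of_Ec hcB x.2⟩ : Sh T B C) v, shear_mem_comp hcB x.2 v⟩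
  have hinj : Function.Injective φ := by
    intro x y h
    have h' : shear (⟨x, Sh_of_Ec hcB x.2⟩ : Sh T B C) v
        = shear (⟨y, Sh_of_Ec hcB y.2⟩ : Sh T B C) v := congrArg Subtype.val h
    by_contra hne
    refine hv (mem_fixC_of_shear_eq_zero
      (x := (⟨y, Sh_of_Ec hcB y.2⟩ : Sh T B C)⁻¹ * ⟨x, Sh_of_Ec hcB x.2⟩) ?_ ?_)
    · intro e
      rw [inv_mul_eq_one] at e
      exact hne (Subtype.ext (congrArg Subtype.val e).symm)
    · rw [shear_mul hC, h', ← shear_mul hC, inv_mul_cancel, shear_one]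
  obtain ⟨x, hx⟩ := ((Nat.bijective_iff_injective_and_card φ).2 ⟨hinj, hcard⟩).2 ⟨t, ht⟩
  exact ⟨⟨x, Sh_of_Ec hcB x.2⟩, x.2, congrArg Subtype.val hx⟩

/-- The maps between two components whose graph lies in a component. -/
def IsGraph (a c : P) (f : comp T B a →+ comp T B c) : Prop :=
  ∃ d, ∀ v : comp T B a, (v : Vec T B) + f v ∈ comp T B d

theorem exists_block_not {a c : P} (hac : a ≠ c) (ha : D.inc a B) :
    ∃ C, C ≠ B ∧ D.inc c C ∧ ¬ D.inc a C := by
  obtain ⟨C, hC⟩ : ∃ C, D.inc c C ∧ ¬ D.inc a C := by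
    by_contra h
    push Not at h
    exact hac (D.eq_of_blkF_subset h).symm
  exact ⟨C, fun e => hC.2 (e ▸ ha), hC⟩

/-- Graph maps are shears. -/
theorem IsGraph.exists_eq {a c : P} {f : comp T B a →+ comp T B c} (hf : IsGraph a c f)
    (hC : C ≠ B) (haB : D.inc a B) (haC : ¬ D.inc a C) (hcB : D.inc c B) (hcC : D.inc c C) :
    ∃ x : Sh T B C, (x : G) ∈ T.Ec C c ∧ ∀ v : comp T B a, shear x v = f v := by
  obtain ⟨d, hd⟩ := hf
  have hac : a ≠ c := fun e => haC (e ▸ hcC)
  obtain ⟨v₀, hv₀, hv₀0⟩ := exists_ne_zero (T := T) haB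
  obtain ⟨x, hxc, hx⟩ := exists_shear hC hcB hcC (fun h => hv₀0 (eq_zero_of_fixC haC hv₀ h))
    (f ⟨v₀, hv₀⟩).2
  have h1 := hd ⟨v₀, hv₀⟩
  have h2 : v₀ + shear x v₀ ∈ comp T B ((x : G) • a) := add_shear_mem x hv₀
  rw [hx] at h2
  have hne : v₀ + (f ⟨v₀, hv₀⟩ : Vec T B) ≠ 0 := fun e => hv₀0 (comp_disjoint hac hv₀
    (by rw [eq_neg_of_add_eq_zero_left e]; exact (comp T B c).neg_mem (f ⟨v₀, hv₀⟩).2))
  have hdx := comp_unique hne h1 h2
  have hdc : d ≠ c := by
    rintro rfl
    exact hv₀0 (comp_disjoint hac hv₀ (by simpa using (comp T B d).sub_mem h1 (f ⟨v₀, hv₀⟩).2))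
  refine ⟨x, hxc, fun v => ?_⟩
  have h3 := (comp T B d).sub_mem (hdx ▸ add_shear_mem x v.2) (hd v)
  rw [add_sub_add_left_eq_sub] at h3
  exact sub_eq_zero.1 (comp_disjoint hdc h3 ((comp T B c).sub_mem (shear_mem_comp hcB hxc v) (f v).2))

theorem isGraph_shear {a c : P} (x : Sh T B C) (hxc : (x : G) ∈ T.Ec C c)
    (f : comp T B a →+ comp T B c) (hf : ∀ v : comp T B a, (f v : Vec T B) = shear x v) :
    IsGraph a c f :=
  ⟨(x : G) • a, fun v => by rw [hf]; exact add_shear_mem x v.2⟩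

/-- The group of graph maps. -/
def graphs {a c : P} (hac : a ≠ c) (ha : D.inc a B) (hc : D.inc c B) :
    AddSubgroup (comp T B a →+ comp T B c) where
  carrier := {f | IsGraph a c f}
  zero_mem' := ⟨a, fun v => by simpa using v.2⟩
  add_mem' := fun {f g} hf hg => by
    obtain ⟨C, hC, hcC, haC⟩ := exists_block_not (B := B) hac ha
    obtain ⟨x, hx, hfx⟩ := IsGraph.exists_eq hf hC ha haC hc hcC
    obtain ⟨y, hy, hgy⟩ := IsGraph.exists_eq hg hC ha haC hc hcC
    refine isGraph_shear (x * y) ((T.Ec C c).mul_mem hx hy) _ fun v => ?_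
    rw [shear_mul hC, hfx, hgy]
    rfl
  neg_mem' := fun {f} hf => by
    obtain ⟨C, hC, hcC, haC⟩ := exists_block_not (B := B) hac ha
    obtain ⟨x, hx, hfx⟩ := IsGraph.exists_eq hf hC ha haC hc hcC
    refine isGraph_shear x⁻¹ ((T.Ec C c).inv_mem hx) _ fun v => ?_
    have h := shear_mul hC x⁻¹ x (v : Vec T B)
    rw [inv_mul_cancel, shear_one, hfx] at h
    exact (eq_neg_of_add_eq_zero_left h.symm).symm

theorem IsGraph.eq_of_apply {a c : P} (hac : a ≠ c) (ha : D.inc a B) (hc : D.inc c B)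
    {f g : comp T B a →+ comp T B c} (hf : IsGraph a c f) (hg : IsGraph a c g) {v : comp T B a}
    (hv : v ≠ 0) (h : f v = g v) : f = g := by
  obtain ⟨C, hC, hcC, haC⟩ := exists_block_not (B := B) hac ha
  obtain ⟨x, hx, hfx⟩ := (sub_mem (show f ∈ graphs hac ha hc from hf)
    (show g ∈ graphs hac ha hc from hg) : IsGraph a c (f - g)).exists_eq hC ha haC hc hcC
  have h0 : shear x (v : Vec T B) = 0 := by
    rw [hfx, AddMonoidHom.sub_apply, h, sub_self]; rfl
  have hx1 : x = 1 := by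
    by_contra hx1
    exact hv (Subtype.ext (eq_zero_of_fixC haC v.2 (mem_fixC_of_shear_eq_zero hx1 h0)))
  rw [← sub_eq_zero]
  ext u : 1
  apply Subtype.ext
  rw [← hfx, hx1, shear_one]
  rfl

theorem exists_graph_apply {a c : P} (hac : a ≠ c) (ha : D.inc a B) (hc : D.inc c B)
    {v : comp T B a} (hv : v ≠ 0) (t : comp T B c) : ∃ f, IsGraph a c f ∧ f v = t := by
  obtain ⟨C, hC, hcC, haC⟩ := exists_block_not (B := B) hac ha
  obtain ⟨x, hx, hxv⟩ := exists_shear hC hc hcC
    (fun h => hv (Subtype.ext (eq_zero_of_fixC haC v.2 h))) t.2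
  let f : comp T B a →+ comp T B c := AddMonoidHom.mk'
    (fun u => ⟨shear x u, shear_mem_comp hc hx u⟩)
    (fun u u' => Subtype.ext (map_add (shear x) (u : Vec T B) u'))
  exact ⟨f, isGraph_shear x hx f fun u => rfl, Subtype.ext hxv⟩

theorem IsGraph.injective {a c : P} (hac : a ≠ c) (ha : D.inc a B) (hc : D.inc c B)
    {f : comp T B a →+ comp T B c} (hf : IsGraph a c f) (hf0 : f ≠ 0) : Function.Injective f := by
  rw [injective_iff_map_eq_zero]
  intro v hv
  by_contra hv0
  exact hf0 (IsGraph.eq_of_apply hac ha hc hf (graphs hac ha hc).zero_mem hv0 hv)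

theorem IsGraph.bijective {a c : P} (hac : a ≠ c) (ha : D.inc a B) (hc : D.inc c B)
    {f : comp T B a →+ comp T B c} (hf : IsGraph a c f) (hf0 : f ≠ 0) : Function.Bijective f :=
  (Nat.bijective_iff_injective_and_card f).2
    ⟨hf.injective hac ha hc hf0, by rw [card_comp ha, card_comp hc]⟩

theorem IsGraph.symm {a c : P} {f : comp T B a →+ comp T B c} (hf : IsGraph a c f)
    (g : comp T B c →+ comp T B a) (hfg : ∀ u, f (g u) = u) : IsGraph c a g := by
  obtain ⟨d, hd⟩ := hf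
  exact ⟨d, fun u => by have := hd (g u); rw [hfg, add_comm] at this; exact this⟩

/-- A normalised set of graph maps. -/
noncomputable def normalised {a c : P} (hac : a ≠ c) (ha : D.inc a B) (hc : D.inc c B)
    (τ : comp T B a →+ comp T B c) : AddSubgroup (AddMonoid.End (comp T B a)) :=
  (graphs hac ha hc).comap (AddMonoidHom.compHom τ)

theorem mem_normalised {a c : P} {hac : a ≠ c} {ha : D.inc a B} {hc : D.inc c B}
    {τ : comp T B a →+ comp T B c} {s : AddMonoid.End (comp T B a)} :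
    s ∈ normalised hac ha hc τ ↔ IsGraph a c (τ.comp s) := Iff.rfl

theorem normalised_jordan {a c : P} (hac : a ≠ c) (ha : D.inc a B) (hc : D.inc c B)
    {τ : comp T B a →+ comp T B c} (hτ : IsGraph a c τ) (hτ0 : τ ≠ 0) :
    Jordan (normalised hac ha hc τ) := by
  let e := AddEquiv.ofBijective τ (hτ.bijective hac ha hc hτ0)
  let R := AddMonoid.End (comp T B a)
  let S' : AddSubgroup R :=
    (graphs hac.symm hc ha).comap
      (AddMonoidHom.mk' (fun s : R => AddMonoidHom.comp s e.symm.toAddMonoidHom) fun s s' => rfl)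
  have hS' : ∀ s : R, s ∈ S' ↔ IsGraph c a (AddMonoidHom.comp s e.symm.toAddMonoidHom) :=
    fun s => Iff.rfl
  have h1 : (1 : R) ∈ normalised hac ha hc τ := mem_normalised.2 hτ
  have h1' : (1 : R) ∈ S' := (hS' 1).2 (hτ.symm e.symm.toAddMonoidHom e.apply_symm_apply)
  have hinv : ∀ s ∈ normalised hac ha hc τ, s ≠ 0 →
      ∃ r ∈ S', s * r = 1 ∧ r * s = 1 := by
    intro s hs hs0
    have hb := IsGraph.bijective hac ha hc hs fun h => hs0 (by
      ext v : 1
      exact (hτ.injective hac ha hc hτ0) ((DFunLike.congr_fun h v).trans (map_zero τ).symm))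
    let es := AddEquiv.ofBijective (τ.comp s) hb
    let r : R := es.symm.toAddMonoidHom.comp τ
    have hsr : s * r = 1 := by
      ext v : 1
      exact (hτ.injective hac ha hc hτ0) (es.apply_symm_apply (τ v))
    have hrs : r * s = 1 := by
      ext v : 1
      exact es.symm_apply_apply v
    refine ⟨r, (hS' r).2 (IsGraph.symm hs _ fun u => ?_), hsr, hrs⟩
    show τ (s (r (e.symm u))) = u
    rw [show s (r (e.symm u)) = e.symm u from DFunLike.congr_fun hsr (e.symm u)]
    exact e.apply_symm_apply u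
  have hinv' : ∀ r ∈ S', r ≠ 0 → ∃ s ∈ normalised hac ha hc τ, r * s = 1 ∧ s * r = 1 := by
    intro r hr hr0
    have hne : AddMonoidHom.comp r e.symm.toAddMonoidHom ≠ 0 := fun h => hr0 (by
      ext v : 1
      have h' : r (e.symm (e v)) = 0 := DFunLike.congr_fun h (e v)
      rw [e.symm_apply_apply] at h'
      exact h')
    let er := AddEquiv.ofBijective _ (IsGraph.bijective hac.symm hc ha hr hne)
    let s : R := e.symm.toAddMonoidHom.comp er.symm.toAddMonoidHom
    have hrs : r * s = 1 := by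
      ext v : 1
      exact er.apply_symm_apply v
    have hsr : s * r = 1 := by
      ext v : 1
      show e.symm (er.symm (r v)) = v
      rw [AddEquiv.symm_apply_eq, AddEquiv.symm_apply_eq]
      show r v = r (e.symm (e v))
      rw [e.symm_apply_apply]
    refine ⟨s, mem_normalised.2 (IsGraph.symm hr _ fun u => ?_), hrs, hsr⟩
    show r (e.symm (τ (s u))) = u
    rw [show τ (s u) = e (s u) from rfl, e.symm_apply_apply]
    exact DFunLike.congr_fun hrs u
  have hsub : ∀ b ∈ S', b ∈ normalised hac ha hc τ := by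
    intro b hb
    by_cases hb0 : b = 0
    · rw [hb0]; exact zero_mem _
    by_cases hb1 : b = 1
    · rw [hb1]; exact h1
    obtain ⟨bi, hbi, hb_bi, hbi_b⟩ := hinv' b hb hb0
    have hd0 : bi - 1 ≠ 0 := fun h => hb1 (by
      rw [sub_eq_zero] at h; rw [h, mul_one] at hb_bi; exact hb_bi)
    obtain ⟨ci, hci, hd_ci, hci_d⟩ := hinv _ (sub_mem hbi h1) hd0
    have key : (1 + ci) * (1 - b) = 1 := by
      have e1 : (bi - 1) * b = 1 - b := by rw [sub_mul, hbi_b, one_mul]
      rw [add_mul, one_mul]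
      nth_rw 2 [← e1]
      rw [← mul_assoc, hci_d, one_mul, sub_add_cancel]
    obtain ⟨m, hm, hm1, hm2⟩ := hinv' (1 + ci) (add_mem h1' hci) fun h => by
      rw [h, zero_mul] at key
      apply hb0
      rw [← mul_one b, ← key, mul_zero]
    have : m = 1 - b := by
      calc m = m * ((1 + ci) * (1 - b)) := by rw [key, mul_one]
        _ = 1 - b := by rw [← mul_assoc, hm2, one_mul]
    rw [this] at hm
    simpa using sub_mem h1 hm
  refine ⟨h1, fun s hs hs0 => ?_⟩
  obtain ⟨r, hr, h⟩ := hinv s hs hs0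
  exact ⟨r, hsub r hr, h⟩

theorem exists_pair_centre (hC : C ≠ B) {a c d : P} (ha : D.inc a B) (haC : ¬ D.inc a C)
    (hcB : D.inc c B) (hcC : D.inc c C) (hdB : D.inc d B) (hdC : D.inc d C)
    {f : comp T B a →+ comp T B c} {g : comp T B a →+ comp T B d}
    (hf : IsGraph a c f) (hg : IsGraph a d g) :
    ∃ e, ∀ v : comp T B a, (f v : Vec T B) + g v ∈ comp T B e := by
  obtain ⟨x, hx, hfx⟩ := hf.exists_eq hC ha haC hcB hcC
  obtain ⟨y, hy, hgy⟩ := hg.exists_eq hC ha haC hdB hdC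
  obtain ⟨e, heB, heC, he⟩ := exists_Ec_of_Sh hC (x * y).2
  refine ⟨e, fun v => ?_⟩
  rw [← hfx, ← hgy, ← shear_mul hC]
  exact shear_mem_comp heB he _

theorem normalised_le (hC : C ≠ B) {a c d : P} (hcd : c ≠ d) (hac : a ≠ c) (had : a ≠ d)
    (ha : D.inc a B) (haC : ¬ D.inc a C) (hcB : D.inc c B) (hcC : D.inc c C)
    (hdB : D.inc d B) (hdC : D.inc d C)
    {τc : comp T B a →+ comp T B c} (hτc : IsGraph a c τc) (hτc0 : τc ≠ 0)
    {τd : comp T B a →+ comp T B d} (hτd : IsGraph a d τd) :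
    normalised hac ha hcB τc ≤ normalised had ha hdB τd := by
  intro r hr
  by_cases hr0 : r = 0
  · rw [hr0]; exact zero_mem _
  obtain ⟨s, hs, hrs, hsr⟩ := (normalised_jordan hac ha hcB hτc hτc0).inv r hr hr0
  obtain ⟨e₁, he₁⟩ := exists_pair_centre hC ha haC hcB hcC hdB hdC (mem_normalised.1 hs) hτd
  obtain ⟨v₀, hv₀, hv₀0⟩ := exists_ne_zero (T := T) ha
  set u₀ : comp T B a := ⟨v₀, hv₀⟩
  have hu₀ : u₀ ≠ 0 := fun h => hv₀0 (congrArg Subtype.val h)
  have hsu : ∀ u, u ≠ 0 → s u ≠ 0 := fun u hu h => hu (by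
    have h' := DFunLike.congr_fun hrs u
    change r (s u) = u at h'
    rw [← h', h, map_zero])
  obtain ⟨g, hg, hgv⟩ := exists_graph_apply had ha hdB (hsu u₀ hu₀) (τd u₀)
  obtain ⟨e₂, he₂⟩ := exists_pair_centre hC ha haC hcB hcC hdB hdC hτc hg
  have hcne : (τc (s u₀) : Vec T B) ≠ 0 := fun h => hsu u₀ hu₀
    (hτc.injective hac ha hcB hτc0 ((Subtype.ext h).trans (map_zero τc).symm))
  have hne : (τc (s u₀) : Vec T B) + τd u₀ ≠ 0 := fun h => hcne (comp_disjoint hcd (τc (s u₀)).2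
    (by rw [eq_neg_of_add_eq_zero_left h]; exact (comp T B d).neg_mem (τd u₀).2))
  have h2 := he₂ (s u₀)
  rw [hgv] at h2
  have hee := comp_unique hne (he₁ u₀) h2
  have hed : e₂ ≠ d := by
    rintro rfl
    exact hcne (comp_disjoint hcd (τc (s u₀)).2
      (by simpa using (comp T B e₂).sub_mem h2 (τd u₀).2))
  rw [mem_normalised]
  have hgr : τd.comp r = g := by
    ext u : 1
    have h3 := (comp T B e₂).sub_mem (he₂ (s (r u))) (hee ▸ he₁ (r u))
    change (τc (s (r u)) : Vec T B) + g (s (r u))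
      - ((τc (s (r u)) : Vec T B) + τd (r u)) ∈ _ at h3
    rw [add_sub_add_left_eq_sub] at h3
    have h4 := comp_disjoint hed h3 ((comp T B d).sub_mem (g (s (r u))).2 (τd (r u)).2)
    have h5 : s (r u) = u := DFunLike.congr_fun hsr u
    rw [h5] at h4
    exact (Subtype.ext (sub_eq_zero.1 h4)).symm
  rw [hgr]
  exact hg

/-- A finite field acts on the group of a block preserving every component. -/
theorem exists_scalars (T : Elation D) (B : Q) :
    ∃ (K : Type uG) (_ : Field K) (_ : Fintype K) (ι : K →+* AddMonoid.End (Vec T B)),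
      Fintype.card K = T.w ∧ ∀ k c v, v ∈ comp T B c → ι k v ∈ comp T B c := by
  obtain ⟨C, hC⟩ := D.exists_ne_block B
  obtain ⟨a, haB, haC⟩ : ∃ a, D.inc a B ∧ ¬ D.inc a C := by
    by_contra h
    push Not at h
    exact hC (D.eq_of_ptsF_subset h).symm
  obtain ⟨c₀, hc₀⟩ : (D.ptsF B ∩ D.ptsF C).Nonempty := by
    rw [← Finset.card_pos, D.card_ptsF_inter hC.symm]; exact D.one_le_l
  simp only [Finset.mem_inter, Sym.mem_ptsF] at hc₀
  obtain ⟨v₀, hv₀, hv₀0⟩ := exists_ne_zero (T := T) haB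
  let A := comp T B a
  let u₀ : A := ⟨v₀, hv₀⟩
  have hu₀ : u₀ ≠ 0 := fun h => hv₀0 (congrArg Subtype.val h)
  have hne : ∀ c, D.inc c C → a ≠ c := fun c hc e => haC (e ▸ hc)
  have hτ : ∀ c, D.inc c B ∧ D.inc c C → ∃ τ : A →+ comp T B c, IsGraph a c τ ∧ τ ≠ 0 := by
    intro c hc
    obtain ⟨t, ht, ht0⟩ := exists_ne_zero (T := T) hc.1
    obtain ⟨f, hf, hfv⟩ := exists_graph_apply (hne c hc.2) haB hc.1 hu₀ ⟨t, ht⟩
    exact ⟨f, hf, fun h => ht0 (by rw [h] at hfv; exact (congrArg Subtype.val hfv).symm)⟩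
  choose τ hτg hτ0 using hτ
  set S := normalised (hne c₀ hc₀.2) haB hc₀.1 (τ c₀ hc₀) with hS
  have hJ : Jordan S := normalised_jordan _ haB hc₀.1 (hτg c₀ hc₀) (hτ0 c₀ hc₀)
  have hSc : ∀ c, ∀ hc : D.inc c B ∧ D.inc c C,
      normalised (hne c hc.2) haB hc.1 (τ c hc) = S := by
    intro c hc
    by_cases h : c = c₀
    · subst h; rfl
    · exact le_antisymm
        (normalised_le hC h _ _ haB haC hc.1 hc.2 hc₀.1 hc₀.2 (hτg c hc) (hτ0 c hc) (hτg c₀ hc₀))
        (normalised_le hC (Ne.symm h) _ _ haB haC hc₀.1 hc₀.2 hc.1 hc.2 (hτg c₀ hc₀) (hτ0 c₀ hc₀)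
          (hτg c hc))
  haveI : Nontrivial A := ⟨⟨u₀, 0, hu₀⟩⟩
  haveI : Nontrivial (AddMonoid.End A) := ⟨⟨1, 0, fun h => hu₀ (DFunLike.congr_fun h u₀)⟩⟩
  haveI : Finite (AddMonoid.End A) :=
    Finite.of_injective (fun f => (f : A → A)) DFunLike.coe_injective
  obtain ⟨K, iK, iKf, j, hj⟩ := hJ.exists_field hJ.comm
  letI := iK
  letI := iKf
  -- evaluation at `u₀` is bijective
  have hev : Function.Bijective fun k : K => j k u₀ := by
    have hinj : Function.Injective fun k : K => j k u₀ := by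
      intro k k' h
      by_contra hkk
      have h' : j (k - k') u₀ = 0 := by
        rw [map_sub]; exact sub_eq_zero.2 h
      have h1 : (j (k - k')⁻¹ * j (k - k')) u₀ = u₀ := by
        rw [← map_mul, inv_mul_cancel₀ (sub_ne_zero.2 hkk), map_one]; rfl
      exact hu₀ (h1.symm.trans (by show j (k - k')⁻¹ (j (k - k') u₀) = 0; rw [h', map_zero]))
    refine ⟨hinj, fun t => ?_⟩
    have hb := (hτg c₀ hc₀).bijective (hne c₀ hc₀.2) haB hc₀.1 (hτ0 c₀ hc₀)
    obtain ⟨f, hf, hfv⟩ := exists_graph_apply (hne c₀ hc₀.2) haB hc₀.1 hu₀ (τ c₀ hc₀ t)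
    let s : AddMonoid.End A := (AddEquiv.ofBijective _ hb).symm.toAddMonoidHom.comp f
    have hts : (τ c₀ hc₀).comp s = f := by
      ext u : 1
      exact (AddEquiv.ofBijective _ hb).apply_symm_apply (f u)
    obtain ⟨k, hk⟩ := (hj s).1 (by rw [hS, mem_normalised, hts]; exact hf)
    refine ⟨k, hb.1 ?_⟩
    show τ c₀ hc₀ (j k u₀) = _
    rw [hk, ← hfv, ← hts]
    rfl
  have hjcomm : ∀ k k' (u : A), j k (j k' u) = j k' (j k u) := fun k k' u => by
    show (j k * j k') u = (j k' * j k) u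
    rw [← map_mul, ← map_mul, mul_comm]
  -- the decomposition
  letI : AddCommGroup (Additive (Sh T B C)) :=
    { (inferInstance : AddGroup (Additive (Sh T B C))) with
      add_comm := fun x y => Subtype.ext (T.commute_all (mem_Sh.1 x.toMul.2).1 (mem_Sh.1 y.toMul.2).1) }
  let m : K → (A × Additive (Sh T B C) →+ Vec T B) := fun k => AddMonoidHom.mk'
    (fun p => (j k p.1 : Vec T B) + shear p.2.toMul (j k u₀ : Vec T B))
    (fun p q => by
      show ((j k (p.1 + q.1) : A) : Vec T B) + shear (p.2.toMul * q.2.toMul) _ = _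
      rw [shear_mul hC, map_add, AddSubgroup.coe_add]
      abel)
  have hm1 : ∀ p, m 1 p = (p.1 : Vec T B) + shear p.2.toMul v₀ := fun p => by
    show ((j 1 p.1 : A) : Vec T B) + shear p.2.toMul (j 1 u₀ : Vec T B) = _
    rw [map_one]
    rfl
  have hnf : v₀ ∉ fixC T B C := fun h => hv₀0 (eq_zero_of_fixC haC hv₀ h)
  have hbij : Function.Bijective (m 1) := by
    refine ⟨(injective_iff_map_eq_zero _).2 fun p hp => ?_, fun v => ?_⟩
    · rw [hm1, add_eq_zero_iff_eq_neg] at hp
      have h1 : p.1 = 0 := Subtype.ext (eq_zero_of_fixC haC p.1.2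
        (hp ▸ (fixC T B C).neg_mem (shear_mem_fixC hC _ _)))
      rw [h1, ZeroMemClass.coe_zero, eq_comm, neg_eq_zero] at hp
      refine Prod.ext h1 ?_
      by_contra h2
      exact hnf (mem_fixC_of_shear_eq_zero (x := p.2.toMul) h2 hp)
    · obtain ⟨z, hz, hvz⟩ := exists_split hC haB haC v
      by_cases h0 : v - z = 0
      · exact ⟨(⟨z, hz⟩, 0), by rw [hm1, sub_eq_zero] at *; simp [shear_one, h0]⟩
      obtain ⟨c, hcB, hc⟩ := exists_comp (v - z)
      obtain ⟨x, -, hx⟩ := exists_shear hC hcB (centre_of_fixC h0 hc hvz) hnf hc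
      exact ⟨(⟨z, hz⟩, Additive.ofMul x), by rw [hm1]; simp [hx]⟩
  let eV := AddEquiv.ofBijective (m 1) hbij
  let L : K → AddMonoid.End (Vec T B) := fun k => (m k).comp eV.symm.toAddMonoidHom
  have hL : ∀ k p, L k (m 1 p) = m k p := fun k p => by
    show m k (eV.symm (eV p)) = m k p
    rw [eV.symm_apply_apply]
  have hLA : ∀ k (u : A), L k (u : Vec T B) = (j k u : Vec T B) := fun k u => by
    have h := hL k (u, 0)
    rw [hm1] at h
    simp only [toMul_zero, shear_one, add_zero] at h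
    rw [h]
    show ((j k u : A) : Vec T B) + shear (1 : Sh T B C) _ = _
    rw [shear_one, add_zero]
  have hLshear0 : ∀ k (x : Sh T B C), L k (shear x v₀) = shear x (j k u₀ : Vec T B) := fun k x => by
    have h := hL k (0, Additive.ofMul x)
    rw [hm1] at h
    simp only [ZeroMemClass.coe_zero, zero_add, toMul_ofMul] at h
    rw [h]
    show ((j k 0 : A) : Vec T B) + shear x _ = _
    rw [map_zero, ZeroMemClass.coe_zero, zero_add]
  have hLshear : ∀ k (x : Sh T B C) (u : A),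
      L k (shear x (u : Vec T B)) = shear x (j k u : Vec T B) := by
    intro k x u
    obtain ⟨c, hcB, hcC, hx⟩ := exists_Ec_of_Sh hC x.2
    obtain ⟨k', rfl⟩ := hev.2 u
    let f : A →+ comp T B c := AddMonoidHom.mk'
      (fun u => ⟨shear x u, shear_mem_comp hcB hx u⟩)
      (fun u u' => Subtype.ext (map_add (shear x) (u : Vec T B) u'))
    have hf : IsGraph a c f := isGraph_shear x hx f fun _ => rfl
    have hb := (hτg c ⟨hcB, hcC⟩).bijective (hne c hcC) haB hcB (hτ0 c ⟨hcB, hcC⟩)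
    let s : AddMonoid.End A := (AddEquiv.ofBijective _ hb).symm.toAddMonoidHom.comp f
    have hts : ∀ u, τ c ⟨hcB, hcC⟩ (s u) = f u := fun u =>
      (AddEquiv.ofBijective _ hb).apply_symm_apply (f u)
    obtain ⟨ks, hks⟩ := (hj s).1 (by
      rw [← hSc c ⟨hcB, hcC⟩, mem_normalised,
        show (τ c ⟨hcB, hcC⟩).comp s = f from AddMonoidHom.ext hts]
      exact hf)
    -- move the scalar onto the elation
    obtain ⟨y, hy, hyu⟩ := exists_shear hC hcB hcC hnf
      (shear_mem_comp hcB hx (j k' u₀ : Vec T B))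
    let g : A →+ comp T B c := AddMonoidHom.mk'
      (fun u => ⟨shear y u, shear_mem_comp hcB hy u⟩)
      (fun u u' => Subtype.ext (map_add (shear y) (u : Vec T B) u'))
    have hg : IsGraph a c g := isGraph_shear y hy g fun _ => rfl
    have hgeq : g = (τ c ⟨hcB, hcC⟩).comp (j (ks * k')) := by
      refine IsGraph.eq_of_apply (hne c hcC) haB hcB hg (mem_normalised.1 (show j (ks * k') ∈
        normalised (hne c hcC) haB hcB (τ c ⟨hcB, hcC⟩) by
          rw [hSc c ⟨hcB, hcC⟩]; exact (hj _).2 ⟨_, rfl⟩)) hu₀ (Subtype.ext ?_)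
      show shear y v₀ = (τ c ⟨hcB, hcC⟩ (j (ks * k') u₀) : Vec T B)
      rw [hyu, map_mul]
      show _ = (τ c ⟨hcB, hcC⟩ (j ks (j k' u₀)) : Vec T B)
      rw [hks, hts]
      rfl
    have hgk := congrArg Subtype.val (DFunLike.congr_fun hgeq (j k u₀))
    change shear y (j k u₀ : Vec T B) = (τ c ⟨hcB, hcC⟩ (j (ks * k') (j k u₀)) : Vec T B) at hgk
    rw [← hyu, hLshear0, hgk, map_mul]
    show (τ c ⟨hcB, hcC⟩ (j ks (j k' (j k u₀))) : Vec T B) = _
    rw [hjcomm k' k, hks, hts]
    rfl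
  have hext : ∀ f g : AddMonoid.End (Vec T B), (∀ u : A, f (u : Vec T B) = g u) →
      (∀ x : Sh T B C, f (shear x v₀) = g (shear x v₀)) → f = g := by
    intro f g h1 h2
    refine AddMonoidHom.ext fun v => ?_
    obtain ⟨p, rfl⟩ := hbij.2 v
    rw [hm1]
    exact ((map_add f _ _).trans (congrArg₂ (· + ·) (h1 _) (h2 _))).trans (map_add g _ _).symm
  refine ⟨K, iK, iKf,
    { toFun := L
      map_one' := hext _ _ (fun u => by rw [hLA, map_one]; rfl)
        (fun x => by rw [hLshear0, map_one]; rfl)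
      map_mul' := fun k k' => hext _ _
        (fun u => by
          show _ = L k (L k' (u : Vec T B))
          rw [hLA k', hLA, hLA, map_mul]; rfl)
        (fun x => by
          show _ = L k (L k' (shear x v₀))
          rw [hLshear0 k', hLshear, hLshear0, map_mul]; rfl)
      map_zero' := hext _ _ (fun u => by rw [hLA, map_zero]; rfl)
        (fun x => by rw [hLshear0, map_zero]; exact map_zero (shear x))
      map_add' := fun k k' => hext _ _
        (fun u => by
          show _ = L k (u : Vec T B) + L k' (u : Vec T B)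
          rw [hLA, hLA, hLA, map_add]; rfl)
        (fun x => by
          show _ = L k (shear x v₀) + L k' (shear x v₀)
          rw [hLshear0, hLshear0, hLshear0, map_add]
          exact map_add (shear x) _ _) }, ?_, ?_⟩
  · rw [← card_comp (T := T) haB, ← Nat.card_eq_fintype_card]
    exact Nat.card_eq_of_bijective _ hev
  · intro k e v hv
    show L k v ∈ comp T B e
    obtain ⟨p, rfl⟩ := hbij.2 v
    rw [hm1] at hv
    by_cases hv0 : (p.1 : Vec T B) + shear p.2.toMul v₀ = 0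
    · rw [hm1, hv0, map_zero]; exact zero_mem _
    by_cases hp : p.1 = 0
    · rw [hm1]
      simp only [hp, ZeroMemClass.coe_zero, zero_add] at hv hv0 ⊢
      obtain ⟨c, hcB, hcC, hx⟩ := exists_Ec_of_Sh hC p.2.toMul.2
      rw [comp_unique hv0 hv (shear_mem_comp hcB hx v₀), hLshear0]
      exact shear_mem_comp hcB hx _
    have hpu : (p.1 : Vec T B) ∉ fixC T B C := fun h => hp (Subtype.ext (eq_zero_of_fixC haC p.1.2 h))
    obtain ⟨c, hcB, hcC, hx⟩ := exists_Ec_of_Sh hC p.2.toMul.2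
    obtain ⟨y, -, hyp⟩ := exists_shear hC hcB hcC hpu (shear_mem_comp hcB hx v₀)
    rw [hm1, ← hyp]
    rw [← hyp] at hv hv0
    rw [comp_unique hv0 hv (add_shear_mem y p.1.2), map_add, hLA, hLshear]
    exact add_shear_mem y (j k p.1).2

end CfsgLib.ItoDesign48
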