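import Mathlib
import Cfsg.Agent.Classical.Linear.Generation
import Cfsg.Agent.ItoDesign48.Shear

/-!
Homogeneous coordinates for the points: the elations generate a projective special linear group.
-/

set_option autoImplicit false
set_option maxHeartbeats 400000

namespace CfsgLib.ItoDesign48

open MulAction Finset Vec
open scoped _root_.Classical

universe uG

variable {G : Type uG} {P Q : Type*} [Group G] [MulAction G P] [MulAction G Q] [Fintype P]
  [Fintype Q] [Fintype G] {D : Sym G P Q}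

/-- A type with `n` elements carrying no structure of its own. -/
def Carrier (n : ℕ) : Type := Fin n

/-- Linear coordinates on the group of a block, compatible with the components. -/
structure Coord (T : Elation D) (B : Q) (F : Type) [Field F] [Fintype F] (m : ℕ) where
  base : P
  hbase : ¬ D.inc base B
  lin : Vec T B ≃+ (Fin m → F)
  line : ∀ (k : F) c v, v ∈ comp T B c → lin.symm (k • lin v) ∈ comp T B c
  cardF : Fintype.card F = T.w

theorem exists_coord (T : Elation D) (B : Q) :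
    ∃ (F : Type) (_ : Field F) (_ : Fintype F) (m : ℕ), Nonempty (Coord T B F m) := by
  obtain ⟨K, iK, iKf, ι, hcard, hι⟩ := exists_scalars T B
  let e : K ≃ Carrier (Fintype.card K) := Fintype.equivFin K
  letI : Field (Carrier (Fintype.card K)) := e.symm.field
  letI : Fintype (Carrier (Fintype.card K)) := Fintype.ofEquiv K e
  let f : Carrier (Fintype.card K) →+* K := e.symm.ringEquiv.toRingHom
  letI : Module (Carrier (Fintype.card K)) (Vec T B) := Module.compHom _ (ι.comp f)
  haveI : Module.Finite (Carrier (Fintype.card K)) (Vec T B) := Module.Finite.of_finite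
  obtain ⟨y, hy⟩ := D.exists_not_inc B
  let b := Module.finBasis (Carrier (Fintype.card K)) (Vec T B)
  refine ⟨Carrier (Fintype.card K), inferInstance, inferInstance,
    Module.finrank (Carrier (Fintype.card K)) (Vec T B), ⟨{
      base := y
      hbase := hy
      lin := b.equivFun.toAddEquiv
      line := fun k c v hv => ?_
      cardF := by rw [← Fintype.card_congr e, hcard] }⟩⟩
  show b.equivFun.symm (k • b.equivFun v) ∈ comp T B c
  rw [← map_smul, LinearEquiv.symm_apply_apply]
  exact hι (f k) c v hv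

namespace Coord

variable {T : Elation D} {B : Q} {F : Type} [Field F] [Fintype F] {m : ℕ} (C : Coord T B F m)

/-- The translation by a vector. -/
noncomputable def tr (v : Fin m → F) : G := (C.lin.symm v).val

theorem tr_mem (v : Fin m → F) : C.tr v ∈ T.E B := (C.lin.symm v).val_mem

theorem tr_add (v z : Fin m → F) : C.tr (v + z) = C.tr v * C.tr z := by
  rw [tr, map_add, val_add]; rfl

theorem tr_zero : C.tr 0 = 1 := by rw [tr, map_zero, val_zero]

theorem tr_eq_one {v : Fin m → F} : C.tr v = 1 ↔ v = 0 := by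
  rw [tr, val_eq_one, AddEquiv.map_eq_zero_iff]

/-- A vector has centre `c`. -/
def In (v : Fin m → F) (c : P) : Prop := C.lin.symm v ∈ comp T B c

theorem in_smul {v : Fin m → F} {c : P} (k : F) (h : C.In v c) : C.In (k • v) c := by
  have := C.line k c _ h
  rwa [AddEquiv.apply_symm_apply] at this

theorem in_unique {v : Fin m → F} (hv : v ≠ 0) {c c' : P} (h : C.In v c) (h' : C.In v c') :
    c = c' :=
  comp_unique (fun e => hv ((AddEquiv.map_eq_zero_iff _).1 e)) h h'

theorem exists_in (v : Fin m → F) : ∃ c, D.inc c B ∧ C.In v c := exists_comp (C.lin.symm v)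

/-- The centre of a vector. -/
noncomputable def cen (v : Fin m → F) : P := (C.exists_in v).choose

theorem cen_spec (v : Fin m → F) : D.inc (C.cen v) B ∧ C.In v (C.cen v) :=
  (C.exists_in v).choose_spec

theorem cen_eq {v : Fin m → F} (hv : v ≠ 0) {c : P} (h : C.In v c) : C.cen v = c :=
  C.in_unique hv (C.cen_spec v).2 h

theorem cen_smul {v : Fin m → F} (hv : v ≠ 0) {k : F} (hk : k ≠ 0) : C.cen (k • v) = C.cen v :=
  C.cen_eq (smul_ne_zero hk hv) (C.in_smul k (C.cen_spec v).2)

theorem exists_smul_of_in {v z : Fin m → F} {c : P} (hc : D.inc c B) (hv : v ≠ 0)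
    (h : C.In v c) (hz : C.In z c) : ∃ k : F, z = k • v := by
  let φ : F → comp T B c := fun k => ⟨C.lin.symm (k • v), C.in_smul k h⟩
  have hinj : Function.Injective φ := fun k k' e =>
    smul_left_injective F hv (C.lin.symm.injective (congrArg Subtype.val e))
  obtain ⟨k, hk⟩ := ((Nat.bijective_iff_injective_and_card φ).2
    ⟨hinj, by rw [card_comp hc, Nat.card_eq_fintype_card, C.cardF]⟩).2 ⟨C.lin.symm z, hz⟩
  exact ⟨k, (C.lin.symm.injective (congrArg Subtype.val hk)).symm⟩

/-- The point with homogeneous coordinates `(t, v)`. -/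
noncomputable def pt (t : F) (v : Fin m → F) : P :=
  if t ≠ 0 then C.tr (t⁻¹ • v) • C.base else C.cen v

theorem pt_of_ne {t : F} (ht : t ≠ 0) (v : Fin m → F) : C.pt t v = C.tr (t⁻¹ • v) • C.base :=
  if_pos ht

theorem pt_zero_left (v : Fin m → F) : C.pt 0 v = C.cen v := if_neg (not_not.2 rfl)

theorem pt_zero_right {t : F} (ht : t ≠ 0) : C.pt t 0 = C.base := by
  rw [C.pt_of_ne ht, smul_zero, C.tr_zero, one_smul]

theorem pt_inc {t : F} {v : Fin m → F} : D.inc (C.pt t v) B ↔ t = 0 := by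
  by_cases ht : t = 0
  · subst ht; rw [pt_zero_left]; exact iff_of_true (C.cen_spec v).1 rfl
  · rw [C.pt_of_ne ht]
    exact iff_of_false (T.not_inc_smul (C.tr_mem _) C.hbase) ht

theorem pt_smul {t : F} {v : Fin m → F} (hne : t ≠ 0 ∨ v ≠ 0) {k : F} (hk : k ≠ 0) :
    C.pt (k * t) (k • v) = C.pt t v := by
  by_cases ht : t = 0
  · subst ht
    rw [mul_zero, pt_zero_left, pt_zero_left, C.cen_smul (hne.resolve_left (not_not.2 rfl)) hk]
  · rw [C.pt_of_ne ht, C.pt_of_ne (mul_ne_zero hk ht), smul_smul, mul_inv, mul_right_comm,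
      inv_mul_cancel₀ hk, one_mul]

theorem exists_smul_of_pt_eq {t t' : F} {v v' : Fin m → F} (hne : t ≠ 0 ∨ v ≠ 0)
    (hne' : t' ≠ 0 ∨ v' ≠ 0) (h : C.pt t v = C.pt t' v') :
    ∃ k : F, k ≠ 0 ∧ t' = k * t ∧ v' = k • v := by
  have hi : t = 0 ↔ t' = 0 := by rw [← C.pt_inc, ← C.pt_inc (v := v'), h]
  by_cases ht : t = 0
  · have ht' := hi.1 ht
    subst ht ht'
    have hv := hne.resolve_left (not_not.2 rfl)
    have hv' := hne'.resolve_left (not_not.2 rfl)
    rw [pt_zero_left, pt_zero_left] at h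
    obtain ⟨k, hk⟩ := C.exists_smul_of_in (C.cen_spec v).1 hv (C.cen_spec v).2
      (h ▸ (C.cen_spec v').2)
    exact ⟨k, fun e => hv' (by rw [hk, e, zero_smul]), (mul_zero k).symm, hk⟩
  · have ht' : t' ≠ 0 := fun e => ht (hi.2 e)
    rw [C.pt_of_ne ht, C.pt_of_ne ht'] at h
    have h1 := C.lin.symm.injective (Vec.ext (T.eq_of_smul_eq (C.tr_mem _) (C.tr_mem _) C.hbase h))
    refine ⟨t' * t⁻¹, mul_ne_zero ht' (inv_ne_zero ht), ?_, ?_⟩
    · rw [mul_assoc, inv_mul_cancel₀ ht, mul_one]
    · rw [← smul_smul, h1, smul_smul, mul_inv_cancel₀ ht', one_smul]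

theorem exists_pt (p : P) : ∃ t v, (t ≠ 0 ∨ v ≠ 0) ∧ C.pt t v = p := by
  by_cases hp : D.inc p B
  · obtain ⟨u, hu, hu0⟩ := exists_ne_zero (T := T) hp
    have hv : C.lin u ≠ 0 := fun e => hu0 ((AddEquiv.map_eq_zero_iff _).1 e)
    refine ⟨0, C.lin u, Or.inr hv, ?_⟩
    rw [pt_zero_left]
    exact C.cen_eq hv (by show C.lin.symm (C.lin u) ∈ _; rw [AddEquiv.symm_apply_apply]; exact hu)
  · obtain ⟨x, hx, rfl⟩ := T.exists_smul_eq C.hbase hp
    refine ⟨1, C.lin (Vec.mk x hx), Or.inl one_ne_zero, ?_⟩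
    rw [C.pt_of_ne one_ne_zero, inv_one, one_smul, tr, AddEquiv.symm_apply_apply, val_mk]

theorem ext_pt [FaithfulSMul G P] {x x' : G}
    (h : ∀ t v, (t ≠ 0 ∨ v ≠ 0) → x • C.pt t v = x' • C.pt t v) : x = x' :=
  FaithfulSMul.eq_of_smul_eq_smul fun p : P => by
    obtain ⟨t, v, hne, rfl⟩ := C.exists_pt p
    exact h t v hne

/-- Translations add a multiple of the first coordinate. -/
theorem tr_smul_pt (τ : Fin m → F) (t : F) (v : Fin m → F) :
    C.tr τ • C.pt t v = C.pt t (v + t • τ) := by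
  by_cases ht : t = 0
  · subst ht
    rw [zero_smul, add_zero]
    exact T.fixP B _ (C.tr_mem τ) _ (C.pt_inc.2 rfl)
  · rw [C.pt_of_ne ht, C.pt_of_ne ht, smul_add, smul_smul t⁻¹ t, inv_mul_cancel₀ ht, one_smul,
      add_comm, C.tr_add, mul_smul]

theorem mem_fixC_smul {X : Q} {v : Fin m → F} (k : F) (h : C.lin.symm v ∈ fixC T B X) :
    C.lin.symm (k • v) ∈ fixC T B X := by
  by_cases hv : v = 0
  · rw [hv, smul_zero, map_zero]; exact zero_mem _
  exact comp_le_fixC (centre_of_fixC (fun e => hv ((AddEquiv.map_eq_zero_iff _).1 e))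
    (C.cen_spec v).2 h) (C.in_smul k (C.cen_spec v).2)

theorem shear_smul {X : Q} (hX : X ≠ B) (z : Sh T B X) (k : F) (v : Fin m → F) :
    shear z (C.lin.symm (k • v)) = C.lin.symm (k • C.lin (shear z (C.lin.symm v))) := by
  obtain ⟨c, hcB, hcX, hz⟩ := exists_Ec_of_Sh hX z.2
  obtain ⟨a, haB, haX⟩ : ∃ a, D.inc a B ∧ ¬ D.inc a X := by
    by_contra h
    push Not at h
    exact hX (D.eq_of_ptsF_subset h).symm
  obtain ⟨q, hq, hqv⟩ := exists_split hX haB haX (C.lin.symm v)
  set r := C.lin.symm v - q with hr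
  have hv : v = C.lin q + C.lin r := by
    rw [← map_add, hr, add_sub_cancel, AddEquiv.apply_symm_apply]
  have hkr : shear z (C.lin.symm (k • C.lin r)) = 0 := shear_eq_zero_of_fixC hX z
    (C.mem_fixC_smul k (by rwa [AddEquiv.symm_apply_apply]))
  have hq0 : shear z (C.lin.symm v) = shear z q := by
    rw [show C.lin.symm v = q + r from (add_sub_cancel q _).symm, map_add,
      shear_eq_zero_of_fixC hX z hqv, add_zero]
  rw [hq0]
  nth_rw 1 [hv]
  rw [smul_add, map_add, map_add, hkr, add_zero]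
  have hne : (z : G) • a ≠ c := fun e => haX (by
    rw [← smul_left_cancel (z : G) (e.trans (T.fixP X _ (mem_Sh.1 z.2).1 c hcX).symm)] at hcX
    exact hcX)
  have h1 := C.line k _ _ (add_shear_mem z hq)
  rw [map_add, smul_add, map_add] at h1
  have h2 := add_shear_mem z (C.line k _ _ hq)
  have h3 := sub_mem h2 h1
  rw [add_sub_add_left_eq_sub] at h3
  exact sub_eq_zero.1 (comp_disjoint hne h3
    (sub_mem (shear_mem_comp hcB hz _) (C.line k _ _ (shear_mem_comp hcB hz _))))

theorem shear_smul_pt {X : Q} (hX : X ≠ B) (hbX : D.inc C.base X) (z : Sh T B X) (t : F)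
    (v : Fin m → F) (hne : t ≠ 0 ∨ v ≠ 0) :
    (z : G) • C.pt t v = C.pt t (v + C.lin (shear z (C.lin.symm v))) := by
  have hzB := (mem_Sh.1 z.2).2
  by_cases ht : t = 0
  · subst ht
    have hv := hne.resolve_left (not_not.2 rfl)
    have h := add_shear_mem z (C.cen_spec v).2
    rw [pt_zero_left, pt_zero_left]
    refine (C.cen_eq ?_ ?_).symm
    · intro e
      apply hv
      have e' : C.lin.symm v + shear z (C.lin.symm v) = 0 := by
        rw [← C.lin.symm_apply_apply (C.lin.symm v + shear z (C.lin.symm v)), map_add,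
          AddEquiv.apply_symm_apply, e, map_zero]
      obtain ⟨c, hcB, hcX, hz⟩ := exists_Ec_of_Sh hX z.2
      have h0 := shear_eq_zero_of_fixC hX z (v := C.lin.symm v) (by
        rw [eq_neg_of_add_eq_zero_left e']
        exact (fixC T B X).neg_mem (shear_mem_fixC hX z _))
      rw [h0, add_zero] at e'
      exact (AddEquiv.map_eq_zero_iff _).1 e'
    · show C.lin.symm _ ∈ _
      rw [map_add, AddEquiv.symm_apply_apply]
      exact h
  · have hfix : (z : G) • C.base = C.base := T.fixP X _ (mem_Sh.1 z.2).1 _ hbX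
    have hsh : C.lin (shear z (C.lin.symm (t⁻¹ • v)))
        = t⁻¹ • C.lin (shear z (C.lin.symm v)) := by
      rw [C.shear_smul hX z, AddEquiv.apply_symm_apply]
    rw [C.pt_of_ne ht, C.pt_of_ne ht, smul_add, ← hsh]
    conv_lhs => rw [← hfix]
    rw [← mul_smul, ← mul_smul, tr, tr, map_add, AddEquiv.symm_apply_apply, add_comm, val_add,
      shear_val, inv_mul_cancel_right]
    rw [mul_smul _ (z : G)⁻¹, show (z : G)⁻¹ • C.base = C.base by rw [inv_smul_eq_iff, hfix],
      mul_smul _ (z : G), hfix]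

theorem exists_line_image {x : G} (hx : ∀ Y, D.inc C.base Y → x • Y = Y) {t : F}
    {v : Fin m → F} (hv : v ≠ 0) (hb : x • C.base = C.base) :
    ∃ t', x • C.pt t v = C.pt t' v := by
  obtain ⟨hcB, hc⟩ := C.cen_spec v
  set c := C.cen v with hc'
  have hp : C.pt t v ∈ D.pline C.base c ∧ C.pt t v ≠ C.base := by
    by_cases ht : t = 0
    · subst ht
      rw [pt_zero_left]
      exact ⟨(D.self_mem_pline _ _).2, fun e => C.hbase (e ▸ hcB)⟩
    · rw [C.pt_of_ne ht]
      refine ⟨T.smul_mem_pline hcB C.hbase (C.in_smul t⁻¹ hc), fun e => ?_⟩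
      have h := T.semireg B _ (C.tr_mem _) _ C.hbase e
      exact smul_ne_zero (inv_ne_zero ht) hv (C.tr_eq_one.1 h)
  have hxp : x • C.pt t v ∈ D.pline C.base c := by
    rw [Sym.mem_pline]
    intro Y h1 h2
    exact (D.smul_inc_iff (hx Y h1) _).2 (D.mem_pline.1 hp.1 Y h1 h2)
  by_cases hxc : x • C.pt t v = c
  · exact ⟨0, by rw [hxc, pt_zero_left]⟩
  obtain ⟨σ, hσ, hσp⟩ := T.exists_Ec_smul hcB C.hbase hxp hxc
  obtain ⟨k, hk⟩ := C.exists_smul_of_in (z := C.lin (Vec.mk σ hσ.1)) hcB hv hc (by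
    show C.lin.symm _ ∈ _
    rw [AddEquiv.symm_apply_apply]
    exact hσ)
  by_cases hk0 : k = 0
  · exfalso
    rw [hk0, zero_smul, AddEquiv.map_eq_zero_iff] at hk
    have h1 : σ = 1 := congrArg Vec.val hk
    rw [h1, one_smul] at hσp
    exact hp.2 (smul_left_cancel x (hσp.symm.trans hb.symm))
  · refine ⟨k⁻¹, ?_⟩
    rw [C.pt_of_ne (inv_ne_zero hk0), inv_inv, ← hk, tr, AddEquiv.symm_apply_apply, val_mk, hσp]

/-- An elation with centre the base point adds a functional to the first coordinate. -/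
theorem exists_dual {X : Q} (hbX : D.inc C.base X) {x : G} (hx : x ∈ T.Ec X C.base) :
    ∃ a : Fin m → F, ∀ t v, (t ≠ 0 ∨ v ≠ 0) → x • C.pt t v = C.pt (t + ∑ j, a j * v j) v := by
  have hX : X ≠ B := fun e => C.hbase (e ▸ hbX)
  obtain ⟨c, hc⟩ : (D.ptsF B ∩ D.ptsF X).Nonempty := by
    rw [← Finset.card_pos, D.card_ptsF_inter hX.symm]; exact D.one_le_l
  simp only [Finset.mem_inter, Sym.mem_ptsF] at hc
  obtain ⟨u, hu, hu0⟩ := exists_ne_zero (T := T) hc.1
  set τ := C.lin u with hτ
  have hτc : C.In τ c := by show C.lin.symm (C.lin u) ∈ _; rwa [AddEquiv.symm_apply_apply]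
  have hτ0 : τ ≠ 0 := fun e => hu0 ((AddEquiv.map_eq_zero_iff _).1 e)
  have htau : C.tr τ ∈ T.Ec B c := hτc
  have hxc : x • c = c := T.fixP X x hx.1 c hc.2
  have hxi : x⁻¹ • c = c := T.fixP X _ ((T.E X).inv_mem hx.1) c hc.2
  have hzmem : x * C.tr τ * x⁻¹ * (C.tr τ)⁻¹ ∈ T.Ec X c := by
    constructor
    · have h := T.conj (C.tr τ) X _ ((T.E X).inv_mem hx.1)
      rw [htau.2 X hc.2] at h
      rw [mul_assoc, mul_assoc, ← mul_assoc (C.tr τ)]
      exact (T.E X).mul_mem hx.1 h
    · intro Y hY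
      have hY' : D.inc c (x⁻¹ • Y) := by rw [← hxi]; exact (D.inc_smul _ _ _).2 hY
      rw [mul_smul, mul_smul, mul_smul, ((T.Ec B c).inv_mem htau).2 Y hY, htau.2 _ hY',
        smul_inv_smul]
  let z : Sh T B X := ⟨_, Sh_of_Ec hc.1 hzmem⟩
  have hgex : ∀ v, ∃ k : F, C.lin (shear z (C.lin.symm v)) = k • τ := fun v =>
    C.exists_smul_of_in hc.1 hτ0 hτc (by
      show C.lin.symm (C.lin _) ∈ _
      rw [AddEquiv.symm_apply_apply]
      exact shear_mem_comp hc.1 hzmem _)
  choose g hg using hgex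
  let gL : (Fin m → F) →ₗ[F] F :=
    { toFun := g
      map_add' := fun v v' => smul_left_injective F hτ0 (by
        show g (v + v') • τ = (g v + g v') • τ
        rw [add_smul, ← hg, ← hg, ← hg, map_add, map_add, map_add])
      map_smul' := fun k v => smul_left_injective F hτ0 (by
        show g (k • v) • τ = (k • g v) • τ
        rw [smul_assoc, ← hg, ← hg, C.shear_smul hX z, AddEquiv.apply_symm_apply]) }
  refine ⟨fun j => -gL (Pi.single j 1), fun t v hne => ?_⟩
  have hsum : ∑ j, -gL (Pi.single j 1) * v j = -g v := by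
    have : g v = ∑ j, v j * gL (Pi.single j 1) := by
      show gL v = _
      conv_lhs => rw [pi_eq_sum_univ' v]
      rw [map_sum]
      exact Finset.sum_congr rfl fun j _ => by rw [map_smul]; rfl
    rw [this, ← Finset.sum_neg_distrib]
    exact Finset.sum_congr rfl fun j _ => by ring
  rw [hsum]
  have hb : x • C.base = C.base := T.fixP X x hx.1 _ hbX
  by_cases hvH : C.lin.symm v ∈ fixC T B X
  · have hg0 : g v = 0 := smul_left_injective F hτ0 (by
      show g v • τ = (0 : F) • τ
      rw [← hg, shear_eq_zero_of_fixC hX z hvH, map_zero, zero_smul])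
    rw [hg0, neg_zero, add_zero]
    refine T.fixP X x hx.1 _ ?_
    by_cases ht : t = 0
    · subst ht
      have hv := hne.resolve_left (not_not.2 rfl)
      rw [pt_zero_left]
      exact centre_of_fixC (fun e => hv ((AddEquiv.map_eq_zero_iff _).1 e)) (C.cen_spec v).2 hvH
    · rw [C.pt_of_ne ht]
      have h := C.mem_fixC_smul t⁻¹ hvH
      rw [mem_fixC] at h
      exact (D.smul_inc_iff h _).2 hbX
  have hv : v ≠ 0 := fun e => hvH (by rw [e, map_zero]; exact zero_mem _)
  obtain ⟨s', hs'⟩ := C.exists_line_image (t := t) hx.2 hv hb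
  have hv1 : v + t • τ ≠ 0 := fun e => hvH (by
    rw [eq_neg_of_add_eq_zero_left e, map_neg]
    exact neg_mem (comp_le_fixC hc.2 (C.in_smul t hτc)))
  obtain ⟨s'', hs''⟩ := C.exists_line_image (t := t) hx.2 hv1 hb
  have hcomm : x • C.tr τ • C.pt t v = (z : G) • C.tr τ • x • C.pt t v := by
    simp only [← mul_smul]
    congr 1
    show x * C.tr τ = x * C.tr τ * x⁻¹ * (C.tr τ)⁻¹ * (C.tr τ * x)
    group
  rw [C.tr_smul_pt, hs'', hs', C.tr_smul_pt] at hcomm
  have hne2 : s' ≠ 0 ∨ v + s' • τ ≠ 0 := Or.inr fun e => hvH (by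
    rw [eq_neg_of_add_eq_zero_left e, map_neg]
    exact neg_mem (comp_le_fixC hc.2 (C.in_smul s' hτc)))
  rw [C.shear_smul_pt hX hbX z s' _ hne2, hg] at hcomm
  have hgt : g (v + s' • τ) = g v := by
    show gL (v + s' • τ) = gL v
    have h0 : gL τ = 0 := smul_left_injective F hτ0 (by
      show g τ • τ = (0 : F) • τ
      rw [← hg, shear_eq_zero_of_fixC hX z (comp_le_fixC hc.2 hτc), map_zero, zero_smul])
    rw [map_add, map_smul, h0, smul_zero, add_zero]
  rw [hgt, add_assoc, ← add_smul] at hcomm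
  have hne3 : v + (s' + g v) • τ ≠ 0 := fun e => hvH (by
    rw [eq_neg_of_add_eq_zero_left e, map_neg]
    exact neg_mem (comp_le_fixC hc.2 (C.in_smul _ hτc)))
  obtain ⟨k, -, -, hk⟩ := C.exists_smul_of_pt_eq (Or.inr hv1) (Or.inr hne3) hcomm
  have hk1 : k = 1 := by
    by_contra hk1
    apply hvH
    have e : (1 - k) • v = (k * t - (s' + g v)) • τ := by
      rw [sub_smul, one_smul, sub_smul, mul_smul]
      rw [smul_add] at hk
      rw [sub_eq_sub_iff_add_eq_add, hk]
      abel
    have h := C.mem_fixC_smul (1 - k)⁻¹ (comp_le_fixC hc.2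
      (C.in_smul (k * t - (s' + g v)) hτc))
    rwa [← e, smul_smul, inv_mul_cancel₀ (sub_ne_zero.2 (Ne.symm hk1)), one_smul] at h
  rw [hk1, one_smul] at hk
  have hst : s' + g v = t := smul_left_injective F hτ0 (add_left_cancel hk)
  rw [hs', ← hst]
  congr 1
  ring

/-- The coordinate vector of a point. -/
noncomputable def ptV (u : Fin (m + 1) → F) : P := C.pt (u 0) (Fin.tail u)

theorem ne_zero_iff {u : Fin (m + 1) → F} : u ≠ 0 ↔ u 0 ≠ 0 ∨ Fin.tail u ≠ 0 := by
  constructor
  · intro h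
    by_contra hc
    push Not at hc
    refine h (funext fun i => ?_)
    cases i using Fin.cases with
    | zero => exact hc.1
    | succ i => exact congrFun hc.2 i
  · rintro h rfl
    rcases h with h | h <;> exact h rfl

theorem ext_ptV [FaithfulSMul G P] {x x' : G}
    (h : ∀ u, u ≠ 0 → x • C.ptV u = x' • C.ptV u) : x = x' := by
  refine C.ext_pt fun t v hne => ?_
  have := h (Fin.cons t v) (ne_zero_iff.2 (by simpa using hne))
  simpa [ptV] using this

/-- A group element induces a matrix. -/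
def Real (x : G) (M : Matrix.SpecialLinearGroup (Fin (m + 1)) F) : Prop :=
  ∀ u, u ≠ 0 → x • C.ptV u = C.ptV (M.1.mulVec u)

theorem mulVec_ne_zero (M : Matrix.SpecialLinearGroup (Fin (m + 1)) F) {u : Fin (m + 1) → F}
    (hu : u ≠ 0) : M.1.mulVec u ≠ 0 := by
  intro h
  apply hu
  calc u = (M⁻¹ * M).1.mulVec u := by rw [inv_mul_cancel]; exact (Matrix.one_mulVec u).symm
    _ = 0 := by
      rw [Matrix.SpecialLinearGroup.coe_mul, ← Matrix.mulVec_mulVec, h, Matrix.mulVec_zero]

theorem real_mul {x y : G} {M M' : Matrix.SpecialLinearGroup (Fin (m + 1)) F}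
    (h : C.Real x M) (h' : C.Real y M') : C.Real (x * y) (M * M') := fun u hu => by
  rw [mul_smul, h' u hu, h _ (mulVec_ne_zero M' hu), Matrix.mulVec_mulVec,
    Matrix.SpecialLinearGroup.coe_mul]

theorem real_one : C.Real 1 1 := fun u _ => by
  rw [one_smul, Matrix.SpecialLinearGroup.coe_one, Matrix.one_mulVec]

theorem real_inv {x : G} {M : Matrix.SpecialLinearGroup (Fin (m + 1)) F}
    (h : C.Real x M) : C.Real x⁻¹ M⁻¹ := fun u hu => by
  rw [inv_smul_eq_iff, h _ (mulVec_ne_zero M⁻¹ hu), Matrix.mulVec_mulVec,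
    ← Matrix.SpecialLinearGroup.coe_mul, mul_inv_cancel, Matrix.SpecialLinearGroup.coe_one,
    Matrix.one_mulVec]

theorem mulVec_transvection {i j : Fin (m + 1)} (hij : i ≠ j) (c : F) (u : Fin (m + 1) → F) :
    (Matrix.SpecialLinearGroup.transvection hij c).1.mulVec u
      = u + Pi.single i (c * u j) := by
  rw [Matrix.SpecialLinearGroup.transvection_coe, Matrix.add_mulVec, Matrix.one_mulVec,
    Matrix.single_mulVec]
  rfl

theorem tail_add_single_zero (u : Fin (m + 1) → F) (c : F) :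
    Fin.tail (u + Pi.single 0 c) = Fin.tail u := by
  funext r
  simp [Fin.tail, Pi.single_eq_of_ne (Fin.succ_ne_zero r)]

theorem tail_add_single_succ (u : Fin (m + 1) → F) (i : Fin m) (c : F) :
    Fin.tail (u + Pi.single i.succ c) = Fin.tail u + Pi.single i c := by
  funext r
  rcases eq_or_ne r i with rfl | hr
  · simp [Fin.tail]
  · simp [Fin.tail, Pi.single_eq_of_ne hr,
      Pi.single_eq_of_ne (fun e => hr (Fin.succ_injective _ e))]

/-- The subgroup generated by all elations. -/
def elGroup (T : Elation D) : Subgroup G := ⨆ X, T.E X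

theorem mem_elGroup {T : Elation D} {X : Q} {x : G} (hx : x ∈ T.E X) : x ∈ elGroup T :=
  le_iSup T.E X hx

theorem real_tr (i : Fin m) (c : F) :
    C.Real (C.tr (Pi.single i c))
      (Matrix.SpecialLinearGroup.transvection (Fin.succ_ne_zero i) c) := fun u _ => by
  rw [mulVec_transvection, ptV, ptV, C.tr_smul_pt, tail_add_single_succ, Pi.add_apply,
    Pi.single_eq_of_ne (Fin.succ_ne_zero i).symm, add_zero, ← Pi.single_smul, smul_eq_mul,
    mul_comm]

include C in
theorem card_points : D.k * (T.w - 1) + 1 = Fintype.card F ^ m := by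
  have hA : Fintype.card (Vec T B) = Fintype.card F ^ m := by
    rw [Fintype.card_congr C.lin.toEquiv]; simp
  rw [← hA, ← Finset.card_univ, ← Finset.card_erase_add_one (Finset.mem_univ (0 : Vec T B))]
  congr 1
  have hcover : (Finset.univ.erase (0 : Vec T B)) = (D.ptsF B).biUnion fun c =>
      (Finset.univ.filter fun v => v ∈ comp T B c).erase 0 := by
    ext v
    simp only [Finset.mem_erase, Finset.mem_univ, and_true, Finset.mem_biUnion,
      Finset.mem_filter, true_and, Sym.mem_ptsF]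
    refine ⟨fun h => ?_, fun ⟨_, _, h, _⟩ => h⟩
    obtain ⟨c, hc, hv⟩ := exists_comp v
    exact ⟨c, hc, h, hv⟩
  rw [hcover, Finset.card_biUnion]
  · rw [Finset.sum_congr rfl fun c hc => ?_, Finset.sum_const, D.card_ptsF, smul_eq_mul]
    rw [Finset.card_erase_of_mem (Finset.mem_filter.2 ⟨Finset.mem_univ _, zero_mem _⟩),
      ← card_comp (T := T) (D.mem_ptsF.1 hc), Nat.card_eq_fintype_card, Fintype.card_subtype]
  · intro c _ c' _ hne
    rw [Function.onFun, Finset.disjoint_left]
    intro v h1 h2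
    simp only [Finset.mem_erase, Finset.mem_filter, Finset.mem_univ, true_and] at h1 h2
    exact h1.1 (comp_disjoint hne h1.2 h2.2)

/-- Every functional comes from an elation with centre the base point. -/
theorem exists_dual_elation [FaithfulSMul G P] (a : Fin m → F) :
    ∃ x ∈ elGroup T, ∀ t v, (t ≠ 0 ∨ v ≠ 0) → x • C.pt t v = C.pt (t + ∑ j, a j * v j) v := by
  by_cases ha : a = 0
  · exact ⟨1, Subgroup.one_mem _, fun t v _ => by simp [ha]⟩
  let S : Finset ((_ : Q) × G) := (D.blkF C.base).sigma fun X =>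
    (Finset.univ.filter fun x => x ∈ T.Ec X C.base).erase 1
  have hS : ∀ p : (_ : Q) × G, p ∈ S ↔
      D.inc C.base p.1 ∧ p.2 ≠ 1 ∧ p.2 ∈ T.Ec p.1 C.base := fun p => by simp [S]
  let φ : (p : (_ : Q) × G) → p ∈ S → (Fin m → F) := fun p hp =>
    (C.exists_dual ((hS p).1 hp).1 ((hS p).1 hp).2.2).choose
  have hφ : ∀ p hp, ∀ t v, (t ≠ 0 ∨ v ≠ 0) →
      p.2 • C.pt t v = C.pt (t + ∑ j, φ p hp j * v j) v := fun p hp =>
    (C.exists_dual ((hS p).1 hp).1 ((hS p).1 hp).2.2).choose_spec
  have h0 : ∀ p hp, φ p hp ≠ 0 := fun p hp e => ((hS p).1 hp).2.1 (C.ext_pt fun t v hne => by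
    rw [hφ p hp t v hne, e, one_smul]; simp)
  have hcard : #(Finset.univ.erase (0 : Fin m → F)) ≤ #S := by
    rw [Finset.card_erase_of_mem (Finset.mem_univ _), Finset.card_univ, Finset.card_sigma,
      Finset.sum_congr rfl (g := fun _ => T.w - 1) fun X hX => ?_, Finset.sum_const,
      D.card_blkF, smul_eq_mul]
    · have := C.card_points
      simp only [Fintype.card_fun, Fintype.card_fin]
      omega
    · rw [Finset.card_erase_of_mem (Finset.mem_filter.2 ⟨Finset.mem_univ _, Subgroup.one_mem _⟩),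
        T.card_Ec (D.mem_blkF.1 hX)]
  have hinj : ∀ p q hp hq, φ p hp = φ q hq → p = q := by
    intro p q hp hq e
    obtain ⟨hp1, hp2, hp3⟩ := (hS p).1 hp
    obtain ⟨hq1, hq2, hq3⟩ := (hS q).1 hq
    have hxy : p.2 = q.2 := C.ext_pt fun t v hne => by
      rw [hφ p hp t v hne, hφ q hq t v hne, e]
    have hXY : p.1 = q.1 := by
      by_contra hXY
      exact hp2 (T.eq_of_axes hXY hp3.1 (hxy ▸ hq3.1))
    exact Sigma.ext hXY (heq_of_eq hxy)
  obtain ⟨p, hp, he⟩ := Finset.surj_on_of_inj_on_of_card_le φ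
    (fun p hp => Finset.mem_erase.2 ⟨h0 p hp, Finset.mem_univ _⟩) hinj hcard a
    (Finset.mem_erase.2 ⟨ha, Finset.mem_univ _⟩)
  refine ⟨p.2, mem_elGroup ((hS p).1 hp).2.2.1, ?_⟩
  rw [he]
  exact hφ p hp

theorem exists_real [FaithfulSMul G P] (M : Matrix.SpecialLinearGroup (Fin (m + 1)) F) :
    ∃ x ∈ elGroup T, C.Real x M := by
  let S : Subgroup (Matrix.SpecialLinearGroup (Fin (m + 1)) F) :=
    { carrier := {M | ∃ x ∈ elGroup T, C.Real x M}
      one_mem' := ⟨1, Subgroup.one_mem _, C.real_one⟩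
      mul_mem' := fun ⟨x, hx, h⟩ ⟨y, hy, h'⟩ => ⟨x * y, Subgroup.mul_mem _ hx hy, C.real_mul h h'⟩
      inv_mem' := fun ⟨x, hx, h⟩ => ⟨x⁻¹, Subgroup.inv_mem _ hx, C.real_inv h⟩ }
  have hup : ∀ (i : Fin m) (c : F),
      Matrix.SpecialLinearGroup.transvection (Fin.succ_ne_zero i) c ∈ S := fun i c =>
    ⟨_, mem_elGroup (C.tr_mem _), C.real_tr i c⟩
  have hlow : ∀ (j : Fin m) (c : F),
      Matrix.SpecialLinearGroup.transvection (Fin.succ_ne_zero j).symm c ∈ S := fun j c => by
    obtain ⟨x, hx, h⟩ := C.exists_dual_elation (Pi.single j c)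
    refine ⟨x, hx, fun u hu => ?_⟩
    rw [mulVec_transvection, ptV, ptV, h _ _ (ne_zero_iff.1 hu), tail_add_single_zero, Pi.add_apply,
      Pi.single_eq_same, Finset.sum_eq_single j (fun r _ hr => by
        rw [Pi.single_eq_of_ne hr, zero_mul]) (fun h => absurd (Finset.mem_univ j) h),
      Pi.single_eq_same]
    rfl
  have hall : S = ⊤ := by
    refine CfsgLib.Classical.Linear.eq_top_of_transvection_mem fun i j hij c => ?_
    cases i using Fin.cases with
    | zero =>
      cases j using Fin.cases with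
      | zero => exact absurd rfl hij
      | succ j => exact hlow j c
    | succ i =>
      cases j using Fin.cases with
      | zero => exact hup i c
      | succ j =>
        have h := CfsgLib.Classical.Linear.transvection_commutator
          (Fin.succ_ne_zero i) (Fin.succ_ne_zero j).symm hij c (1 : F)
        rw [mul_one] at h
        rw [← h]
        exact S.mul_mem (S.mul_mem (S.mul_mem (hup i c) (hlow j 1)) (S.inv_mem (hup i c)))
          (S.inv_mem (hlow j 1))
  exact (show M ∈ S by rw [hall]; exact Subgroup.mem_top M)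

end Coord

end CfsgLib.ItoDesign48
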