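import Mathlib
import Cfsg.Agent.ItoDesign48.Proj
import Cfsg.Agent.ItoDesign48.Kernel

/-!
The group generated by all elations is a normal projective special linear group with trivial
centraliser.
-/

set_option autoImplicit false

namespace CfsgLib.ItoDesign48

open MulAction Finset Vec
open scoped _root_.Classical

universe uG

variable {G : Type uG} {P Q : Type*} [Group G] [MulAction G P] [MulAction G Q] [Fintype P]
  [Fintype Q] [Fintype G] {D : Sym G P Q}

open Coord (elGroup mem_elGroup)

theorem card_vec (T : Elation D) (B : Q) : Fintype.card (Vec T B) = #(T.EF B) := by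
  rw [← Nat.card_eq_fintype_card, show Nat.card (Vec T B) = Nat.card (T.E B) from rfl,
    Nat.card_eq_fintype_card, Fintype.card_subtype]
  rfl

theorem elGroup_normal (T : Elation D) : (elGroup T).Normal := by
  refine ⟨fun x hx g => ?_⟩
  have h : elGroup T ≤ (elGroup T).comap (MulAut.conj g).toMonoidHom :=
    iSup_le fun X y hy => mem_elGroup (T.conj g X y hy)
  exact h hx

theorem centralizer_elGroup [FaithfulSMul G P] (T : Elation D) :
    Subgroup.centralizer (elGroup T : Set G) = ⊥ := by
  rw [Subgroup.eq_bot_iff_forall]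
  intro g hg
  rw [Subgroup.mem_centralizer_iff] at hg
  have hblock : ∀ X : Q, g • X = X := by
    intro X
    obtain ⟨x, hx, hx1⟩ : ∃ x ∈ T.E X, x ≠ 1 := by
      by_contra h
      push Not at h
      exact T.ne_bot X ((Subgroup.eq_bot_iff_forall _).2 h)
    by_contra hne
    have h := T.conj g X x hx
    rw [← hg x (mem_elGroup hx), mul_inv_cancel_right] at h
    exact hx1 (T.eq_of_axes (Ne.symm hne) hx h)
  refine FaithfulSMul.eq_of_smul_eq_smul fun p : P => ?_
  rw [one_smul]
  exact D.eq_of_blkF_subset fun X hX => (D.smul_inc_iff (hblock X) p).1 hX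

namespace Coord

variable {T : Elation D} {B : Q} {F : Type} [Field F] [Fintype F] {m : ℕ} (C : Coord T B F m)

theorem real_unique [FaithfulSMul G P] {x x' : G}
    {M : Matrix.SpecialLinearGroup (Fin (m + 1)) F} (h : C.Real x M) (h' : C.Real x' M) :
    x = x' :=
  C.ext_ptV fun u hu => (h u hu).trans (h' u hu).symm

/-- The homomorphism from the special linear group. -/
noncomputable def toG [FaithfulSMul G P] : Matrix.SpecialLinearGroup (Fin (m + 1)) F →* G :=
  MonoidHom.mk' (fun M => (C.exists_real M).choose) fun M M' =>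
    C.real_unique (C.exists_real (M * M')).choose_spec.2
      (C.real_mul (C.exists_real M).choose_spec.2 (C.exists_real M').choose_spec.2)

theorem toG_real [FaithfulSMul G P] (M : Matrix.SpecialLinearGroup (Fin (m + 1)) F) :
    C.Real (C.toG M) M :=
  (C.exists_real M).choose_spec.2

theorem toG_eq [FaithfulSMul G P] {x : G} {M : Matrix.SpecialLinearGroup (Fin (m + 1)) F}
    (h : C.Real x M) : C.toG M = x :=
  C.real_unique (C.toG_real M) h

theorem ker_toG [FaithfulSMul G P] :
    C.toG.ker = Subgroup.center (Matrix.SpecialLinearGroup (Fin (m + 1)) F) := by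
  ext M
  constructor
  · intro hM
    rw [MonoidHom.mem_ker] at hM
    have heig : ∀ u, u ≠ 0 → ∃ k : F, M.1.mulVec u = k • u := by
      intro u hu
      have h := C.toG_real M u hu
      rw [hM, one_smul] at h
      obtain ⟨k, -, h1, h2⟩ := C.exists_smul_of_pt_eq (ne_zero_iff.1 hu)
        (ne_zero_iff.1 (mulVec_ne_zero M hu)) h
      refine ⟨k, funext fun i => ?_⟩
      cases i using Fin.cases with
      | zero => exact h1
      | succ i => exact congrFun h2 i
    -- every vector is an eigenvector
    have hcol : ∀ j, ∃ k : F, ∀ i, M.1 i j = if i = j then k else 0 := by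
      intro j
      obtain ⟨k, hk⟩ := heig (Pi.single j 1) (by simp)
      refine ⟨k, fun i => ?_⟩
      have h := congrFun hk i
      rw [Matrix.mulVec_single_one] at h
      refine h.trans ?_
      rw [Pi.smul_apply, Pi.single_apply, smul_eq_mul]
      split_ifs <;> simp
    choose k hk using hcol
    have hconst : ∀ i j, k i = k j := by
      intro i j
      by_cases hij : i = j
      · rw [hij]
      obtain ⟨c, hc⟩ := heig (Pi.single i 1 + Pi.single j 1) fun h => by
        have := congrFun h i
        simp [Pi.single_eq_of_ne hij] at this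
      rw [Matrix.mulVec_add, Matrix.mulVec_single_one, Matrix.mulVec_single_one] at hc
      have h1 := congrFun hc i
      have h2 := congrFun hc j
      simp [hk, Pi.single_eq_of_ne hij, Pi.single_eq_of_ne (Ne.symm hij), hij, Ne.symm hij] at h1 h2
      rw [h1, h2]
    rw [Subgroup.mem_center_iff]
    intro A
    apply Subtype.ext
    rw [Matrix.SpecialLinearGroup.coe_mul, Matrix.SpecialLinearGroup.coe_mul]
    have hM' : M.1 = Matrix.scalar (Fin (m + 1)) (k 0) := by
      ext i j
      rw [hk j i, Matrix.scalar_apply, Matrix.diagonal_apply]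
      split_ifs with h
      · subst h; exact hconst i 0
      · rfl
    rw [hM']
    exact (Matrix.scalar_commute (k 0) (Commute.all _) A.1).symm.eq
  · intro hM
    rw [MonoidHom.mem_ker]
    refine C.toG_eq fun u hu => ?_
    obtain ⟨r, hr, hrM⟩ := Matrix.SpecialLinearGroup.mem_center_iff.1 hM
    have hr0 : r ≠ 0 := by
      rintro rfl
      rw [zero_pow (by simp)] at hr
      exact zero_ne_one hr
    rw [one_smul, ← hrM, Matrix.scalar_apply]
    have : (Matrix.diagonal fun _ : Fin (m + 1) => r).mulVec u = r • u := by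
      funext i; rw [Matrix.mulVec_diagonal]; rfl
    rw [this]
    exact (C.pt_smul (ne_zero_iff.1 hu) hr0).symm

theorem range_toG_le [FaithfulSMul G P] : C.toG.range ≤ elGroup T := by
  rintro _ ⟨M, rfl⟩
  exact (C.exists_real M).choose_spec.1

theorem tr_mem_range [FaithfulSMul G P] (τ : Fin m → F) : C.tr τ ∈ C.toG.range := by
  rw [← Finset.univ_sum_single τ]
  induction (Finset.univ : Finset (Fin m)) using Finset.induction_on with
  | empty => rw [Finset.sum_empty, C.tr_zero]; exact Subgroup.one_mem _
  | insert j s hj ih =>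
    rw [Finset.sum_insert hj, C.tr_add]
    exact Subgroup.mul_mem _ ⟨_, C.toG_eq (C.real_tr j (τ j))⟩ ih

theorem dual_mem_range [FaithfulSMul G P] (a : Fin m → F) {x : G}
    (hx : ∀ t v, (t ≠ 0 ∨ v ≠ 0) → x • C.pt t v = C.pt (t + ∑ j, a j * v j) v) :
    x ∈ C.toG.range := by
  suffices h : ∀ s : Finset (Fin m), ∀ x : G,
      (∀ t v, (t ≠ 0 ∨ v ≠ 0) → x • C.pt t v = C.pt (t + ∑ j ∈ s, a j * v j) v) →
      x ∈ C.toG.range from h Finset.univ x hx
  intro s
  induction s using Finset.induction_on with
  | empty =>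
    intro x hx
    have hx1 : x = 1 := C.ext_pt fun t v hne => by
      rw [hx t v hne, one_smul, Finset.sum_empty, add_zero]
    rw [hx1]
    exact Subgroup.one_mem _
  | insert j s hj ih =>
    intro x hx
    set y := C.toG (Matrix.SpecialLinearGroup.transvection (Fin.succ_ne_zero j).symm (a j)) with hy
    have hy' : ∀ t v, (t ≠ 0 ∨ v ≠ 0) → y • C.pt t v = C.pt (t + a j * v j) v := by
      intro t v hne
      have h := C.toG_real (Matrix.SpecialLinearGroup.transvection (Fin.succ_ne_zero j).symm (a j))
        (Fin.cons t v) (ne_zero_iff.2 (by simpa using hne))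
      rw [mulVec_transvection, ptV, ptV, tail_add_single_zero, Pi.add_apply, Pi.single_eq_same]
        at h
      simpa using h
    have hrest : y⁻¹ * x ∈ C.toG.range := ih _ fun t v hne => by
      rw [mul_smul, inv_smul_eq_iff, hx t v hne, Finset.sum_insert hj, hy']
      · congr 1; ring
      · by_cases hv : v = 0
        · left; simpa [hv] using hne
        · exact Or.inr hv
    have := Subgroup.mul_mem _ (show y ∈ C.toG.range from ⟨_, rfl⟩) hrest
    rwa [mul_inv_cancel_left] at this

theorem range_toG [FaithfulSMul G P] : C.toG.range = elGroup T := by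
  refine le_antisymm C.range_toG_le (iSup_le fun X => ?_)
  have hB : T.E B ≤ C.toG.range := fun x hx => by
    have := C.tr_mem_range (C.lin (Vec.mk x hx))
    rwa [tr, AddEquiv.symm_apply_apply, val_mk] at this
  -- blocks avoiding the base point
  have hoff : ∀ Y, ¬ D.inc C.base Y → ∃ x ∈ C.toG.range, x • B = Y := by
    intro Y hY
    by_cases hYB : Y = B
    · exact ⟨1, Subgroup.one_mem _, by rw [one_smul, hYB]⟩
    obtain ⟨X', hX', hbX'⟩ := T.exists_mem_line_inc (Ne.symm hYB) C.base
    have hX'B : B ≠ X' := fun e => C.hbase (e ▸ hbX')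
    have hl := T.line_congr (Ne.symm hYB) hX'B.symm hX' (T.self_mem_line B Y).1
    have hYorb : Y ∈ T.orb X' B := by
      have h := (T.self_mem_line B Y).2
      rw [← hl, T.line_eq hX'B.symm, Finset.mem_insert] at h
      exact h.resolve_left fun e => hY (e ▸ hbX')
    obtain ⟨v, hv, hvY⟩ := T.mem_orb.1 hYorb
    obtain ⟨z, hz, hvz⟩ := exists_split (T := T) hX'B hbX' C.hbase (Vec.mk v hv)
    obtain ⟨a, ha⟩ := C.exists_dual hbX' hz
    refine ⟨z.val, C.dual_mem_range a ha, ?_⟩
    rw [mem_fixC, sub_eq_add_neg, add_comm, val_add, val_neg, val_mk, mul_smul, inv_smul_eq_iff,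
      hvY] at hvz
    exact hvz.symm
  obtain ⟨g, hg, hgX⟩ : ∃ g ∈ C.toG.range, g • B = X := by
    by_cases hX : D.inc C.base X
    swap
    · exact hoff X hX
    have hXB : X ≠ B := fun e => C.hbase (e ▸ hX)
    obtain ⟨y, hy⟩ : ((D.ptsF X ∪ D.ptsF B)ᶜ).Nonempty := by
      rw [← Finset.card_pos, Finset.card_compl]
      have h1 := Finset.card_union_add_card_inter (D.ptsF X) (D.ptsF B)
      rw [D.card_ptsF, D.card_ptsF, D.card_ptsF_inter hXB] at h1
      have h2 := T.card_univ_eq B
      have h3 := T.two_le_w B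
      have h4 := D.l_lt
      have h5 := Nat.mul_le_mul_right (D.k - D.l) h3
      omega
    simp only [Finset.mem_compl, Finset.mem_union, Sym.mem_ptsF, not_or] at hy
    obtain ⟨σ, hσ, hσy⟩ := T.exists_smul_eq hy.2 C.hbase
    have hnot : ¬ D.inc C.base (σ • X) := fun h => hy.1 ((D.inc_smul σ y X).1 (by rwa [hσy]))
    obtain ⟨x, hx, hxB⟩ := hoff _ hnot
    exact ⟨σ⁻¹ * x, Subgroup.mul_mem _ (Subgroup.inv_mem _ (hB hσ)) hx,
      by rw [mul_smul, hxB, inv_smul_smul]⟩
  subst hgX
  intro x hx
  have h := T.conj g⁻¹ (g • B) x hx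
  rw [inv_inv, inv_smul_smul] at h
  have := Subgroup.mul_mem _ (Subgroup.mul_mem _ hg (hB h)) (Subgroup.inv_mem _ hg)
  simpa [mul_assoc] using this

include C in
theorem two_le_m : 2 ≤ m := by
  obtain ⟨X, hX⟩ := D.exists_ne_block B
  have h1 := T.card_orb_mul B X
  rw [T.orb_eq_w hX.symm] at h1
  have h2 := T.two_le_stab hX.symm
  have h3 := T.two_le_w B
  have hA : #(T.EF B) = Fintype.card F ^ m := by
    have e : Fintype.card (Vec T B) = Fintype.card F ^ m := by
      rw [Fintype.card_congr C.lin.toEquiv]; simp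
    rw [← e, card_vec]
  rw [hA, C.cardF] at h1
  by_contra hc
  have h4 : T.w ^ m ≤ T.w ^ 1 := Nat.pow_le_pow_right (by omega) (by omega)
  have h5 : T.w * 2 ≤ T.w * #(T.stabF B X) := Nat.mul_le_mul_left _ h2
  rw [h1, pow_one] at *
  omega

include C in
theorem card_eq : Fintype.card P = (Fintype.card F ^ (m + 1) - 1) / (Fintype.card F - 1) := by
  have h1 := C.card_points
  have h2 : Fintype.card P = D.k + Fintype.card F ^ m := by
    have e : Fintype.card (Vec T B) = Fintype.card F ^ m := by
      rw [Fintype.card_congr C.lin.toEquiv]; simp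
    have h := T.card_EF_eq B
    have h' := D.k_add_two
    rw [← e, card_vec]
    omega
  have h3 : 2 ≤ Fintype.card F := Fintype.one_lt_card
  rw [C.cardF] at *
  have key : T.w ^ (m + 1) - 1 = Fintype.card P * (T.w - 1) := by
    obtain ⟨w', hw'⟩ : ∃ w', T.w = w' + 1 := ⟨T.w - 1, by omega⟩
    have e : ((D.k * w' + 1) * (w' + 1)) = (D.k + (D.k * w' + 1)) * w' + 1 := by ring
    rw [h2, pow_succ, ← h1, hw', Nat.add_sub_cancel, e, Nat.add_sub_cancel]
  rw [key, Nat.mul_div_cancel _ (by omega)]

end Coord

/-- Ito's theorem for a symmetric design with a pointwise stabiliser of a block. -/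
theorem main [FaithfulSMul G P] (D : Sym G P Q) {B₀ : Q} {x₀ : G} (hx₀ : x₀ ∈ D.pw B₀)
    (hx₀1 : x₀ ≠ 1) :
    ∃ (m : ℕ) (F : Type) (_ : Field F) (_ : Fintype F), 2 ≤ m ∧
      Fintype.card P = (Fintype.card F ^ (m + 1) - 1) / (Fintype.card F - 1) ∧
      ∃ N : Subgroup G, N.Normal ∧
        Nonempty (N ≃* Matrix.ProjectiveSpecialLinearGroup (Fin (m + 1)) F) ∧
        Subgroup.centralizer (N : Set G) = ⊥ := by
  obtain ⟨T⟩ := D.exists_elation hx₀ hx₀1
  obtain ⟨F, iF, iFf, m, ⟨C⟩⟩ := exists_coord T B₀
  refine ⟨m, F, iF, iFf, C.two_le_m, C.card_eq, elGroup T, elGroup_normal T, ?_,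
    centralizer_elGroup T⟩
  exact ⟨(MulEquiv.subgroupCongr C.range_toG.symm).trans
    ((QuotientGroup.quotientKerEquivRange C.toG).symm.trans
      (QuotientGroup.quotientMulEquivOfEq C.ker_toG))⟩

end CfsgLib.ItoDesign48
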